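import Mathlib
import Cfsg.Agent.QE.Defs
import Cfsg.Agent.QT.Rank
import Cfsg.Agent.Chev.LiePk
import Cfsg.Agent.GT.PumpTwo

/-!
# S1849: definitions (plan in `stubs/Cfsg/Agent/QF/PLAN.md`)
-/

set_option autoImplicit false

namespace Cfsg.Agent.QF

open Cfsg Subgroup Cfsg.Agent.GT Cfsg.Agent.Inv Cfsg.Agent.Cmp Cfsg.Agent.QE
open scoped commutatorElement

universe u

/-! ### Abstract groups -/

section Abs

variable {X : Type*} [Group X]

/-- `α` is an involutory automorphism and `I` a component of its fixed points. -/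
structure Cp (α : MulAut X) (I : Subgroup X) : Prop where
  sq : α * α = 1
  ne : α ≠ 1
  comp : IsComponentOf I (fixedSubgroup α)

variable (X) in
/-- No involutory automorphism has a component in its fixed points. -/
def NP : Prop := ∀ (α : MulAut X) (I : Subgroup X), ¬ Cp α I

variable (X) in
/-- A Sylow 2-subgroup normalizes no cyclic group of automorphisms of order 4. -/
def Z4 : Prop := ∀ (U : Sylow 2 X) (c : MulAut X), c ^ 4 = 1 →
  (∀ u ∈ U, MulAut.conj u * c * (MulAut.conj u)⁻¹ = c ∨ MulAut.conj u * c * (MulAut.conj u)⁻¹ = c⁻¹) →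
    c ^ 2 = 1

/-- The facts used about a vertical pump-up. -/
structure PU (α : MulAut X) (I : Subgroup X) : Prop where
  idx : ∀ U : Sylow 2 X, (∀ u ∈ U, α u ∈ U) → ¬ (fixedSubgroup α).relIndex U ≤ 2
  cen : ∀ β : MulAut X, Two β → Commute α β → (∀ x ∈ I, β x = x) → β = 1 ∨ β = α
  z4 : Z4 X

variable (X) in
/-- An involutory automorphism fixing a subgroup of index at most 2 of a Sylow 2-subgroup is inner. -/
def IX : Prop := ∀ (U : Sylow 2 X) (α : MulAut X), α * α = 1 → (∀ u ∈ U, α u ∈ U) →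
  (fixedSubgroup α).relIndex U ≤ 2 → α ∈ Inn X

variable (X) in
/-- Automorphisms acting trivially on `U / Z(U)`. -/
def K1 : Prop := ∀ (U : Sylow 2 X) (β : MulAut X), ∀ z ∈ U, z ∈ CC (U : Subgroup X) →
  β * β = MulAut.conj z → (∀ u ∈ U, β u * u⁻¹ ∈ (U : Subgroup X) ⊓ CC (U : Subgroup X)) →
    ∃ u ∈ U, β = MulAut.conj u

variable (X) in
/-- A Sylow 2-subgroup has no normal cyclic subgroup of order 4. -/
def NU : Prop := ∀ U : Sylow 2 X, ∀ x ∈ U, x ^ 4 = 1 →
  (∀ u ∈ U, u * x * u⁻¹ = x ∨ u * x * u⁻¹ = x⁻¹) → x ^ 2 = 1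

variable (X) in
/-- A 2-automorphism normalizing `U` and fixing `Ω₁ Z(U)` pointwise has an inner square. -/
def ZV : Prop := ∀ (U : Sylow 2 X) (β : MulAut X), Two β → (∀ u ∈ U, β u ∈ U) →
  (∀ v ∈ U, v ∈ CC (U : Subgroup X) → v * v = 1 → β v = v) → β * β ∈ Inn X

variable (X) in
/-- No four-group of outer automorphisms fixes a component of one of its members. -/
def OC : Prop := ∀ (α γ : MulAut X) (I : Subgroup X), Cp α I → γ * γ = 1 → Commute α γ →
  (∀ x ∈ I, γ x = x) → α ∈ Inn X ∨ γ ∈ Inn X ∨ α * γ ∈ Inn X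

variable (X) in
/-- The generic members of the list. -/
structure Gd : Prop where
  loc : Chev.LocChar 2 X
  ix : IX X
  z4 : Z4 X
  zv : ZV X
  oc : OC X

variable (X) in
/-- The facts used about `HS` (`p = 3`, `n = 9`) and `Ru` (`p = 5`, `n = 14`). -/
structure Sp0 (p n : ℕ) : Prop where
  pr : p.Prime
  p2 : p ≠ 2
  pp : PRankAtLeast p 2 X
  out : Nat.card (Out X) ∣ 2
  big : 2 ^ n ∣ Nat.card X
  cv : ∀ U : Sylow 2 X, ∃ v ∈ U, orderOf v = 2 ∧ Loc.Am.IsCharP 2 (C1 v) ∧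
    ∀ x ∈ CC (U : Subgroup X), x = 1 ∨ x = v

variable (X) in
/-- The facts used about `A₆` and `A₈`. -/
structure A68 : Prop where
  simple : IsSimpleGroup X
  pp : PRankAtLeast 3 2 X
  aut : ¬ 2 ^ 9 ∣ Nat.card (MulAut X)
  kl : ∀ η : MulAut X, η * η = 1 → η ≠ 1 →
    (∀ B : Subgroup (MulAut X), B ≤ C1 η → ⁅B, B⁆ = B → B = ⊥) ∨
      ∃ M : Subgroup X, IsQuasisimple M ∧ M ≤ fixedSubgroup η ∧
        (∀ β : MulAut X, Commute η β → ∀ m ∈ M, β m ∈ M) ∧ 3 ∣ Nat.card M ∧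
          ¬ 2 ^ 9 ∣ Nat.card (MulAut (M ⧸ center M))

variable (X) in
/-- The facts used about `Sz(8)`. -/
structure Z8 : Prop where
  card : Nat.card X = 29120
  simple : IsSimpleGroup X
  aut : ¬ 2 ^ 7 ∣ Nat.card (MulAut X)
  c5 : ∀ η ρ : MulAut X, η * η = 1 → η ≠ 1 → ρ ^ 5 = 1 → Commute η ρ → ρ = 1
  fix : ∀ (U : Sylow 2 X) (η : MulAut X), η * η = 1 → (∀ u ∈ U, η u ∈ U) → ∀ u ∈ U, η u = u

end Abs

/-! ### Subgroups of a group -/

variable {G : Type*} [Group G]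

/-- The image of `K ⊓ J` in `J / Z(J)`. -/
def bar (J K : Subgroup G) : Subgroup (J ⧸ center J) :=
  (K.subgroupOf J).map (QuotientGroup.mk' (center J))

/-- The action of `N(J)` on `J / Z(J)`. -/
def act (J : Subgroup G) : NN J →* MulAut (J ⧸ center J) :=
  (QT.quotAut (center J)).comp J.normalizerMonoidHom

theorem act_mk {J : Subgroup G} (n : NN J) (j : J) :
    act J n (QuotientGroup.mk j) = QuotientGroup.mk (J.normalizerMonoidHom n j) := rfl

theorem mem_bar {J K : Subgroup G} {x : J ⧸ center J} :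
    x ∈ bar J K ↔ ∃ j : J, (j : G) ∈ K ∧ QuotientGroup.mk j = x := Iff.rfl

/-- The global hypotheses. -/
structure Gq (G : Type u) [Group G] : Prop where
  gl : Gl G
  nab : ¬ IsMulCommutative G
  kp : IsKProper G
  nrm : ∀ (T K : Subgroup G) (z : G), Syl T ⊤ → orderOf z = 2 → z ∈ T → T ≤ C1 z →
    IsComponentOf K (C1 z) → C1 z ≤ NN K

/-- `L` is a component of `C(z)` with `z ∈ Z(T)`. -/
structure Ct (T L : Subgroup G) (z : G) : Prop where
  syl : Syl T ⊤
  z2 : orderOf z = 2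
  zT : z ∈ T
  zc : T ≤ C1 z
  comp : IsComponentOf L (C1 z)

/-- An involution of `C(L)` in whose centralizer `L` is not a component. -/
def Bad (L : Subgroup G) (y : G) : Prop := orderOf y = 2 ∧ y ∈ CC L ∧ ¬ IsComponentOf L (C1 y)

/-- A bad involution of `T` with the largest centralizer in `T`. -/
structure Mx (T L : Subgroup G) (z y : G) : Prop extends Ct T L z where
  yT : y ∈ T
  bad : Bad L y
  max : ∀ w ∈ T, Bad L w → Nat.card (T ⊓ C1 w : Subgroup G) ≤ Nat.card (T ⊓ C1 y : Subgroup G)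

/-- The facts used about the pump-up `J` of `L` in `C(y)`. -/
structure Pm (L J : Subgroup G) (z y : G) : Prop where
  le : L ≤ J
  Jy : J ≤ C1 y
  perf : ⁅J, J⁆ = J
  nJ : C1 y ⊓ NN L ≤ NN J
  bad : ∀ w ∈ CC J, orderOf w = 2 → ¬ IsComponentOf L (C1 w)
  idx : ∀ R : Subgroup G, IsPGroup 2 R → z ∈ R → R ≤ NN J → Syl (R ⊓ J) J →
    ¬ (C1 z).relIndex (R ⊓ J) ≤ 2
  cen : ∀ q ∈ CC L, q ∈ C1 y → Two q → Commute q z → q ∈ CC J ∨ q * z ∈ CC J
  z4 : ∀ (R : Subgroup G) (c : G), IsPGroup 2 R → z ∈ R → R ≤ C1 y ⊓ NN J → Syl (R ⊓ J) J →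
    c ∈ C1 y → c ^ 4 = 1 → (∀ u ∈ R, u * c * u⁻¹ = c ∨ u * c * u⁻¹ = c⁻¹) → c ^ 2 ∈ CC J
  triv : ∀ (w : G) (K : Subgroup G), orderOf w = 2 → w ∈ CC J → Commute w y → Commute w z →
    (∀ M, IsComponentOf M (C1 w) → C1 w ≤ NN M) → IsComponentOf K (C1 w) →
      Nat.card K = Nat.card L → J ≤ CC K

/-- A 2-central pair `(z, L)` whose Sylow subgroup `T` contains `y` and a Sylow subgroup of the
component `J` of `C(y)`. -/
structure Sc (T L J : Subgroup G) (z y : G) : Prop extends Ct T L z where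
  y2 : orderOf y = 2
  yT : y ∈ T
  cJ : IsComponentOf J (C1 y)
  sJ : Syl (T ⊓ J) J
  zen : center L = ⊥

end Cfsg.Agent.QF
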