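import Mathlib
import Cfsg.Agent.QF.Defs
import Cfsg.Agent.QE.Bar
import Cfsg.Agent.QE.Set
import Cfsg.Agent.GT.PGroupElemAb
import Cfsg.Agent.GT.PGroupBasic

/-! # S1849, piece QF-Act: the action on the central quotient (proof in stubs/Cfsg/Agent/QF/PLAN.md) -/

set_option autoImplicit false
set_option linter.unusedVariables false

namespace Cfsg.Agent.QF

open Cfsg Subgroup Cfsg.Agent.GT Cfsg.Agent.Inv Cfsg.Agent.Cmp Cfsg.Agent.QE
open scoped commutatorElement

universe u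

variable {G : Type u} [Group G] [Finite G] {T L J D K M S : Subgroup G} {z y : G}

omit [Finite G] in
theorem Act_cen {j : J} : j ∈ center J ↔ (j : G) ∈ CC J := by
  rw [← centralizer_subgroupOf_self, mem_subgroupOf]

omit [Finite G] in
theorem Act_coe (n : NN J) (j : J) : (J.normalizerMonoidHom n j : G) = n * j * (n : G)⁻¹ := rfl

omit [Finite G] in
theorem Act_eq {a b : J} : (QuotientGroup.mk a : J ⧸ center J) = QuotientGroup.mk b ↔ a * b⁻¹ ∈ center J := by
  rw [← QuotientGroup.eq_one_iff, QuotientGroup.mk_mul, QuotientGroup.mk_inv, mul_inv_eq_one]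

omit [Finite G] in
theorem Act_fix {n : NN J} {j : J} : act J n (QuotientGroup.mk j) = QuotientGroup.mk j ↔
    J.normalizerMonoidHom n j * j⁻¹ ∈ center J := by
  rw [act_mk, Act_eq]

theorem mk_eq_one {j : J} : (QuotientGroup.mk j : J ⧸ center J) = 1 ↔ (j : G) ∈ CC J := by
  rw [QuotientGroup.eq_one_iff, Act_cen]

theorem act_fix {n : NN J} {j : J} :
    act J n (QuotientGroup.mk j) = QuotientGroup.mk j ↔ ⁅(n : G), (j : G)⁆ ∈ CC J := by
  rw [Act_fix, Act_cen]
  rfl

theorem act_eq_one (hJ : ⁅J, J⁆ = J) {n : NN J} : act J n = 1 ↔ (n : G) ∈ CC J := by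
  constructor
  · intro h
    have := isPerfect_iff.2 hJ
    have h1 := perfect_hom_eq_self (J.normalizerMonoidHom n : J →* J) fun j =>
      Act_fix.1 (by rw [h, MulAut.one_apply])
    exact mem_CC.2 fun k hk => (comm_of_conj_eq (congrArg Subtype.val (h1 ⟨k, hk⟩))).symm
  · intro h
    ext x
    obtain ⟨j, rfl⟩ := QuotientGroup.mk_surjective x
    rw [MulAut.one_apply, act_fix, (comm_of_CC h j.2).symm.commutator_eq]
    exact one_mem _

theorem act_of_mem (j : J) : act J ⟨j, le_normalizer j.2⟩ = MulAut.conj (QuotientGroup.mk j) := by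
  ext x
  obtain ⟨k, rfl⟩ := QuotientGroup.mk_surjective x
  rfl

theorem syl_bar (hS : Syl S J) : ∃ U : Sylow 2 (J ⧸ center J), (U : Subgroup _) = bar J S :=
  ⟨((hS.two.of_equiv (subgroupOfEquivOfLe hS.le).symm).map (QuotientGroup.mk' (center J))).toSylow fun h =>
    hS.idx (h.trans (index_map_dvd (S.subgroupOf J) (QuotientGroup.mk'_surjective _))), rfl⟩

theorem zen_le_syl (h2 : IsPGroup 2 (center J)) (hS : Syl S J) : J ⊓ CC J ≤ S := by
  have h : IsPGroup 2 (J ⊓ CC J : Subgroup G) := by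
    rw [← map_center_subtype]; exact h2.map _
  have hn : S ≤ NN (J ⊓ CC J) := bar_le_NN fun x hx n hn => by
    rw [conj_eq_of_comm (comm_of_CC hn.2 (hS.le hx))]; exact hn
  exact le_sup_right.trans (hS.le_of_le (hS.two.to_sup_of_normal_right' h hn) le_sup_left
    (sup_le hS.le inf_le_left))

theorem card_bar (hK : K ≤ J) : Nat.card K = Nat.card (bar J K) * Nat.card (K ⊓ CC J : Subgroup G) := by
  let f : K →* J ⧸ center J := (QuotientGroup.mk' (center J)).comp (inclusion hK)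
  have hr : f.range = bar J K := by
    ext x
    exact ⟨fun ⟨k, e⟩ => ⟨inclusion hK k, k.2, e⟩, fun ⟨j, hj, e⟩ => ⟨⟨j, hj⟩, e⟩⟩
  have hk : f.ker = (K ⊓ CC J).subgroupOf K := by
    ext k
    rw [MonoidHom.mem_ker, mem_subgroupOf, mem_inf]
    exact mk_eq_one.trans ⟨fun h => ⟨k.2, h⟩, fun h => h.2⟩
  rw [← hr, ← index_ker, ← Nat.card_congr (subgroupOfEquivOfLe inf_le_left).toEquiv, ← hk, mul_comm,
    card_mul_index]

theorem relIndex_bar_le {n : NN J} (hS : S ≤ J) :
    (fixedSubgroup (act J n)).relIndex (bar J S) ≤ (C1 (n : G)).relIndex S := by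
  rw [bar, ← relIndex_comap, ← relIndex_subgroupOf hS]
  refine relIndex_le_of_le_left (fun j hj => ?_) index_ne_zero_of_finite
  refine act_fix.2 ?_
  rw [(mem_C1.1 (mem_subgroupOf.1 hj)).symm.commutator_eq]
  exact one_mem _

theorem cp_of (hJ : IsQuasisimple J) (hz : z * z = 1) (hn : z ∈ NN J)
    (hL : IsComponentOf L (J ⊓ C1 z)) (hne : L ≠ J) : Cp (act J ⟨z, hn⟩) (bar J L) := by
  have hLJ : L ≤ J := hL.le.trans inf_le_left
  refine ⟨by rw [← map_mul, show (⟨z, hn⟩ * ⟨z, hn⟩ : NN J) = 1 from Subtype.ext hz, map_one], fun h => ?_, ?_⟩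
  · have hc : z ∈ CC J := (act_eq_one hJ.commutator_eq).1 h
    rw [inf_eq_left.2 fun j hj => mem_C1.2 (comm_of_CC hc hj)] at hL
    rcases hJ.eq_or_le_centralizer hL.subnormalIn with h | h
    · exact hne h
    · exact hL.isQuasisimple.not_le_centralizer (h.trans (centralizer_le hLJ))
  set α := J.normalizerMonoidHom ⟨z, hn⟩ with hα
  have hF : fixedSubgroup α = (J ⊓ C1 z).subgroupOf J := by
    ext y
    change α y = y ↔ _
    rw [mem_subgroupOf, mem_inf, mem_C1, Subtype.ext_iff]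
    exact ⟨fun h => ⟨y.2, (comm_of_conj_eq h).symm⟩, fun h => conj_eq_of_comm h.2.symm⟩
  have hL' : IsComponentOf (L.subgroupOf J) (fixedSubgroup α) := hF ▸ hL.subgroupOf inf_le_left
  let π : J →* J ⧸ center J := QuotientGroup.mk' (center J)
  have h1 : fixedSubgroup α ≤ (fixedSubgroup (act J ⟨z, hn⟩)).comap π := fun y hy =>
    (act_mk _ _).trans (congrArg QuotientGroup.mk hy)
  have h2 : (fixedSubgroup (act J ⟨z, hn⟩)).comap π ≤ NN (fixedSubgroup α) := by
    refine bar_le_NN fun x hx y hy => ?_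
    have hy' : α y = y := hy
    have hx' : α x * x⁻¹ ∈ center J := Act_fix.1 hx
    change α (x * y * x⁻¹) = x * y * x⁻¹
    rw [map_mul, map_mul, map_inv, hy']
    have := mem_center_iff.1 hx' (x * y * x⁻¹)
    calc α x * y * (α x)⁻¹ = (α x * x⁻¹) * (x * y * x⁻¹) * (α x * x⁻¹)⁻¹ := by group
      _ = x * y * x⁻¹ := by rw [← this]; group
  have h3 := (hL'.trans (SubnormalIn.of_le_normalizer h1 h2)).map π fun h =>
    hL.isQuasisimple.not_le_centralizer fun x hx => centralizer_le hLJ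
      (mk_eq_one.1 (mem_bot.1 (h ▸ mem_map_of_mem π (show (⟨x, hLJ hx⟩ : J) ∈ L.subgroupOf J from hx))))
  rwa [map_comap_eq_self_of_surjective (QuotientGroup.mk'_surjective _)] at h3

theorem bar_quot (hL : IsQuasisimple L) (hle : L ≤ J) :
    Nonempty (L ⧸ center L ≃* bar J L ⧸ center (bar J L)) ∧
      (IsPGroup 2 (center L) → IsPGroup 2 (center (bar J L))) ∧
        (center (bar J L) = ⊥ → L ⊓ CC L ≤ CC J) := by
  let f : L →* bar J L := ((QuotientGroup.mk' (center J)).comp (inclusion hle)).codRestrict _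
    fun k => ⟨inclusion hle k, k.2, rfl⟩
  have hf : Function.Surjective f := fun ⟨x, j, hj, e⟩ => ⟨⟨j, hj⟩, Subtype.ext e⟩
  have h1 : ∀ k, f k = 1 ↔ (k : G) ∈ CC J := fun k => Subtype.ext_iff.trans mk_eq_one
  have hc : ∀ k ∈ center L, f k ∈ center (bar J L) := fun k hk => mem_center_iff.2 fun x => by
    obtain ⟨a, rfl⟩ := hf x
    rw [← map_mul, ← map_mul, mem_center_iff.1 hk a]
  let g := (QuotientGroup.mk' (center (bar J L))).comp f
  have hg : ∀ k, k ∈ g.ker ↔ f k ∈ center (bar J L) := fun k => QuotientGroup.eq_one_iff _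
  have hk : g.ker = center L := by
    refine le_antisymm ((hL.normal_eq_top_or_le_center g.ker).resolve_left fun h => ?_) fun k hk => (hg k).2 (hc k hk)
    refine hL.center_ne_top (eq_top_iff.2 (hL.commutator_eq_top.ge.trans (commutator_le.2 fun a _ b _ => ?_)))
    refine Act_cen.2 (centralizer_le hle ((h1 _).1 ?_))
    rw [map_commutatorElement, commutatorElement_eq_one_iff_mul_comm]
    exact mem_center_iff.1 ((hg b).1 (h ▸ mem_top b)) _
  refine ⟨⟨(QuotientGroup.quotientMulEquivOfEq hk.symm).trans (QuotientGroup.quotientKerEquivOfSurjective g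
    ((QuotientGroup.mk'_surjective _).comp hf))⟩, fun h => (h.map f).to_le fun x hx => ?_, fun h x hx => ?_⟩
  · obtain ⟨a, rfl⟩ := hf x
    exact mem_map_of_mem f (hk ▸ (hg a).2 hx)
  · exact (h1 ⟨x, hx.1⟩).1 (mem_bot.1 (h ▸ hc _ (Act_cen.2 hx.2)))

theorem lift_odd (h2 : IsPGroup 2 (center J)) {x : J ⧸ center J} {m : ℕ} (hm : Odd m) (hx : x ^ m = 1) :
    ∃ j : J, QuotientGroup.mk j = x ∧ j ^ m = 1 := by
  obtain ⟨j, rfl⟩ := QuotientGroup.mk_surjective x
  have hj : j ^ m ∈ center J := (QuotientGroup.eq_one_iff _).1 hx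
  obtain ⟨k, hk⟩ := IsPGroup.iff_card.1 h2
  have hc : (Nat.card (center J)).Coprime m := by
    rw [hk]; exact Nat.Coprime.pow_left k (Nat.coprime_two_left.2 hm)
  obtain ⟨ζ, hζ⟩ := (powCoprime hc).surjective (⟨j ^ m, hj⟩ : center J)⁻¹
  have e : (ζ : J) ^ m = (j ^ m)⁻¹ := congrArg Subtype.val hζ
  have c : Commute j ζ := mem_center_iff.1 ζ.2 j
  refine ⟨j * ζ, ?_, by rw [c.mul_pow, e, mul_inv_cancel]⟩
  rw [QuotientGroup.mk_mul, (QuotientGroup.eq_one_iff _).2 ζ.2, mul_one]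

theorem comm_of_odd (h2 : IsPGroup 2 (center J)) {n : NN J} {j : J} (hj : Odd (orderOf j))
    (h : act J n (QuotientGroup.mk j) = QuotientGroup.mk j) : Commute (n : G) j := by
  have hz := Act_fix.1 h
  set j' := J.normalizerMonoidHom n j with hj'
  obtain ⟨k, hk⟩ := h2 ⟨_, hz⟩
  have hk' : (j' * j⁻¹) ^ 2 ^ k = 1 := congrArg Subtype.val hk
  have c : Commute (j' * j⁻¹) j := (mem_center_iff.1 hz j).symm
  have e : (j' * j⁻¹) ^ orderOf j = 1 := by
    have := c.mul_pow (orderOf j)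
    rwa [inv_mul_cancel_right, pow_orderOf_eq_one, mul_one, hj', ← map_pow, pow_orderOf_eq_one, map_one,
      eq_comm] at this
  have h1 : j' * j⁻¹ = 1 :=
    (pow_eq_one_iff_of_coprime (Nat.Coprime.pow_left k (Nat.coprime_two_left.2 hj))).1 ⟨hk', e⟩
  exact comm_of_conj_eq (congrArg Subtype.val (mul_inv_eq_one.1 h1))

theorem exists_perf {n : NN J} {F : Subgroup (J ⧸ center J)} (hF : ⁅F, F⁆ = F)
    (h : ∀ x ∈ F, act J n x = x) : ∃ E : Subgroup G, E ≤ J ∧ E ≤ C1 (n : G) ∧ ⁅E, E⁆ = E ∧ bar J E = F := by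
  let π : J →* J ⧸ center J := QuotientGroup.mk' (center J)
  have hπ : Function.Surjective π := QuotientGroup.mk'_surjective _
  have h1 : (⁅F.comap π, F.comap π⁆ : Subgroup J).map π = F := by
    rw [map_commutator, map_comap_eq_self_of_surjective hπ, hF]
  have h2 : F.comap π = ⁅F.comap π, F.comap π⁆ ⊔ center J := by
    conv_lhs => rw [← h1, comap_map_eq, QuotientGroup.ker_mk']
  have h3 : (⁅F.comap π, F.comap π⁆ : Subgroup J) ≤ fixedSubgroup (J.normalizerMonoidHom n) := by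
    refine commutator_le.2 fun a ha b hb => ?_
    have a1 := mem_center_iff.1 (Act_fix.1 (h _ ha))
    have b1 := mem_center_iff.1 (Act_fix.1 (h _ hb))
    change J.normalizerMonoidHom n _ = _
    rw [map_commutatorElement]
    generalize J.normalizerMonoidHom n a = a' at a1
    generalize J.normalizerMonoidHom n b = b' at b1
    obtain ⟨u, rfl⟩ : ∃ u, a' = u * a := ⟨a' * a⁻¹, by group⟩
    obtain ⟨v, rfl⟩ : ∃ v, b' = v * b := ⟨b' * b⁻¹, by group⟩
    rw [mul_inv_cancel_right] at a1 b1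
    calc ⁅u * a, v * b⁆ = u * (a * (v * b) * a⁻¹) * u⁻¹ * (v * b)⁻¹ := by rw [commutatorElement_def]; group
      _ = a * v * (b * a⁻¹ * b⁻¹) * v⁻¹ := by rw [← a1]; group
      _ = ⁅a, b⁆ := by rw [mul_assoc a, ← b1, commutatorElement_def]; group
  generalize hE : (⁅F.comap π, F.comap π⁆ : Subgroup J) = E at h1 h2 h3
  refine ⟨E.map J.subtype, map_subtype_le E, ?_, perfect_map ?_ _, ?_⟩
  · rintro _ ⟨x, hx, rfl⟩
    exact mem_C1.2 (comm_of_conj_eq (congrArg Subtype.val (h3 hx : J.normalizerMonoidHom n x = x))).symm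
  · rw [← commutator_sup_of_le_centralizer (center_le_centralizer _), ← h2, hE]
  · rw [bar, subgroupOf, comap_map_eq_self_of_injective J.subtype_injective, h1]

theorem rank_lift (h2 : IsPGroup 2 (center J)) {p k : ℕ} (hp : p.Prime) (h : p ≠ 2)
    (hr : PRankAtLeast p k (J ⧸ center J)) : PRankAtLeast p k J := by
  obtain ⟨A, hA, hp', hc⟩ := hr
  have ho := hp.odd_of_ne_two h
  have cm : ∀ a b : J, (QuotientGroup.mk a : J ⧸ center J) ∈ A → (QuotientGroup.mk b : J ⧸ center J) ∈ A →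
      b ^ p = 1 → Commute a b := fun a b ha hb e => by
    refine Subtype.ext (comm_of_odd h2 (n := ⟨a, le_normalizer a.2⟩)
      (ho.of_dvd_nat (orderOf_dvd_of_pow_eq_one e)) ?_).eq
    rw [act_of_mem, MulAut.conj_apply, mul_inv_eq_iff_eq_mul]
    exact congrArg Subtype.val (hA.is_comm.comm ⟨_, ha⟩ ⟨_, hb⟩)
  let B : Subgroup J :=
    { carrier := {j | (QuotientGroup.mk j : J ⧸ center J) ∈ A ∧ j ^ p = 1}
      one_mem' := ⟨one_mem A, one_pow p⟩
      mul_mem' := fun {a b} ha hb => ⟨mul_mem ha.1 hb.1, by rw [(cm a b ha.1 hb.1 hb.2).mul_pow, ha.2, hb.2, one_mul]⟩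
      inv_mem' := fun {a} ha => ⟨inv_mem ha.1, by rw [inv_pow, ha.2, inv_one]⟩ }
  refine ⟨B, ⟨⟨fun a b => Subtype.ext (cm a b a.2.1 b.2.1 b.2.2).eq⟩⟩, fun a ha => ha.2, hc.trans ?_⟩
  refine Nat.card_le_card_of_surjective (fun b : B => (⟨QuotientGroup.mk b.1, b.2.1⟩ : A)) fun x => ?_
  obtain ⟨j, e, hj⟩ := lift_odd h2 ho (hp' x x.2)
  exact ⟨⟨j, e ▸ x.2, hj⟩, Subtype.ext e⟩

theorem rank_three (g : Gl G) {t c : G} (ht : orderOf t = 2) {p : ℕ} (hp : p.Prime) (h : p ≠ 2)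
    (hK : K ≤ C1 t) (hr : PRankAtLeast p 2 K) (hc : orderOf c = p) (hct : c ∈ C1 t) (hcK : c ∈ CC K)
    (hn : c ∉ K) : False := by
  obtain ⟨A, hA, hp', hA2⟩ := hr
  have c1 : c ^ p = 1 := hc ▸ pow_orderOf_eq_one c
  have e1 : IsElementaryAbelian p (A.map K.subtype) := ⟨inferInstance, by
    rintro _ ⟨a, ha, rfl⟩
    rw [← map_pow, hp' a ha, map_one]⟩
  have cA : c ∈ CC (A.map K.subtype) := centralizer_le (map_subtype_le A) hcK
  have e2 := e1.sup_zpowers c1 cA
  have hle : A.map K.subtype ⊔ zpowers c ≤ C1 t := sup_le ((map_subtype_le A).trans hK) (zpowers_le.2 hct)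
  have h3 := (SetA.rk2 g.qt ht hp h).of_le hle ⊤ ⟨⟨fun a b => Subtype.ext (e2.1.is_comm.comm a.1 b.1)⟩⟩
    fun a _ => Subtype.ext (e2.2 a a.2)
  rw [card_top, PG.card_sup_zpowers hp (CC_le_NN _ cA) (fun h => hn (map_subtype_le A h)) (c1 ▸ one_mem _),
    card_subtype] at h3
  have := hp.two_le
  nlinarith [pow_pos hp.pos 2]

theorem sqt_quot (g : Gl G) {t : G} (ht : orderOf t = 2) (hJ : IsComponentOf J (C1 t)) :
    IsStronglyQuasithin (J ⧸ center J) :=
  QT.sqt_quotient_two (fun _ hp h2 => (SetA.rk2 g.qt ht hp h2).of_le hJ.le) _ (g.zen2 ht hJ)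

end Cfsg.Agent.QF
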