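import Mathlib
import Cfsg.Agent.QF.Defs
import Cfsg.Agent.QE.TyA
import Cfsg.Agent.QE.TyB
import Cfsg.Agent.QE.TyP
import Cfsg.Agent.GT.RankOneTwo
import Cfsg.Agent.GT.CharSimple

/-! # S1849, piece QF-C4: automorphisms of order 4 fixing a Sylow subgroup (proof in stubs/Cfsg/Agent/QF/PLAN.md) -/

set_option autoImplicit false
set_option linter.unusedVariables false

namespace Cfsg.Agent.QF

open Cfsg Subgroup Cfsg.Agent.GT Cfsg.Agent.Inv Cfsg.Agent.Cmp Cfsg.Agent.QE
open scoped commutatorElement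

universe u

/-- The property proved in this file. -/
def C4P (X : Type*) [Group X] : Prop :=
  ∀ (U : Sylow 2 X) (β : MulAut X), β ^ 4 = 1 → (∀ u ∈ U, β u = u) → β ^ 2 = 1

theorem C4P.of_equiv {X Y : Type*} [Group X] [Group Y] [Finite Y] (h : C4P Y) (e : X ≃* Y) : C4P X := by
  intro U β h4 hU
  refine (MulAut.congr e).injective ?_
  rw [map_pow, map_one]
  refine h (U.comapOfInjective e.symm.toMonoidHom e.symm.injective fun x _ => ⟨e x, e.symm_apply_apply x⟩) _
    (by rw [← map_pow, h4, map_one]) fun u hu => ?_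
  obtain ⟨x, rfl⟩ := e.surjective u
  have h1 : MulAut.congr e β (e x) = e (β x) := by simp
  rw [h1, hU x (by simpa using (show e.symm (e x) ∈ U from hu))]

/-- The inner case: the automorphism is induced by an element of the centre of the Sylow subgroup. -/
theorem C4P_inn {X : Type*} [Group X] [Finite X] (hZ : center X = ⊥)
    (hi : ∀ (U : Sylow 2 X) (β : MulAut X), β ^ 4 = 1 → (∀ u ∈ U, β u = u) → β ∈ Inn X)
    (hz : ∀ (U : Sylow 2 X), ∀ w ∈ U, (∀ u ∈ U, Commute w u) → w * w = 1) : C4P X := by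
  intro U β h4 hU
  obtain ⟨w, rfl⟩ := hi U β h4 hU
  have hc : ∀ u ∈ U, Commute w u := fun u hu => mul_inv_eq_iff_eq_mul.1 (hU u hu)
  have h1 : w ^ 2 ^ 2 = 1 := by
    rw [← mem_bot, ← hZ, mem_center_iff]
    intro g
    rw [← map_pow] at h4
    have := congrArg (fun f : MulAut X => f g) h4
    exact (mul_inv_eq_iff_eq_mul.1 this).symm
  have h2 : IsPGroup 2 (zpowers w) := (show Two w from ⟨2, h1⟩).isPGroup
  have h3 : zpowers w ≤ normalizer ((U : Subgroup X) : Set X) :=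
    zpowers_le.2 (centralizer_le_normalizer _ fun u hu => (hc u hu).symm)
  have h5 := U.is_maximal' (IsPGroup.to_sup_of_normal_right' h2 U.isPGroup' h3) le_sup_right
  have h6 : w ∈ U := h5.le (mem_sup_left (mem_zpowers w))
  rw [← map_pow, pow_two, hz U w h6 hc, map_one]

section L2

open Cfsg.Agent.Cl Cfsg.Agent.Cl.L2
open scoped MatrixGroups

theorem C4P_l2 {F : Type} [Field F] [Fintype F] [CharP F 2] (h4 : 4 ≤ Fintype.card F) : C4P PSL(2, F) := by
  have h := ty_l2 h4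
  have := h.simple
  refine C4P_inn (center_eq_bot_of_isSimpleGroup h.nab) (fun U β _ hU => ?_) fun U w hw _ => ?_
  · obtain ⟨y, hy⟩ := exists_sylow_eq_uniS 2 U
    exact TyA.sy_uni (y := y) fun u hu => hU u (by rw [← hy] at hu; exact hu)
  · obtain ⟨y, hy⟩ := exists_sylow_eq_uniS 2 U
    exact TyA.mul_self_uniS (y := y) (by rw [← hy]; exact hw)

theorem C4P_lp {F : Type} [Field F] [Fintype F] (hp : IsTwoPowerNeighbourPrime (Fintype.card F))
    (h7 : 7 ≤ Fintype.card F) : C4P PSL(2, F) := by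
  intro U β h4 hU
  have h := ty_lp hp h7
  have := h.simple
  have := (IsQuasisimple.of_isSimpleGroup h.nab).isPerfect
  have h2 : (2 : F) ≠ 0 := two_ne_zero_iff_odd.2 (by
    rw [Nat.card_eq_fintype_card]
    exact Nat.odd_iff.1 (hp.1.odd_of_ne_two (by omega)))
  obtain ⟨c, rfl⟩ := typ_surj hp.1 β
  by_contra hn
  have h1 : c * c ≠ 1 := fun e => hn (by rw [← map_pow, pow_two, e, map_one])
  have h3 : c ≠ 1 := fun e => h1 (by rw [e, mul_one])
  have h5 : tau c ≠ 0 := fun e => h1 (mul_self_eq_one_of_tau e)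
  have h6 : tau c = 2 := ((pow_four_eq_one_iff h3).1 (typ_inj (by rw [map_pow, h4, map_one]))).resolve_left h5
  have h8 : tau c ≠ 4 := fun e => h2 (by linear_combination h6 - e)
  have := isCyclic_tor h8
  have h9 : (U : Subgroup _).map emb ≤ tor c := by
    rintro _ ⟨u, hu, rfl⟩
    rw [← centralizer_eq_tor (.inr h5), mem_centralizer_singleton_iff]
    exact (typ_fix.1 (hU u hu)).symm
  have := Subgroup.isCyclic_of_le h9
  obtain ⟨E, -, -, hE, -⟩ := h.ex
  refine not_isCyclic_sylow_two_of_perfect ?_ U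
    ((MulEquiv.isCyclic ((U : Subgroup PSL(2, F)).equivMapOfInjective emb emb_injective)).2 this)
  exact (show 2 ∣ 4 by norm_num).trans (hE ▸ card_subgroup_dvd_card E)

end L2

open Cfsg.Agent.Chev.Sz in
theorem C4P_sz {F : Type*} [Field F] {m : ℕ} [SzF F m] : C4P (Cfsg.Sz F m) := by
  have ho : Odd (Nat.card (Out (Cfsg.Sz F m))) := by
    rw [S2126.aux (MulEquiv.refl _)]; exact odd_two_mul_add_one m
  refine C4P_inn center_Sz (fun U β h4 _ => TyB_inn ho (k := 2) h4) fun U w hw hc => ?_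
  obtain ⟨P, hP⟩ := exists_sylAt U
  obtain ⟨x, rfl⟩ := exists_smul_inf_eq P
  have h1 : ∀ g, g ∈ U ↔ x⁻¹ * g * x ∈ sylU F m := fun g => by
    rw [← mem_sylAt_smul_inf, ← hP]; rfl
  have h2 : (⟨_, (h1 w).1 hw⟩ : sylU F m) ∈ center (sylU F m) := mem_center_iff.2 fun g => Subtype.ext (by
    have h3 := hc (x * g * x⁻¹) ((h1 _).2 (by simpa [mul_assoc] using g.2))
    change (g : Cfsg.Sz F m) * (x⁻¹ * w * x) = x⁻¹ * w * x * g
    calc _ = x⁻¹ * (x * g * x⁻¹ * w) * x := by group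
      _ = _ := by rw [← h3.eq]; group)
  rw [center_sylU, mem_subgroupOf, mem_cenZ_iff] at h2
  have h3 : x⁻¹ * w * x * (x⁻¹ * w * x) = 1 := h2.2
  calc w * w = x * (x⁻¹ * w * x * (x⁻¹ * w * x)) * x⁻¹ := by group
    _ = 1 := by rw [h3]; group

variable {X : Type*} [Group X] [Finite X]

theorem c4 (h : Lst X) (U : Sylow 2 X) {β : MulAut X} (h4 : β ^ 4 = 1) (hU : ∀ u ∈ U, β u = u) :
    β ^ 2 = 1 := by
  rcases h with ⟨F, _, _, _, h1, ⟨e⟩⟩ | h | ⟨F, _, _, h1, h2, ⟨e⟩⟩
  · exact (C4P_l2 h1).of_equiv e U β h4 hU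
  · obtain ⟨F, _, m, _, ⟨e⟩⟩ := Chev.Sz.exists_of_isoSuzuki h
    exact C4P_sz.of_equiv e U β h4 hU
  · exact (C4P_lp h1 h2).of_equiv e U β h4 hU

end Cfsg.Agent.QF
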