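import Mathlib
import Cfsg.Agent.QF.Defs
import Cfsg.Agent.QE.K0
import Cfsg.Agent.QE.TyA
import Cfsg.Agent.QE.TyG
import Cfsg.Agent.QT.Cover
import Cfsg.Agent.Cl.Transport
import Cfsg.Agent.KFI.Tools

/-! # S1849, piece QF-K0: transport (proof in stubs/Cfsg/Agent/QF/PLAN.md) -/

set_option autoImplicit false
set_option linter.unusedVariables false
set_option linter.unusedSectionVars false

namespace Cfsg.Agent.QF

open Cfsg Subgroup Cfsg.Agent.GT Cfsg.Agent.Inv Cfsg.Agent.Cmp Cfsg.Agent.QE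
open scoped commutatorElement

universe u

variable {X Y : Type*} [Group X] [Group Y] [Finite Y]

theorem k0_app (e : X ≃* Y) (α : MulAut X) (x : X) : MulAut.congr e α (e x) = e (α x) := by simp

theorem k0_conj (e : X ≃* Y) (x : X) : MulAut.conj (e x) = MulAut.congr e (MulAut.conj x) := by
  ext y
  simp

theorem k0_fix (e : X ≃* Y) (α : MulAut X) :
    fixedSubgroup (MulAut.congr e α) = (fixedSubgroup α).map e.toMonoidHom := by
  ext y
  obtain ⟨x, rfl⟩ := e.surjective y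
  rw [show e x = e.toMonoidHom x from rfl, mem_map_iff_mem e.injective]
  change MulAut.congr e α (e x) = e x ↔ α x = x
  simp

theorem k0_ex (e : X ≃* Y) (U : Sylow 2 X) : ∃ U' : Sylow 2 Y, ∀ x, e x ∈ U' ↔ x ∈ U := by
  have := Finite.of_equiv Y e.symm.toEquiv
  have := Fact.mk Nat.prime_two
  exact ⟨U.mapSurjective (f := e.toMonoidHom) e.surjective, fun x => mem_map_iff_mem (f := e.toMonoidHom) e.injective⟩

theorem k0_cj (U U' : Sylow 2 Y) : ∃ e : Y ≃* Y, ∀ x, e x ∈ U' ↔ x ∈ U := by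
  have := Fact.mk Nat.prime_two
  obtain ⟨g, rfl⟩ := MulAction.exists_smul_eq Y U U'
  exact ⟨MulAut.conj g, fun x => Subgroup.smul_mem_pointwise_smul_iff (a := MulAut.conj g) (S := (U : Subgroup Y))⟩

section loc

variable (e : X ≃* Y) {U : Sylow 2 X} {U' : Sylow 2 Y} (hU : ∀ x, e x ∈ U' ↔ x ∈ U)
include hU

theorem k0_cc {x : X} : e x ∈ CC (U' : Subgroup Y) ↔ x ∈ CC (U : Subgroup X) :=
  ⟨fun h u hu => e.injective (by rw [map_mul, map_mul]; exact h _ ((hU u).2 hu)), fun h u hu => by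
    obtain ⟨u, rfl⟩ := e.surjective u
    rw [← map_mul, ← map_mul, h u ((hU u).1 hu)]⟩

theorem k0_inv {α : MulAut X} (h : ∀ u ∈ U, α u ∈ U) : ∀ u ∈ U', MulAut.congr e α u ∈ U' := fun u hu => by
  obtain ⟨u, rfl⟩ := e.surjective u
  rw [k0_app, hU]
  exact h u ((hU u).1 hu)

theorem k0_nu (h : ∀ x ∈ U', x ^ 4 = 1 → (∀ u ∈ U', u * x * u⁻¹ = x ∨ u * x * u⁻¹ = x⁻¹) → x ^ 2 = 1) :
    ∀ x ∈ U, x ^ 4 = 1 → (∀ u ∈ U, u * x * u⁻¹ = x ∨ u * x * u⁻¹ = x⁻¹) → x ^ 2 = 1 := fun x hx h4 hu => by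
  refine e.injective ?_
  rw [map_pow, map_one]
  refine h _ ((hU x).2 hx) (by rw [← map_pow, h4, map_one]) fun u hu' => ?_
  obtain ⟨u, rfl⟩ := e.surjective u
  simpa only [← map_inv, ← map_mul, e.apply_eq_iff_eq] using hu u ((hU u).1 hu')

theorem k0_zv (h : ∀ β : MulAut Y, Two β → (∀ u ∈ U', β u ∈ U') →
    (∀ v ∈ U', v ∈ CC (U' : Subgroup Y) → v * v = 1 → β v = v) → β * β ∈ Inn Y) (β : MulAut X) (h2 : Two β)
    (h1 : ∀ u ∈ U, β u ∈ U) (h3 : ∀ v ∈ U, v ∈ CC (U : Subgroup X) → v * v = 1 → β v = v) : β * β ∈ Inn X := by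
  rw [← TyG_inn e, map_mul]
  refine h _ (h2.imp fun k hk => by rw [← map_pow, hk, map_one]) (k0_inv e hU h1) fun v hv hc v2 => ?_
  obtain ⟨v, rfl⟩ := e.surjective v
  rw [k0_app, h3 v ((hU v).1 hv) ((k0_cc e hU).1 hc) (e.injective (by rw [map_mul, v2, map_one]))]

theorem k0_ix (h : ∀ α : MulAut Y, α * α = 1 → (∀ u ∈ U', α u ∈ U') →
    (fixedSubgroup α).relIndex U' ≤ 2 → α ∈ Inn Y) (α : MulAut X) (h2 : α * α = 1) (h1 : ∀ u ∈ U, α u ∈ U)
    (h3 : (fixedSubgroup α).relIndex U ≤ 2) : α ∈ Inn X := by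
  rw [← TyG_inn e]
  refine h _ (by rw [← map_mul, h2, map_one]) (k0_inv e hU h1) ?_
  have e1 : (U' : Subgroup Y) = (U : Subgroup X).map e.toMonoidHom := by
    ext y
    obtain ⟨x, rfl⟩ := e.surjective y
    exact (hU x).trans (mem_map_iff_mem (f := e.toMonoidHom) e.injective).symm
  rwa [k0_fix, e1, relIndex_map_map_of_injective _ _ e.injective]

theorem k0_z4 (h : ∀ c : MulAut Y, c ^ 4 = 1 →
    (∀ u ∈ U', MulAut.conj u * c * (MulAut.conj u)⁻¹ = c ∨
      MulAut.conj u * c * (MulAut.conj u)⁻¹ = c⁻¹) → c ^ 2 = 1) (c : MulAut X) (h4 : c ^ 4 = 1)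
    (hu : ∀ u ∈ U, MulAut.conj u * c * (MulAut.conj u)⁻¹ = c ∨
      MulAut.conj u * c * (MulAut.conj u)⁻¹ = c⁻¹) : c ^ 2 = 1 := by
  refine (MulAut.congr e).injective ?_
  rw [map_pow, map_one]
  refine h _ (by rw [← map_pow, h4, map_one]) fun u hu' => ?_
  obtain ⟨u, rfl⟩ := e.surjective u
  rw [k0_conj, ← map_inv (MulAut.congr e), ← map_inv (MulAut.congr e), ← map_mul, ← map_mul]
  exact (hu u ((hU u).1 hu')).imp (congrArg _) (congrArg _)

end loc

theorem Cp.map {α : MulAut X} {I : Subgroup X} (h : Cp α I) (e : X ≃* Y) :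
    Cp (MulAut.congr e α) (I.map e.toMonoidHom) := by
  exact ⟨by rw [← map_mul, h.sq, map_one], fun k => h.ne ((MulAut.congr e).injective (k.trans (map_one _).symm)),
    k0_fix e α ▸ h.comp.map_of_injective e.injective⟩

theorem NP.of_equiv (h : NP Y) (e : X ≃* Y) : NP X := by
  exact fun α I c => h _ _ (c.map e)

theorem Z4.of_equiv (h : Z4 Y) (e : X ≃* Y) : Z4 X := by
  intro U
  obtain ⟨U', hU⟩ := k0_ex e U
  exact k0_z4 e hU (h U')

theorem IX.of_equiv (h : IX Y) (e : X ≃* Y) : IX X := by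
  intro U
  obtain ⟨U', hU⟩ := k0_ex e U
  exact k0_ix e hU (h U')

theorem NU.of_equiv (h : NU Y) (e : X ≃* Y) : NU X := by
  intro U
  obtain ⟨U', hU⟩ := k0_ex e U
  exact k0_nu e hU (h U')

theorem ZV.of_equiv (h : ZV Y) (e : X ≃* Y) : ZV X := by
  intro U
  obtain ⟨U', hU⟩ := k0_ex e U
  exact k0_zv e hU (h U')

theorem OC.of_equiv (h : OC Y) (e : X ≃* Y) : OC X := by
  intro α γ I c h2 hc hI
  rw [← TyG_inn e, ← TyG_inn e, ← TyG_inn e, map_mul]
  refine h _ _ _ (c.map e) (by rw [← map_mul, h2, map_one]) (hc.map _) ?_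
  rintro _ ⟨x, hx, rfl⟩
  exact (k0_app e γ x).trans (congrArg e (hI x hx))

theorem Sp0.of_equiv {p n : ℕ} (h : Sp0 Y p n) (e : X ≃* Y) : Sp0 X p n := by
  have := Finite.of_equiv Y e.symm.toEquiv
  refine ⟨h.pr, h.p2, h.pp.of_mulEquiv e.symm, Nat.card_congr (QT.outCongr e).toEquiv ▸ h.out,
    Nat.card_congr e.toEquiv ▸ h.big, fun U => ?_⟩
  obtain ⟨U', hU⟩ := k0_ex e U
  obtain ⟨v, hv, v2, hc, hz⟩ := h.cv U'
  obtain ⟨v, rfl⟩ := e.surjective v
  exact ⟨v, (hU v).1 hv, (e.orderOf_eq v).symm.trans v2, KFI.SpD.charP_equiv e hc, fun x hx =>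
    (hz _ ((k0_cc e hU).2 hx)).imp e.map_eq_one_iff.1 fun k => e.injective k⟩

theorem A68.of_equiv (h : A68 Y) (e : X ≃* Y) : A68 X := by
  have := h.simple
  refine ⟨e.isSimpleGroup, h.pp.of_mulEquiv e.symm, Nat.card_congr (MulAut.congr e).toEquiv ▸ h.aut,
    fun η h2 h1 => (h.kl (MulAut.congr e η) (by rw [← map_mul, h2, map_one])
      fun k => h1 ((MulAut.congr e).injective (k.trans (map_one _).symm))).imp (fun k B hB hp => ?_) ?_⟩
  · refine (map_eq_bot_iff_of_injective B (f := (MulAut.congr e).toMonoidHom) (MulAut.congr e).injective).1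
      (k _ ?_ (by rw [← map_commutator, hp]))
    rintro _ ⟨β, hβ, rfl⟩
    exact mem_C1.2 ((mem_C1.1 (hB hβ)).map _)
  · rintro ⟨M, hq, hf, hi, h3, ha⟩
    refine ⟨M.map e.symm.toMonoidHom, hq.map_of_injective e.symm.injective, ?_, fun β hβ => ?_,
      Nat.card_congr (e.symm.subgroupMap M).toEquiv ▸ h3,
      Nat.card_congr (MulAut.congr (Cl.centerQuotCongr (e.symm.subgroupMap M))).toEquiv ▸ ha⟩
    · rintro _ ⟨m, hm, rfl⟩
      exact e.injective ((show MulAut.congr e η m = m from hf hm).trans (e.apply_symm_apply m).symm)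
    · rintro _ ⟨m, hm, rfl⟩
      exact ⟨_, hi _ (hβ.map (MulAut.congr e)) m hm, e.symm_apply_apply _⟩

theorem Z8.of_equiv (h : Z8 Y) (e : X ≃* Y) : Z8 X := by
  have := h.simple
  refine ⟨(Nat.card_congr e.toEquiv).trans h.card, e.isSimpleGroup,
    Nat.card_congr (MulAut.congr e).toEquiv ▸ h.aut, fun η ρ h2 h1 h5 hc => (MulAut.congr e).injective
      ((h.c5 _ _ (by rw [← map_mul, h2, map_one])
        (fun k => h1 ((MulAut.congr e).injective (k.trans (map_one _).symm)))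
        (by rw [← map_pow, h5, map_one]) (hc.map _)).trans (map_one _).symm), fun U η h2 h1 u hu => ?_⟩
  obtain ⟨U', hU⟩ := k0_ex e U
  exact e.injective ((k0_app e η u).symm.trans
    (h.fix U' _ (by rw [← map_mul, h2, map_one]) (k0_inv e hU h1) _ ((hU u).2 hu)))

theorem oc_of_cyclic {C : Type*} [Group C] [IsCyclic C] (φ : Out Y →* C) (h : Odd (Nat.card φ.ker)) : OC Y := by
  intro α γ I c h2 hc _
  have key : ∀ β : MulAut Y, β * β = 1 → φ.rangeRestrict β = 1 → β ∈ Inn Y := fun β b2 hβ => by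
    rw [← QuotientGroup.eq_one_iff, ← orderOf_eq_one_iff]
    refine Nat.eq_one_of_dvd_coprimes (Nat.coprime_two_right.2 h)
      (orderOf_dvd_natCard _ (show (β : Out Y) ∈ φ.ker from congrArg Subtype.val hβ))
      (orderOf_dvd_of_pow_eq_one ?_)
    rw [sq, ← QuotientGroup.mk_mul, b2, QuotientGroup.mk_one]
  have : Finite φ.range := Finite.of_surjective _ φ.rangeRestrict_surjective
  refine (TyA.cyc_two (a := φ.rangeRestrict α) (b := φ.rangeRestrict γ) ?_ ?_).imp (key _ c.sq)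
    (Or.imp (key _ h2) fun k => key _ ?_ (by rw [QuotientGroup.mk_mul, map_mul, k]))
  · rw [← map_mul, ← QuotientGroup.mk_mul, c.sq, QuotientGroup.mk_one, map_one]
  · rw [← map_mul, ← QuotientGroup.mk_mul, h2, QuotientGroup.mk_one, map_one]
  · rw [hc.symm.mul_mul_mul_comm, c.sq, h2, mul_one]

theorem zv_of_out (h : Nat.card (Out Y) ∣ 2) : ZV Y ∧ OC Y := by
  have := Fact.mk Nat.prime_two
  have := isCyclic_of_card_dvd_prime h
  refine ⟨fun U β _ _ _ => ?_, oc_of_cyclic (MonoidHom.id (Out Y)) (by rw [MonoidHom.ker_id, card_bot]; exact odd_one)⟩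
  rw [← QuotientGroup.eq_one_iff, QuotientGroup.mk_mul, ← sq, ← orderOf_dvd_iff_pow_eq_one]
  exact (_root_.orderOf_dvd_natCard _).trans h

theorem NU.of_one (U : Sylow 2 Y) (h : ∀ x ∈ U, x ^ 4 = 1 →
    (∀ u ∈ U, u * x * u⁻¹ = x ∨ u * x * u⁻¹ = x⁻¹) → x ^ 2 = 1) : NU Y := by
  intro U0
  obtain ⟨e, hU⟩ := k0_cj U0 U
  exact k0_nu e hU h

theorem ZV.of_one (U : Sylow 2 Y) (h : ∀ β : MulAut Y, Two β → (∀ u ∈ U, β u ∈ U) →
    (∀ v ∈ U, v ∈ CC (U : Subgroup Y) → v * v = 1 → β v = v) → β * β ∈ Inn Y) : ZV Y := by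
  intro U0
  obtain ⟨e, hU⟩ := k0_cj U0 U
  exact k0_zv e hU h

theorem IX.of_one (U : Sylow 2 Y) (h : ∀ α : MulAut Y, α * α = 1 → (∀ u ∈ U, α u ∈ U) →
    (fixedSubgroup α).relIndex U ≤ 2 → α ∈ Inn Y) : IX Y := by
  intro U0
  obtain ⟨e, hU⟩ := k0_cj U0 U
  exact k0_ix e hU h

theorem Z4.of_one (U : Sylow 2 Y) (h : ∀ c : MulAut Y, c ^ 4 = 1 →
    (∀ u ∈ U, MulAut.conj u * c * (MulAut.conj u)⁻¹ = c ∨
      MulAut.conj u * c * (MulAut.conj u)⁻¹ = c⁻¹) → c ^ 2 = 1) : Z4 Y := by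
  intro U0
  obtain ⟨e, hU⟩ := k0_cj U0 U
  exact k0_z4 e hU h

theorem np_of_solv (h : ∀ α : MulAut Y, α * α = 1 → α ≠ 1 → Group.IsSolvable (fixedSubgroup α)) : NP Y := by
  intro α I c
  have := h α c.sq c.ne
  exact c.comp.isQuasisimple.not_isSolvable
    (Group.isSolvable_of_isSolvable_injective (inclusion_injective c.comp.1))

theorem np_of_inn (hZ : center Y = ⊥) (hi : ∀ α : MulAut Y, α * α = 1 → α ∈ Inn Y)
    (hc : ∀ b : Y, orderOf b = 2 → Loc.Am.IsCharP 2 (C1 b)) : NP Y := by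
  intro α I c
  obtain ⟨b, rfl⟩ := hi α c.sq
  have b2 : b ^ 2 = 1 := by
    rw [← mem_bot, ← hZ, mem_center_iff]
    intro g
    have := DFunLike.congr_fun c.sq g
    rw [← map_mul, ← sq, MulAut.conj_apply, MulAut.one_apply, mul_inv_eq_iff_eq_mul] at this
    exact this.symm
  have := Fact.mk Nat.prime_two
  have h1 := (KFI.charP_iff.1 (hc b (orderOf_eq_prime b2 fun k => c.ne (by rw [k, map_one])))).1
  refine subgroupLayer_eq_bot_iff'.1 (subgroupLayer_eq_bot_iff.2 h1) I ?_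
  convert c.comp
  ext x
  rw [mem_C1]
  exact ⟨fun k => mul_inv_eq_iff_eq_mul.2 k.symm.eq, fun k => (mul_inv_eq_iff_eq_mul.1 k).symm⟩

theorem charP_of_loc (h : Chev.LocChar 2 Y) {b : Y} (hb : orderOf b = 2) : Loc.Am.IsCharP 2 (C1 b) := by
  have b1 : b ≠ 1 := fun k => by rw [k, orderOf_one] at hb; omega
  have := h (zpowers b) (Two.of_two hb).isPGroup (zpowers_ne_bot.2 b1)
  convert this using 1
  refine le_antisymm (le_trans (by rw [CC, centralizer_zpowers]) (CC_le_NN _)) fun g hg =>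
    mem_C1.2 (comm_of_conj_eq ?_)
  classical
  have k := conj_mem_of_mem_normalizer hg (mem_zpowers b)
  rw [mem_zpowers_iff_mem_range_orderOf, hb] at k
  obtain ⟨i, hi, e⟩ := Finset.mem_image.1 k
  rw [Finset.mem_range] at hi
  interval_cases i
  · exact (b1 (conj_eq_one_iff.1 (e.symm.trans (pow_zero b)))).elim
  · exact e.symm.trans (pow_one b)

end Cfsg.Agent.QF
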