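import Mathlib
import Cfsg.Agent.QF.Defs
import Cfsg.Agent.Chev.LieAll

/-! # S1849, piece QF-KL1: automorphisms trivial on U / Z(U) (proof in stubs/Cfsg/Agent/QF/PLAN.md) -/

set_option autoImplicit false
set_option linter.unusedVariables false
set_option linter.unusedSectionVars false

namespace Cfsg.Agent.QF

open Cfsg Subgroup Cfsg.Agent.GT Cfsg.Agent.Inv Cfsg.Agent.Cmp Cfsg.Agent.QE
open scoped commutatorElement

universe u

variable {X : Type*} [Group X] [Finite X]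

open Chev Chev.RootBN in
theorem KL1_core {Φ I : Type*} [Finite Φ] [Nontrivial I] {R : RootBN X Φ I} (hG : R.G = ⊤) (hL : R.Lie 2)
    (hZ : center X = ⊥) {β : MulAut X} {z : X} (hz : z ∈ R.U) (hz' : z ∈ CC R.U) (hβ : β * β = MulAut.conj z)
    (hc : ∀ u ∈ R.U, β u * u⁻¹ ∈ R.U ⊓ CC R.U) : ∃ u ∈ R.U, β = MulAut.conj u := by
  have hb : ∀ x, β (β x) = z * x * z⁻¹ := fun x => DFunLike.congr_fun hβ x
  have p1 : ∀ x ∈ R.U, β x ∈ R.U := fun x hx => by simpa using mul_mem (hc x hx).1 hx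
  obtain ⟨u, hu, π, h⟩ := exists_normAut hG (α := β) fun x => ⟨fun hx => by
    have := p1 _ hx
    rwa [hb, mul_mem_cancel_right (inv_mem hz), mul_mem_cancel_left hz] at this, p1 x⟩
  have h1 : u⁻¹ * (β u)⁻¹ * z = 1 := eq_one_of_conj_V (mul_mem (mul_mem (inv_mem hu) (inv_mem (p1 u hu))) hz)
    fun v hv => by
      convert (h.V _).2 ((h.V v).2 hv) using 1
      rw [MulAut.mul_apply, MulAut.mul_apply, MulAut.conj_apply, MulAut.conj_apply, map_mul, map_mul, hb]
      simp only [map_inv]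
      group
  refine ⟨u, hu, ?_⟩
  rw [eq_comm, ← inv_mul_eq_one, ← map_inv]
  refine h.eq_one (hL.gen.trans hG) fun i => ?_
  have hQ : ∀ c ∈ CC R.U, c ∈ R.Q {i} := fun c hc => centralizer_Q_le hL.pU hL.pH hL.irred
    (fun h hh hc => mem_bot.1 (hZ ▸ mem_center_iff.2
      fun g => (commute_of_commute_U hh hc g (hL.gen.trans hG ▸ mem_top g)).symm))
    (Set.singleton_ne_univ i) ⟨centralizer_le (Q_le_U {i}) hc, hG ▸ mem_top c⟩
  have h0 : u * u ∈ R.Q {i} := by
    convert mul_mem (inv_mem (hQ _ (hc u hu).2)) (hQ _ hz') using 1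
    rw [← mul_one (u * u), ← h1]; group
  obtain ⟨a, ha, q, hq, rfl⟩ := factor_US_Q {i} hu
  have hP : ∀ x ∈ R.US {i}, x ∈ R.P {i} := fun x hx => U_le_P _ (US_le_U _ hx)
  have h2 : a ^ 2 = 1 := eq_one_of_mem_US_Q (pow_mem ha 2) (by
    convert mul_mem (mul_mem h0 (inv_mem hq)) (conj_P_Q (inv_mem (hP _ ha)) (inv_mem hq)) using 1
    rw [sq]; group)
  have h3 : ∀ x ∈ R.X (R.simple i), x⁻¹ * (MulAut.conj (a * q)⁻¹ * β) x ∈ R.Q {i} := fun x hx => by
    have hc' := ((hL.sq rfl i a (US_singleton (R := R) i ▸ ha)).2 h2 x hx)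
    have hx' : x ∈ R.US {i} := US_singleton (R := R) i ▸ hx
    convert mul_mem (mul_mem (conj_P_Q (inv_mem (hP x hx')) (inv_mem hq))
      (conj_P_Q (inv_mem (mul_mem (hP a ha) (hP x hx'))) (hQ _ (hc x (US_le_U _ hx')).2))) hq using 1
    rw [MulAut.mul_apply, MulAut.conj_apply]
    calc _ = x⁻¹ * q⁻¹ * a⁻¹ * β x * x⁻¹ * (x * a) * q := by group
      _ = _ := by rw [← hc']; group
  obtain ⟨y, hy, hy1⟩ := exists_mem_X_ne_one (R := R) (R.simple i)
  have hπ := h.eq_of_mem hy hy1 (h3 y hy)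
  intro x hx
  exact (inv_mul_eq_one.1 (eq_one_of_mem_X_Q (mul_mem (inv_mem hx) (hπ ▸ (h.X i x).2 hx)) (h3 x hx))).symm

open Chev in
theorem k1 (hZ : center X = ⊥) (h : IsLieTypeChar 2 X) : IsLieRankOneChar 2 X ∨ K1 X := by
  obtain ⟨Φ, I, _, _, R, hG, hL, hs⟩ := hasLieBN h
  refine hs.imp_right fun hs U β z hz hz' hβ hc => ?_
  have : Nontrivial I := by
    rcases hs with hs | hs | ⟨i, j, hs⟩
    · exact absurd rfl hs.2
    · exact hs.2.1
    · obtain ⟨π, hπ⟩ := RootBN.exists_normAut_of_pres hG (α := 1) (fun _ => Iff.rfl) fun _ => Iff.rfl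
      exact ⟨_, _, hs _ _ hπ⟩
  obtain ⟨g, rfl⟩ := (RootBN.parSys hG hL).exists_comap_U U
  let e : X ≃* R.G := (MulAut.conj g).trans ((MulEquiv.subgroupCongr hG).trans topEquiv).symm
  have hU : (R.map (RootBN.ker_le_of_equiv e)).U = (((RootBN.parSys hG hL).comap (MulAut.conj g)).U : Subgroup X) :=
    Subgroup.ext fun _ => RootBN.mem_img_equiv e
  obtain ⟨u, hu, h⟩ := KL1_core (R := R.map (RootBN.ker_le_of_equiv e)) (MonoidHom.range_eq_top.2 e.symm.surjective)
    (hL.map _) hZ (hU ▸ hz) (hU ▸ hz') hβ (hU ▸ hc)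
  exact ⟨u, hU.le hu, h⟩

theorem K1.ix (h : K1 X) : IX X := by
  intro U α h2 hU hi
  have aa : ∀ x, α (α x) = x := fun x => DFunLike.congr_fun h2 x
  have P : ∀ a ∈ U, ∀ b ∈ U, α a ≠ a → α b ≠ b → α (a * b) = a * b := fun a ha b hb h1 h2 => by
    have h0 : ((fixedSubgroup α).subgroupOf U).index ≠ 0 := index_ne_zero_of_finite
    have h3 : ((fixedSubgroup α).subgroupOf U).index ≠ 1 := fun e =>
      h1 ((index_eq_one.1 e).ge (mem_top (⟨a, ha⟩ : (U : Subgroup X))))
    have h4 : ((fixedSubgroup α).subgroupOf U).index = 2 := by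
      have : ((fixedSubgroup α).subgroupOf U).index ≤ 2 := hi
      omega
    exact (mul_mem_iff_of_index_two h4 (a := ⟨a, ha⟩) (b := ⟨b, hb⟩)).2 (iff_of_false h1 h2)
  obtain ⟨u, -, e⟩ := h U α 1 (one_mem _) (one_mem _) (by rw [h2, map_one]) fun u hu => by
    refine ⟨U.1.mul_mem (hU u hu) (U.1.inv_mem hu), ?_⟩
    by_cases hf : α u = u
    · rw [hf, mul_inv_cancel]; exact one_mem _
    have hf' : α u⁻¹ ≠ u⁻¹ := fun e => hf (by rwa [map_inv, inv_inj] at e)
    have c1 : ∀ v ∈ U, α v = v → Commute v (α u * u⁻¹) := fun v hv e => by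
      have := P _ (mul_mem (inv_mem hu) hv) u hu (fun e' => hf' (by rwa [map_mul, e, mul_left_inj] at e')) hf
      rw [map_mul, map_mul, map_inv, e] at this
      calc v * (α u * u⁻¹) = α u * ((α u)⁻¹ * v * α u) * u⁻¹ := by group
        _ = _ := by rw [this]; group
    have c2 : Commute u (α u * u⁻¹) := by
      have e1 := P _ (hU u hu) _ (inv_mem hu) (fun e => hf (α.injective e)) hf'
      have e2 := P _ hu _ hu hf hf
      rw [map_mul, map_inv, aa] at e1
      rw [map_mul] at e2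
      calc u * (α u * u⁻¹) = u * (u * (α u)⁻¹) := by rw [e1]
        _ = α u * α u * (α u)⁻¹ := by rw [e2]; group
        _ = _ := by group
    refine mem_CC.2 fun v hv => ?_
    by_cases e : α v = v
    · exact c1 v hv e
    · simpa using (c1 _ (mul_mem hv hu) (P v hv u hu e hf)).mul_left c2.inv_left
  exact ⟨u, e.symm⟩

theorem K1.z4 (hZ : center X = ⊥) (h : K1 X) (hn : NU X) : Z4 X := by
  intro U c c4 hc
  have c4' : c * c * (c * c) = 1 := by rw [← c4, pow_succ, pow_three, mul_assoc c, mul_assoc, mul_assoc]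
  have inj : Function.Injective (MulAut.conj : X →* MulAut X) := (injective_iff_map_eq_one _).2 fun g e =>
    mem_bot.1 (hZ ▸ mem_center_iff.2 fun x => (mul_inv_eq_iff_eq_mul.1 (DFunLike.congr_fun e x)).symm)
  have cc : c⁻¹ * c⁻¹ = c * c := by
    rw [← mul_inv_rev, inv_eq_iff_mul_eq_one, c4']
  have key : ∀ u, MulAut.conj u * c * (MulAut.conj u)⁻¹ = MulAut.conj (u * (c u)⁻¹) * c := fun u =>
    MulEquiv.ext fun x => by simp [mul_assoc]
  have h1 : ∀ u ∈ U, u * (c u)⁻¹ = 1 ∨ MulAut.conj (u * (c u)⁻¹) = c * c := fun u hu =>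
    (hc u hu).imp (fun e => inj (by rw [key, mul_eq_right] at e; rw [e, map_one])) fun e => by
      rw [key, ← eq_mul_inv_iff_mul_eq] at e
      rw [e, cc]
  obtain ⟨w, hw⟩ : ∃ w, c * c = MulAut.conj w := by
    by_contra! k
    have f : ∀ u ∈ U, c u = u := fun u hu => (mul_inv_eq_one.1 ((h1 u hu).resolve_right fun e => k _ e.symm)).symm
    obtain ⟨w, -, e⟩ := h U (c * c) 1 (one_mem _) (one_mem _) (by rw [map_one, c4']) fun u hu => by
      rw [MulAut.mul_apply, f u hu, f u hu, mul_inv_cancel]; exact one_mem _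
    exact k w e
  have wC : w ∈ CC (U : Subgroup X) := mem_CC.2 fun v hv => comm_of_conj_eq (inj (by
    rw [map_mul, map_mul, map_inv, ← hw, ← conj_mul]
    rcases hc v hv with e | e <;> rw [e]
    exact cc))
  have w2 : w * w = 1 := inj (by rw [map_mul, ← hw, map_one, c4'])
  have wU : w ∈ U := by
    have := (Two.of_sq w2).isPGroup.inf_normalizer_sylow U
    exact (this.le ⟨mem_zpowers w, CC_le_NN _ wC⟩).2
  obtain ⟨x, hx, rfl⟩ := h U c w wU wC hw fun u hu => by
    have e : c u * u⁻¹ = (u * (c u)⁻¹)⁻¹ := by group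
    rw [e]
    refine inv_mem ?_
    rcases h1 u hu with e | e
    · rw [e]; exact one_mem _
    · rw [inj (e.trans hw)]; exact ⟨wU, wC⟩
  rw [← map_pow, hn U x hx (inj (by rw [map_pow, c4, map_one])) fun u hu => (hc u hu).imp
    (fun e => inj (by rw [map_mul, map_mul, map_inv, e])) fun e => inj (by rw [map_mul, map_mul, map_inv, e, map_inv]),
    map_one]

end Cfsg.Agent.QF
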