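import Mathlib
import Cfsg.Agent.QF.Defs
import Cfsg.Agent.QE.TyA

/-! # S1849, piece QF-L2: L2(q), q ≥ 8 even -/

set_option autoImplicit false
set_option linter.unusedVariables false
set_option linter.unusedSectionVars false

namespace Cfsg.Agent.QF

open Cfsg Subgroup Cfsg.Agent.GT Cfsg.Agent.Inv Cfsg.Agent.Cmp Cfsg.Agent.QE
open scoped commutatorElement

universe u

namespace L2H

open Cfsg.Agent.Cl Cfsg.Agent.Cl.L2 Cfsg.Agent.QE.TyA
open scoped MatrixGroups

variable {F : Type} [Field F] [Fintype F] [CharP F 2]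

theorem two_fixed (h8 : 8 ≤ Fintype.card F) {A : F → Prop} (h : ∀ x y, ¬ A x → ¬ A y → A (x + y)) :
    ∃ b c, b ≠ 0 ∧ c ≠ 0 ∧ b ≠ c ∧ A b ∧ A c := by
  classical
  have h1 := Finset.card_filter_add_card_filter_not (s := Finset.univ) A
  have h2 : (Finset.univ.filter fun x => ¬ A x).card ≤ (Finset.univ.filter A).card := by
    rcases (Finset.univ.filter fun x => ¬ A x).eq_empty_or_nonempty with e | ⟨x, hx⟩
    · simp [e]
    · refine Finset.card_le_card_of_injOn (x + ·) (fun y hy => ?_) (add_right_injective x).injOn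
      simp only [Finset.coe_filter, Finset.mem_filter, Finset.mem_univ, true_and,
        Set.mem_setOf_eq] at hx hy ⊢
      exact h x y hx hy
  have h3 := Finset.pred_card_le_card_erase (s := Finset.univ.filter A) (a := 0)
  rw [Finset.card_univ] at h1
  obtain ⟨b, hb, c, hc, e⟩ := Finset.one_lt_card.1
    (show 1 < ((Finset.univ.filter A).erase 0).card by omega)
  simp only [Finset.mem_erase, Finset.mem_filter, Finset.mem_univ, true_and] at hb hc
  exact ⟨b, c, hb.1, hc.1, e, hb.2, hc.2⟩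

theorem key_inf (h8 : 8 ≤ Fintype.card F) {α : MulAut PSL(2, F)}
    (h : ∀ u ∈ uniS (inf : P1 F), ∀ v ∈ uniS (inf : P1 F), α u ≠ u → α v ≠ v → α (u * v) = u * v) :
    ∀ u ∈ uniS (inf : P1 F), α u = u := by
  choose e he using fun b : F => emb_surj (aff (1 : F) b)
  have hm : ∀ b, e b ∈ uniS (inf : P1 F) := fun b => mem_uniS'.2 (mem_uni_inf.2 ⟨b, he b⟩)
  have ha : ∀ b c, e (b + c) = e b * e c := fun b c => emb_injective (by
    rw [map_mul, he, he, he, aff_mul one_ne_zero one_ne_zero]; simp [add_comm])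
  have hA : ∀ x y, ¬ α (e x) = e x → ¬ α (e y) = e y → α (e (x + y)) = e (x + y) :=
    fun x y hx hy => by rw [ha]; exact h _ (hm x) _ (hm y) hx hy
  obtain ⟨b, c, b0, c0, bc, hb, hc⟩ := two_fixed h8 hA
  obtain ⟨γ, hγ⟩ := exists_pga α
  have h1 : ∀ x : F, emb (α (e x)) = γ.left * aff 1 (γ.right x) * γ.left⁻¹ := fun x => by
    rw [hγ, he, Cl.L2.act, fAut_apply, map_aff _ one_ne_zero, map_one]
    rfl
  have h2 : γ.left • (inf : P1 F) = inf := by
    have u1 : e b ≠ 1 := fun k => by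
      have hu := he b
      rw [k, map_one, eq_comm, aff_eq_one_iff one_ne_zero] at hu
      exact b0 hu.2
    refine eq_of_mem_uniS u1 (mem_uniS'.2 (mem_uni_smul_inf.2 ⟨_, by rw [← h1, hb]⟩)) ?_
    rw [← emb_smul, he, aff_smul_inf one_ne_zero]
  obtain ⟨a, d, a0, k⟩ := exists_aff h2
  have h3 : ∀ x : F, α (e x) = e x ↔ a * γ.right x = x := fun x => by
    rw [← emb_injective.eq_iff, h1, he, k, aff_conj_one a0, aff_inj one_ne_zero one_ne_zero]
    simp
  simp only [h3] at hA hb hc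
  intro u hu
  obtain ⟨x, hx⟩ := mem_uni_inf.1 (mem_uniS'.1 hu)
  obtain rfl : u = e x := emb_injective (hx.trans (he x).symm)
  rw [h3]
  by_contra hn
  have h4 : γ.right (c / b) = c / b := by
    rw [map_div₀, ← mul_div_mul_left _ _ a0, hb, hc]
  have h5 : c / b ≠ 0 := div_ne_zero c0 b0
  have h6 : 1 + c / b ≠ 0 := fun k => bc (by
    rw [CharTwo.add_eq_zero, eq_div_iff b0, one_mul] at k
    exact k)
  have := hA x (x * (c / b)) hn fun k => hn (mul_right_cancel₀ h5 (by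
    rw [map_mul, h4] at k
    linear_combination k))
  rw [map_add, map_mul, h4] at this
  exact hn (mul_right_cancel₀ h6 (by linear_combination this))

theorem key (h8 : 8 ≤ Fintype.card F) {α : MulAut PSL(2, F)} {y : P1 F}
    (h : ∀ u ∈ uniS y, ∀ v ∈ uniS y, α u ≠ u → α v ≠ v → α (u * v) = u * v) :
    ∀ u ∈ uniS y, α u = u := by
  obtain ⟨g, rfl⟩ := exists_smulS (inf : P1 F) y
  have h2 : ∀ u, g * u * g⁻¹ ∈ uniS (g • (inf : P1 F)) ↔ u ∈ uniS inf := fun u => by
    rw [uniS_smul, conj_mem_cj]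
  have h3 : ∀ u, ((MulAut.conj g)⁻¹ * α * MulAut.conj g) u = u ↔ α (g * u * g⁻¹) = g * u * g⁻¹ :=
    fun u => by
      rw [MulAut.mul_apply, MulAut.mul_apply, MulAut.inv_apply, MulEquiv.symm_apply_eq]
      rfl
  have h1 := key_inf h8 (α := (MulAut.conj g)⁻¹ * α * MulAut.conj g) fun u hu v hv h4 h5 => by
    rw [Ne, h3] at h4 h5
    rw [h3, ← conj_mul]
    exact h _ ((h2 u).2 hu) _ ((h2 v).2 hv) h4 h5
  intro u hu
  obtain ⟨u, rfl⟩ : ∃ v, u = g * v * g⁻¹ := ⟨g⁻¹ * u * g, by group⟩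
  exact (h3 u).1 (h1 u ((h2 u).1 hu))

theorem ix (h8 : 8 ≤ Fintype.card F) : IX PSL(2, F) := fun U α _ _ h => by
  obtain ⟨y, hy⟩ := exists_sylow_eq_uniS 2 U
  rw [hy] at h
  refine sy_uni (y := y) (key h8 fun u hu v hv h1 h2 => ?_)
  have h0 : (fixedSubgroup α).relIndex (uniS y) ≠ 0 := index_ne_zero_of_finite
  have h3 : (fixedSubgroup α).relIndex (uniS y) ≠ 1 := fun e => h1 (relIndex_eq_one.1 e hu)
  exact (mul_mem_iff_of_index_two (H := (fixedSubgroup α).subgroupOf (uniS y))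
    (show (fixedSubgroup α).relIndex (uniS y) = 2 by omega) (a := ⟨u, hu⟩) (b := ⟨v, hv⟩)).2
    (iff_of_false h1 h2)

theorem z4 (h8 : 8 ≤ Fintype.card F) : Z4 PSL(2, F) := fun U c _ h => by
  obtain ⟨y, hy⟩ := exists_sylow_eq_uniS 2 U
  have hU : ∀ u ∈ uniS y, u ∈ U := fun u hu => by rw [← hy] at hu; exact hu
  have h0 : ∀ u, MulAut.conj u * c * (MulAut.conj u)⁻¹ = c → c u = u := fun u e =>
    conj_inj (by omega) (by
      have : MulAut.conj (c u) = c * MulAut.conj u * c⁻¹ := by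
        ext g
        simp
      rw [this, ← mul_inv_eq_iff_eq_mul.1 e, mul_inv_cancel_right])
  have h1 := key h8 (α := c) (y := y) fun u hu v hv h1 h2 => h0 _ (by
    have e1 := (h u (hU u hu)).resolve_left fun e => h1 (h0 u e)
    have e2 := (h v (hU v hv)).resolve_left fun e => h2 (h0 v e)
    calc _ = MulAut.conj u * (MulAut.conj v * c * (MulAut.conj v)⁻¹) * (MulAut.conj u)⁻¹ := by
          rw [map_mul]; group
      _ = (MulAut.conj u * c * (MulAut.conj u)⁻¹)⁻¹ := by rw [e2]; group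
      _ = c := by rw [e1, inv_inv])
  obtain ⟨w, rfl⟩ := sy_uni h1
  haveI : Nontrivial (uniS y) := Finite.one_lt_card_iff_nontrivial.1 (by
    rw [card_uniS, Nat.card_eq_fintype_card]; omega)
  obtain ⟨⟨u, hu⟩, u1⟩ := exists_ne (1 : uniS y)
  have hw : w ∈ uniS y := by
    rw [← torS_eq_uniS hu fun e => u1 (Subtype.ext e),
      ← centralizer_eq_torS_of_char_two CharTwo.two_eq_zero]
    exact mem_centralizer_singleton_iff.2 (mul_inv_eq_iff_eq_mul.1 (h1 u hu))
  rw [← map_pow, sq, mul_self_uniS hw, map_one]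

theorem zv : ZV PSL(2, F) := fun U β _ _ h => by
  obtain ⟨y, hy⟩ := exists_sylow_eq_uniS 2 U
  have := sy_uni (α := β) (y := y) fun u hu => h u (by rw [← hy] at hu; exact hu)
    (by rw [hy]; exact mem_CC.2 fun v hv => uniS_comm hv hu) (mul_self_uniS hu)
  exact mul_mem this this

end L2H

variable {F : Type} [Field F] [Fintype F]

theorem gd_l2 [CharP F 2] (h : 8 ≤ Fintype.card F) :
    IX (Matrix.ProjectiveSpecialLinearGroup (Fin 2) F) ∧ Z4 (Matrix.ProjectiveSpecialLinearGroup (Fin 2) F) ∧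
      ZV (Matrix.ProjectiveSpecialLinearGroup (Fin 2) F) ∧ OC (Matrix.ProjectiveSpecialLinearGroup (Fin 2) F) :=
  ⟨L2H.ix h, L2H.z4 h, L2H.zv, fun α γ _ hα hγ _ _ => TyA.o1 (by omega) α γ hα.sq hγ⟩

end Cfsg.Agent.QF
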