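import Mathlib
import Cfsg.Agent.QF.Defs
import Cfsg.Agent.QF.K0
import Cfsg.Agent.Inv.SqIso
import Cfsg.Agent.Cl.AutPSLField

/-! # S1849, piece QF-L3a: L3(q), q ≥ 4 even -/

set_option autoImplicit false
set_option linter.unusedVariables false

namespace Cfsg.Agent.QF

open Cfsg Subgroup Cfsg.Agent.GT Cfsg.Agent.Inv Cfsg.Agent.Cmp Cfsg.Agent.QE
open scoped commutatorElement

universe u

variable {F : Type} [Field F] [Fintype F]

namespace L3a

open Cfsg.Agent.Cl Cfsg.Agent.Cl.Aut Cfsg.Agent.Inv.U3 Matrix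

theorem card_eq [CharP F 2] : ∃ k, Nat.card F = 2 ^ k := by
  obtain ⟨n, -, hn⟩ := FiniteField.card F 2
  exact ⟨n, Nat.card_eq_fintype_card.trans hn⟩

theorem hq_nu [CharP F 2] (h : 4 ≤ Fintype.card F) (x : HQ F)
    (hx : ∀ u : HQ F, u * x * u⁻¹ = x ∨ u * x * u⁻¹ = x⁻¹) : x * x = 1 := by
  classical
  obtain ⟨r, hr⟩ : ∃ r : F, r ∉ ({0, x.a} : Finset F) := by
    by_contra k
    push Not at k
    have := (Finset.card_le_card (s := Finset.univ) fun r _ => k r).trans Finset.card_le_two
    rw [Finset.card_univ] at this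
    omega
  simp only [Finset.mem_insert, Finset.mem_singleton, not_or] at hr
  have two : (2 : F) = 0 := CharP.cast_eq_zero F 2
  have hb : x.b = 0 := by
    rcases hx ⟨r, 0, 0⟩ with e | e <;> have := congrArg HQ.c e <;> simp at this
    · exact this.resolve_left hr.1
    · refine (mul_eq_zero.1 (?_ : (r - x.a) * x.b = 0)).resolve_left (sub_ne_zero.2 hr.2)
      linear_combination this - x.c * two
  ext
  · simp [CharTwo.add_self_eq_zero]
  · simp [CharTwo.add_self_eq_zero]
  · simp [CharTwo.add_self_eq_zero, hb]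

theorem center_eq_one [CharP F 2] {z : SpecialLinearGroup (Fin 3) F} (hz : z ∈ center _) (h : z * z = 1) :
    z = 1 := by
  obtain ⟨c, hc⟩ := sl_center_scalar z hz
  have hc' : (z : Matrix (Fin 3) (Fin 3) F) = c • 1 := hc
  have h1 : c * c = 1 := by
    have : (z : Matrix (Fin 3) (Fin 3) F) * z = 1 := congrArg Subtype.val h
    rw [hc'] at this
    simpa using congrFun (congrFun this 0) 0
  have : c = 1 := by
    rcases mul_self_eq_one_iff.1 h1 with e | e
    · exact e
    · rw [e, CharTwo.neg_eq]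
  exact Subtype.ext (by rw [hc', this, one_smul]; rfl)

theorem fix [CharP F 2] {γ : GammaL2 (Fin 3) F} {s : SpecialLinearGroup (Fin 3) F} (hs : s * s = 1)
    (h : psiL (Fin 3) F γ (QuotientGroup.mk s) = QuotientGroup.mk s) :
    γ.left * glFG (Fin 3) F γ.right (SpecialLinearGroup.toGL s) = SpecialLinearGroup.toGL s * γ.left := by
  obtain ⟨s1, h1⟩ := exists_sl_glFG γ.right s
  have h2 := (eq_psiL_iff γ _).1 rfl s (slConj (Fin 3) F γ.left s1) (by rw [← h1]; rfl)
  have h3 := QuotientGroup.eq.1 (h.symm.trans h2)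
  have h4 : s1 * s1 = 1 := sl_toGL_injective (by rw [map_mul, h1, ← map_mul, ← map_mul, hs, map_one, map_one])
  have h5 : slConj (Fin 3) F γ.left s1 * slConj (Fin 3) F γ.left s1 = 1 := by rw [← map_mul, h4, map_one]
  have h6 := center_eq_one h3 (by
    rw [← mul_assoc, mem_center_iff.1 h3 s⁻¹ |>.symm, ← mul_assoc, mul_assoc, h5, mul_one, ← _root_.mul_inv_rev, hs, inv_one])
  rw [← h1, ← mul_inv_eq_iff_eq_mul, inv_mul_eq_one.1 h6]
  exact Units.ext rfl

theorem eq_one {g : GL (Fin 3) F} {σ : RingAut F} {i j : Fin 3}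
    (h : ∀ a, (g : Matrix (Fin 3) (Fin 3) F) * single i j (σ a) = single 0 2 a * (g : Matrix (Fin 3) (Fin 3) F)) :
    σ = 1 := by
  have h0 : g.1 0 i ≠ 0 := fun e => by
    refine (Matrix.GeneralLinearGroup.det g).ne_zero (det_eq_zero_of_column_eq_zero i fun r => ?_)
    by_cases hr : r = 0
    · rw [hr]; exact e
    · simpa [hr] using congrFun (congrFun (h 1) r) j
  have h1 : g.1 0 i = g.1 2 j := by simpa using congrFun (congrFun (h 1) 0) j
  refine RingEquiv.ext fun a => mul_left_cancel₀ h0 ?_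
  have := congrFun (congrFun (h a) 0) j
  simp only [mul_single_apply_same, single_mul_apply_same] at this
  rw [this, h1, mul_comm]
  rfl

theorem right_eq [CharP F 2] {g : GL (Fin 3) F} {σ : RingAut F} {ε : C2}
    (h : ∀ a, psiL (Fin 3) F ⟨g, (σ, ε)⟩ (QuotientGroup.mk (SpecialLinearGroup.transvection (by decide : (0 : Fin 3) ≠ 2) a)) =
      QuotientGroup.mk (SpecialLinearGroup.transvection (by decide : (0 : Fin 3) ≠ 2) a)) : σ = 1 := by
  have k := fun a => congrArg Units.val (fix (by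
    rw [← SpecialLinearGroup.transvection_add, CharTwo.add_self_eq_zero, SpecialLinearGroup.transvection_coeff_zero])
      (h a))
  rcases c2_cases ε with rfl | rfl
  · refine eq_one (g := g) (i := 0) (j := 2) fun a => ?_
    have := k a
    simp only [Units.val_mul, glFG_one, coe_glField, SpecialLinearGroup.coe_GL_coe_matrix,
      SpecialLinearGroup.transvection_coe] at this
    rw [Matrix.map_add _ (map_add σ), Matrix.map_one _ (map_zero σ) (map_one σ),
      Matrix.map_single, mul_add, add_mul, mul_one, one_mul] at this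
    exact add_left_cancel this
  · refine eq_one (g := g) (i := 2) (j := 0) fun a => ?_
    have := k a
    simp only [Units.val_mul, glFG_c2gen, coe_glField, ← toGL_slInvTranspose, SpecialLinearGroup.coe_GL_coe_matrix,
      coe_slInvTranspose, SpecialLinearGroup.transvection_inv, CharTwo.neg_eq,
      SpecialLinearGroup.transvection_coe, transpose_add, transpose_one, transpose_single] at this
    rw [Matrix.map_add _ (map_add σ), Matrix.map_one _ (map_zero σ) (map_one σ),
      Matrix.map_single, mul_add, add_mul, mul_one, one_mul] at this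
    exact add_left_cancel this

theorem cube_mem (g : GL (Fin 3) F) : psiD (Fin 3) F g ^ 3 ∈ Inn (ProjectiveSpecialLinearGroup (Fin 3) F) := by
  rw [← ker_det_map_psiD]
  refine ⟨(scal (Fin 3) F (Matrix.GeneralLinearGroup.det g))⁻¹ * g ^ 3, ?_, ?_⟩
  · rw [SetLike.mem_coe, MonoidHom.mem_ker, map_mul, map_inv, det_scal, map_pow, Fintype.card_fin, inv_mul_cancel]
  · rw [map_mul, map_inv, psiD_apply, psiL_scal, inv_one, one_mul, map_pow]

end L3a

theorem l3_nu [CharP F 2] (h : 4 ≤ Fintype.card F) : NU (Matrix.ProjectiveSpecialLinearGroup (Fin 3) F) := by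
  intro U x hx _ hn
  obtain ⟨k, hk⟩ := L3a.card_eq (F := F)
  obtain ⟨e⟩ := U3.HQ.sylow_PSL hk U
  have := L3a.hq_nu h (e ⟨x, hx⟩) fun u => by
    obtain ⟨u, rfl⟩ := e.surjective u
    rw [← map_inv, ← map_mul, ← map_mul, ← map_inv, e.injective.eq_iff, e.injective.eq_iff]
    exact (hn u u.2).imp Subtype.ext Subtype.ext
  rw [← map_mul, map_eq_one_iff _ e.injective] at this
  rw [pow_two]
  exact congrArg Subtype.val this

theorem l3_zv [CharP F 2] (h : 4 ≤ Fintype.card F) : ZV (Matrix.ProjectiveSpecialLinearGroup (Fin 3) F) := by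
  obtain ⟨k, hk⟩ := L3a.card_eq (F := F)
  let f := (QuotientGroup.mk' (center (Matrix.SpecialLinearGroup (Fin 3) F))).comp (U3.HQ.toSL (K := F))
  have hP : IsPGroup 2 (U3.HQ F) := IsPGroup.of_card (n := k * 3) (by rw [U3.HQ.card, hk, pow_mul])
  have hf : Function.Injective f := (injective_iff_map_eq_one f).2 fun x hx => by
    have h1 : U3.HQ.toSL x ∈ center _ := (QuotientGroup.eq_one_iff _).1 hx
    have h2 : ∀ y, y * x = x * y := fun y => U3.HQ.toSL_injective (by
      rw [map_mul, map_mul]; exact mem_center_iff.1 h1 _)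
    refine U3.HQ.toSL_injective ((L3a.center_eq_one h1 ?_).trans (map_one _).symm)
    rw [← map_mul, L3a.hq_nu h x fun u => Or.inl (by rw [h2, mul_inv_cancel_right]), map_one]
  obtain ⟨U, hU⟩ := (hP.of_surjective f.rangeRestrict f.rangeRestrict_surjective).exists_le_sylow
  obtain ⟨e⟩ := U3.HQ.sylow_PSL hk U
  have hU' : f.range = U := eq_of_le_of_card_ge hU
    ((Nat.card_congr e.toEquiv).trans (Nat.card_congr (MonoidHom.ofInjective hf).toEquiv)).le
  refine ZV.of_one U fun β ⟨j, hj⟩ _ hβ => ?_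
  obtain ⟨⟨g, σ, ε⟩, rfl⟩ := Cl.Aut.psiL_surjective (ι := Fin 3) (by simp) β
  have hσ : σ = 1 := L3a.right_eq (g := g) (ε := ε) fun a => by
    have e : QuotientGroup.mk (Matrix.SpecialLinearGroup.transvection (by decide : (0 : Fin 3) ≠ 2) a) =
        f ⟨0, 0, a⟩ := congrArg QuotientGroup.mk (Subtype.ext (by
      change 1 + Matrix.single 0 2 a = !![1, 0, a; 0, 1, 0; 0, 0, 1]
      ext i j
      fin_cases i <;> fin_cases j <;> simp))
    rw [e]
    refine hβ _ (hU ⟨_, rfl⟩) (mem_CC.2 fun u hu => ?_) ?_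
    · obtain ⟨y, rfl⟩ := hU'.ge hu
      refine Commute.map ?_ f
      ext <;> simp [add_comm]
    · rw [← map_mul, ← map_one f]
      congr 1
      ext <;> simp [CharTwo.add_self_eq_zero]
  subst hσ
  set β := Cl.Aut.psiL (Fin 3) F ⟨g, 1, ε⟩ with hβ'
  have e2 : β * β = Cl.Aut.psiD (Fin 3) F (g * Cl.Aut.glFG (Fin 3) F (1, ε) g) := by
    rw [hβ', ← map_mul, Cl.Aut.psiD_apply]
    congr 1
    refine SemidirectProduct.ext rfl (Prod.ext (mul_one _) ?_)
    rcases Cl.Aut.c2_cases ε with rfl | rfl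
    · exact mul_one _
    · exact Cl.Aut.c2gen_mul_self
  have h3 : (β * β) ^ 3 ∈ Inn _ := e2 ▸ L3a.cube_mem _
  have ho : orderOf (β * β) ∣ 2 ^ j := orderOf_dvd_of_pow_eq_one (by rw [(Commute.refl β).mul_pow, hj, one_mul])
  obtain ⟨n, hn⟩ := exists_pow_eq_self_of_coprime (x := β * β) (n := 3)
    (Nat.Coprime.coprime_dvd_right ho (Nat.Coprime.pow_right _ (by norm_num)))
  exact hn ▸ pow_mem h3 n

end Cfsg.Agent.QF
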