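import Mathlib
import Cfsg.Agent.QF.Defs
import Cfsg.Agent.QF.L3a
import Cfsg.Agent.QE.X1
import Cfsg.Agent.Chev.ChevSimple
import Cfsg.Agent.GT.CharSimple
import Cfsg.Agent.S0205
import Cfsg.Agent.S2699

/-! # S1849, piece QF-L3b: L3(q), four-groups of outer automorphisms -/

set_option autoImplicit false
set_option linter.unusedVariables false

namespace Cfsg.Agent.QF

open Cfsg Subgroup Cfsg.Agent.GT Cfsg.Agent.Inv Cfsg.Agent.Cmp Cfsg.Agent.QE
open scoped commutatorElement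

universe u

variable {F : Type} [Field F] [Fintype F]

namespace L3b

/-- An involutory automorphism fixing the component fixes a Sylow subgroup of the fixed points. -/
theorem syl_fix {X : Type*} [Group X] [Finite X] (hZ : center X = ⊥) (loc : Chev.LocChar 2 X) {α γ : MulAut X}
    {I P : Subgroup X} (h : Cp α I) (h2 : γ * γ = 1) (hc : Commute α γ) (hI : ∀ x ∈ I, γ x = x)
    (hP : IsPGroup 2 P) (hle : P ≤ fixedSubgroup α) :
    ∃ c ∈ fixedSubgroup α, ∀ x ∈ P, γ (c * x * c⁻¹) = c * x * c⁻¹ := by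
  have : Fact (Nat.Prime 2) := ⟨Nat.prime_two⟩
  have no : ∀ b ∈ fixedSubgroup α, b ∈ CC I → orderOf b ≠ 2 := fun b hb hb' o =>
    x1 hZ h.sq hb (charP_of_loc loc o) h.comp fun x hx => mem_C1.2 (comm_of_CC hb' hx)
  have nI : ∀ c ∈ fixedSubgroup α, ∀ x ∈ I, c * x * c⁻¹ ∈ I := fun c hc x hx => by
    have k := h.comp.map_conj (le_normalizer hc)
    by_cases e : I.map (MulAut.conj c).toMonoidHom = I
    · exact e.le ⟨x, hx, rfl⟩
    · obtain ⟨b, hb⟩ := exists_prime_orderOf_dvd_card' (G := I.map (MulAut.conj c).toMonoidHom) 2 (by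
        by_contra k2
        exact k.isQuasisimple.not_isSolvable (S0205.result (Nat.odd_iff.2 (Nat.two_dvd_ne_zero.1 k2))))
      exact absurd ((orderOf_coe b).trans hb) (no b (k.le b.2) (k.le_centralizer_of_ne h.comp e b.2))
  have gg : ∀ x, γ (γ x) = x := fun x => by rw [← MulAut.mul_apply, h2, MulAut.one_apply]
  have gm : ∀ x ∈ fixedSubgroup α, γ x ∈ fixedSubgroup α := fun x hx => by
    change α (γ x) = γ x
    rw [← MulAut.mul_apply, hc.eq, MulAut.mul_apply, show α x = x from hx]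
  let γ' : MulAut (fixedSubgroup α) :=
    { toFun := fun x => ⟨γ x, gm x x.2⟩
      invFun := fun x => ⟨γ x, gm x x.2⟩
      left_inv := fun x => Subtype.ext (gg x)
      right_inv := fun x => Subtype.ext (gg x)
      map_mul' := fun x y => Subtype.ext (map_mul γ _ _) }
  have p2 : IsPGroup 2 (zpowers γ') := Two.isPGroup ⟨1, MulEquiv.ext fun x => Subtype.ext (gg x)⟩
  obtain ⟨S, hS⟩ := open Pointwise in p2.nonempty_fixed_point_of_prime_not_dvd_card (Sylow 2 (fixedSubgroup α))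
    (not_dvd_card_sylow 2 _)
  have hS' : ∀ s ∈ S, γ' s ∈ S := fun s hs => by
    have := hS ⟨γ', mem_zpowers _⟩
    rw [← this]
    exact ⟨s, hs, rfl⟩
  have fx : ∀ s ∈ S, γ s = s := fun s hs => by
    by_contra ne
    obtain ⟨b, hb, ob⟩ := exists_inv_of_ne_bot (X := zpowers ((s : X)⁻¹ * γ s))
      (Two.isPGroup (by
        obtain ⟨k, hk⟩ := S.isPGroup' ⟨s⁻¹ * γ' s, mul_mem (inv_mem hs) (hS' s hs)⟩
        exact ⟨k, congrArg (fun y : S => ((y : fixedSubgroup α) : X)) hk⟩))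
      (by rw [Ne, zpowers_eq_bot, inv_mul_eq_one]; exact fun e => ne e.symm)
    refine no b (zpowers_le.2 (mul_mem (inv_mem s.2) (gm s s.2)) hb) (zpowers_le.2 (mem_CC.2 fun x hx => ?_) hb) ob
    have e := hI _ (nI s s.2 x hx)
    rw [map_mul, map_mul, map_inv, hI x hx] at e
    calc x * ((s : X)⁻¹ * γ s) = (s : X)⁻¹ * (s * x * (s : X)⁻¹) * γ s := by group
      _ = (s : X)⁻¹ * γ s * x := by rw [← e]; group
  obtain ⟨c, hc⟩ := Cl.Aut.exists_conj_mem_sylow (hP.comap_subtype (K := fixedSubgroup α)) S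
  exact ⟨c, c.2, fun x hx => fx _ (hc ⟨x, hle hx⟩ hx)⟩

open Cfsg.Agent.Cl Cfsg.Agent.Cl.Aut Cfsg.Agent.Inv.U3 Matrix

theorem fix [CharP F 2] {γ : GammaL2 (Fin 3) F} {s : SpecialLinearGroup (Fin 3) F} (hs : s ^ 4 = 1)
    (h : psiL (Fin 3) F γ (QuotientGroup.mk s) = QuotientGroup.mk s) :
    γ.left * glFG (Fin 3) F γ.right (SpecialLinearGroup.toGL s) = SpecialLinearGroup.toGL s * γ.left := by
  obtain ⟨s1, h1⟩ := exists_sl_glFG γ.right s
  have h2 := (eq_psiL_iff γ _).1 rfl s (slConj (Fin 3) F γ.left s1) (by rw [← h1]; rfl)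
  have h3 := QuotientGroup.eq.1 (h.symm.trans h2)
  have h4 : s1 ^ 4 = 1 := sl_toGL_injective (by rw [map_pow, h1, ← map_pow, ← map_pow, hs, map_one, map_one])
  have h5 : slConj (Fin 3) F γ.left s1 ^ 4 = 1 := by rw [← map_pow, h4, map_one]
  set z := s⁻¹ * slConj (Fin 3) F γ.left s1 with hz
  have h7 : z ^ 4 = 1 := by
    rw [← mul_inv_cancel_left s (slConj (Fin 3) F γ.left s1), ← hz,
      Commute.mul_pow (mem_center_iff.1 h3 s), hs, one_mul] at h5
    exact h5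
  have h6 := L3a.center_eq_one h3 (L3a.center_eq_one (mul_mem h3 h3) (by
    rw [← h7, pow_succ, pow_succ, pow_two, mul_assoc (z * z)]))
  rw [← h1, ← mul_inv_eq_iff_eq_mul, inv_mul_eq_one.1 h6]
  exact Units.ext rfl

theorem fix' {γ : GammaL2 (Fin 3) F} {s : SpecialLinearGroup (Fin 3) F}
    (h : γ.left * glFG (Fin 3) F γ.right (SpecialLinearGroup.toGL s) = SpecialLinearGroup.toGL s * γ.left) :
    psiL (Fin 3) F γ (QuotientGroup.mk s) = QuotientGroup.mk s :=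
  (eq_psiL_iff γ _).1 rfl s s (congrArg Units.val (eq_mul_inv_of_mul_eq h.symm))

theorem hq_four [CharP F 2] (x : HQ F) : HQ.toSL x ^ 4 = 1 := by
  rw [← map_pow, ← map_one HQ.toSL]
  congr 1
  ext <;> simp [pow_succ, CharTwo.add_self_eq_zero]
  linear_combination (x.c + x.a * x.b) * (CharP.cast_eq_zero F 2 : (2 : F) = 0)

omit [Fintype F] in
theorem m0 (x : HQ F) : (SpecialLinearGroup.toGL (HQ.toSL x)).1 = !![1, x.a, x.c; 0, 1, x.b; 0, 0, 1] := rfl

omit [Fintype F] in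
theorem m1 (σ : RingAut F) (x : HQ F) : (glFG (Fin 3) F (σ, 1) (SpecialLinearGroup.toGL (HQ.toSL x))).1 =
    !![1, σ x.a, σ x.c; 0, 1, σ x.b; 0, 0, 1] := by
  rw [glFG_one, coe_glField, m0]
  ext i j
  fin_cases i <;> fin_cases j <;> simp

omit [Fintype F] in
theorem m2 [CharP F 2] (σ : RingAut F) (x : HQ F) :
    (glFG (Fin 3) F (σ, c2gen) (SpecialLinearGroup.toGL (HQ.toSL x))).1 =
      !![1, 0, 0; σ x.a, 1, 0; σ x.c + σ x.a * σ x.b, σ x.b, 1] := by
  rw [glFG_c2gen, coe_glField, coe_glInvTranspose, ← map_inv, ← map_inv, m0]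
  ext i j
  fin_cases i <;> fin_cases j <;> simp [CharTwo.neg_eq]

variable (F) in
/-- The antidiagonal matrix. -/
def J : GL (Fin 3) F :=
  ⟨!![0, 0, 1; 0, 1, 0; 1, 0, 0], !![0, 0, 1; 0, 1, 0; 1, 0, 0],
    by ext i j; fin_cases i <;> fin_cases j <;> simp [Matrix.mul_apply, Fin.sum_univ_three],
    by ext i j; fin_cases i <;> fin_cases j <;> simp [Matrix.mul_apply, Fin.sum_univ_three]⟩

theorem J_sq {σ : RingAut F} (hσ : σ * σ = 1) : psiL (Fin 3) F ⟨J F, (σ, c2gen)⟩ ^ 2 = 1 := by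
  refine (psiL_sq_eq_one_iff hσ _).2 ⟨1, ?_⟩
  rw [map_one, mul_eq_one_iff_eq_inv]
  refine Units.ext ?_
  rw [coe_glFG_c2gen_inv]
  ext i j
  fin_cases i <;> fin_cases j <;> simp [J]

theorem J_fix [CharP F 2] {σ : RingAut F} {x : HQ F} (h1 : σ x.a = x.b) (h2 : σ x.b = x.a)
    (h3 : x.c + σ x.c = x.a * x.b) :
    psiL (Fin 3) F ⟨J F, (σ, c2gen)⟩ (QuotientGroup.mk (HQ.toSL x)) = QuotientGroup.mk (HQ.toSL x) := by
  refine fix' (Units.ext ?_)
  rw [Units.val_mul, Units.val_mul, m2, m0, h1, h2, mul_comm x.b, ← h3, add_comm x.c, ← add_assoc,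
    CharTwo.add_self_eq_zero, zero_add]
  ext i j
  fin_cases i <;> fin_cases j <;> simp [J, Matrix.mul_apply, Fin.sum_univ_three]

theorem one_fix {σ : RingAut F} {x : HQ F} (h1 : σ x.a = x.a) (h2 : σ x.b = x.b) (h3 : σ x.c = x.c) :
    psiL (Fin 3) F (SemidirectProduct.inr (σ, 1)) (QuotientGroup.mk (HQ.toSL x)) = QuotientGroup.mk (HQ.toSL x) := by
  refine fix' (Units.ext ?_)
  rw [SemidirectProduct.left_inr, SemidirectProduct.right_inr, one_mul, mul_one, m1, m0, h1, h2, h3]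

theorem no_graph [CharP F 2] {g : GL (Fin 3) F} {σ : RingAut F}
    (h1 : psiL (Fin 3) F ⟨g, (σ, c2gen)⟩ (QuotientGroup.mk (HQ.toSL ⟨1, 0, 0⟩)) = QuotientGroup.mk (HQ.toSL ⟨1, 0, 0⟩))
    (h2 : psiL (Fin 3) F ⟨g, (σ, c2gen)⟩ (QuotientGroup.mk (HQ.toSL ⟨0, 0, 1⟩)) = QuotientGroup.mk (HQ.toSL ⟨0, 0, 1⟩)) :
    False := by
  have k1 := congrArg Units.val (fix (hq_four _) h1)
  have k2 := congrArg Units.val (fix (hq_four _) h2)
  rw [Units.val_mul, Units.val_mul, m2, m0] at k1 k2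
  have e1 : g.1 1 1 = 0 := by simpa [Matrix.mul_apply, Fin.sum_univ_three] using congrFun (congrFun k1 0) 1
  have e2 : g.1 1 2 = 0 := by simpa [Matrix.mul_apply, Fin.sum_univ_three] using congrFun (congrFun k1 0) 2
  have e3 : g.1 2 1 = 0 := by simpa [Matrix.mul_apply, Fin.sum_univ_three] using congrFun (congrFun k2 0) 1
  have e4 : g.1 2 2 = 0 := by simpa [Matrix.mul_apply, Fin.sum_univ_three] using congrFun (congrFun k2 0) 2
  refine (Matrix.GeneralLinearGroup.det g).ne_zero ?_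
  change g.1.det = 0
  rw [det_fin_three, e1, e2, e3, e4]
  ring

theorem no_field [CharP F 2] {g : GL (Fin 3) F} {σ : RingAut F} (hσ : orderOf σ = 2)
    (h : ∀ x : HQ F, σ x.a = x.b → σ x.b = x.a → x.c + σ x.c = x.a * x.b →
      psiL (Fin 3) F ⟨g, (σ, 1)⟩ (QuotientGroup.mk (HQ.toSL x)) = QuotientGroup.mk (HQ.toSL x)) : False := by
  have hu := uInvol_of_orderOf hσ
  have k0 := congrArg Units.val (fix (hq_four _) (h ⟨0, 0, 1⟩ (map_zero σ) (map_zero σ) (by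
    simp [CharTwo.add_self_eq_zero])))
  rw [Units.val_mul, Units.val_mul, m1, m0] at k0
  have e1 : g.1 1 0 = 0 := by simpa [Matrix.mul_apply, Fin.sum_univ_three] using congrFun (congrFun k0 1) 2
  have e2 : g.1 2 0 = 0 := by simpa [Matrix.mul_apply, Fin.sum_univ_three] using congrFun (congrFun k0 0) 0
  have e3 : g.1 2 1 = 0 := by simpa [Matrix.mul_apply, Fin.sum_univ_three] using congrFun (congrFun k0 0) 1
  have e4 : g.1 0 0 ≠ 0 := fun e => by
    refine (Matrix.GeneralLinearGroup.det g).ne_zero ?_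
    change g.1.det = 0
    rw [det_fin_three, e1, e2, e]
    ring
  have k : ∀ a, g.1 0 0 * σ a = a * g.1 1 1 := fun a => by
    obtain ⟨c, hc⟩ := hu.exists_trace_eq (a := a * σ a) (by
      rw [map_mul, mul_comm]; exact congrArg (· * σ a) (hu.invol a))
    have k := congrArg Units.val (fix (hq_four _) (h ⟨a, σ a, c⟩ rfl (hu.invol a) hc))
    rw [Units.val_mul, Units.val_mul, m1, m0] at k
    have := congrFun (congrFun k 0) 1
    simp only [Matrix.mul_apply, Fin.sum_univ_three] at this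
    simp [e3] at this
    linear_combination this
  obtain ⟨a, ha⟩ := hu.exists_ne
  have k1 := k 1
  rw [map_one, mul_one, one_mul] at k1
  exact ha (mul_left_cancel₀ e4 ((k a).trans (by rw [← k1, mul_comm])))

theorem tv (a : F) : SpecialLinearGroup.transvection (by decide : (0 : Fin 3) ≠ 2) a = HQ.toSL ⟨0, 0, a⟩ :=
  Subtype.ext (by
    change 1 + Matrix.single 0 2 a = !![1, 0, a; 0, 1, 0; 0, 0, 1]
    ext i j
    fin_cases i <;> fin_cases j <;> simp)

theorem right_sq {γ : GammaL2 (Fin 3) F} (h : psiL (Fin 3) F γ * psiL (Fin 3) F γ = 1) : γ.right * γ.right = 1 := by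
  obtain ⟨c, hc⟩ := (psiL_eq_one_iff (by simp) _).1 ((map_mul _ _ _).trans h)
  exact congrArg SemidirectProduct.right hc

theorem inn {γ : GammaL2 (Fin 3) F} (h : psiL (Fin 3) F γ * psiL (Fin 3) F γ = 1) (h1 : γ.right = 1) :
    psiL (Fin 3) F γ ∈ Inn (ProjectiveSpecialLinearGroup (Fin 3) F) := by
  have e : psiL (Fin 3) F γ = psiD (Fin 3) F γ.left := congrArg _ (SemidirectProduct.ext rfl h1)
  have := L3a.cube_mem γ.left
  rwa [← e, pow_succ, pow_two, h, one_mul] at this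

theorem core [CharP F 2] {α α0 : MulAut (ProjectiveSpecialLinearGroup (Fin 3) F)} {γ : GammaL2 (Fin 3) F}
    {I : Subgroup (ProjectiveSpecialLinearGroup (Fin 3) F)} (h : Cp α I)
    (h2 : psiL (Fin 3) F γ * psiL (Fin 3) F γ = 1) (hc : Commute α (psiL (Fin 3) F γ))
    (hI : ∀ x ∈ I, psiL (Fin 3) F γ x = x) {H : Subgroup _} (h0 : IsConjUnder H α0 α) :
    ∃ g, ∀ x : HQ F, α0 (QuotientGroup.mk (HQ.toSL x)) = QuotientGroup.mk (HQ.toSL x) →
      psiL (Fin 3) F ⟨g, γ.right⟩ (QuotientGroup.mk (HQ.toSL x)) = QuotientGroup.mk (HQ.toSL x) := by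
  obtain ⟨δ, -, rfl⟩ := h0
  have := psl_fin_isSimpleGroup (F := F) (n := 3) (by omega) (by omega)
  have hZ : center (ProjectiveSpecialLinearGroup (Fin 3) F) = ⊥ := center_eq_bot_of_isSimpleGroup fun k =>
    h.comp.isQuasisimple.not_isMulCommutative inferInstance
  have loc := Chev.locChar_of_chevSimple
    (Or.inl (Or.inl ⟨F, inferInstance, inferInstance, inferInstance, 3, by omega, by omega, ⟨MulEquiv.refl _⟩⟩)) hZ
  obtain ⟨k, hk⟩ := L3a.card_eq (F := F)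
  have hP : IsPGroup 2 (HQ F) := IsPGroup.of_card (n := k * 3) (by rw [HQ.card, hk, pow_mul])
  let f := δ.toMonoidHom.comp ((QuotientGroup.mk' (center (SpecialLinearGroup (Fin 3) F))).comp (HQ.toSL (K := F)))
  obtain ⟨c, -, hc⟩ := syl_fix hZ loc h h2 hc hI (P := f.range ⊓ fixedSubgroup (δ * α0 * δ⁻¹))
    ((hP.of_surjective f.rangeRestrict f.rangeRestrict_surjective).to_le inf_le_left) inf_le_right
  obtain ⟨g, hg⟩ := exists_conj_psiL_eq (n := 3) (by omega) (MulAut.conj c * δ)⁻¹ γ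
  refine ⟨g, fun x hx => ?_⟩
  have := hc (f x) ⟨⟨x, rfl⟩, by
    change δ (α0 (δ⁻¹ (δ (QuotientGroup.mk (HQ.toSL x))))) = δ (QuotientGroup.mk (HQ.toSL x))
    rw [MulAut.inv_apply_self, hx]⟩
  rw [← hg, inv_inv, MulAut.mul_apply, MulAut.mul_apply]
  exact (congrArg _ this).trans (MulAut.inv_apply_self _ (MulAut.conj c * δ) _)

end L3b

theorem l3_oc [CharP F 2] (h : 4 ≤ Fintype.card F) : OC (Matrix.ProjectiveSpecialLinearGroup (Fin 3) F) := by
  intro α γ I hα h2 hc hI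
  obtain ⟨⟨g, σ, ε⟩, rfl⟩ := Cl.Aut.psiL_surjective (ι := Fin 3) (by simp) α
  obtain ⟨γ, rfl⟩ := Cl.Aut.psiL_surjective (ι := Fin 3) (by simp) γ
  have h3 := (hc.symm.mul_mul_mul_comm (Cl.Aut.psiL (Fin 3) F ⟨g, σ, ε⟩) (Cl.Aut.psiL (Fin 3) F γ)).trans
    (by rw [hα.sq, h2, one_mul])
  have hc' := (Commute.refl _).mul_right hc
  have hI' : ∀ x ∈ I, (Cl.Aut.psiL (Fin 3) F ⟨g, σ, ε⟩ * Cl.Aut.psiL (Fin 3) F γ) x = x := fun x hx => by
    rw [MulAut.mul_apply, hI x hx]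
    exact hα.comp.le hx
  rw [← map_mul] at h3 hc' hI' ⊢
  suffices k : (σ, ε) = 1 ∨ γ.right = 1 ∨ (σ, ε) * γ.right = 1 from
    k.imp (L3b.inn hα.sq) (Or.imp (L3b.inn h2) (L3b.inn h3))
  have s1 : σ * σ = 1 := congrArg Prod.fst (L3b.right_sq hα.sq)
  have s2 := L3b.right_sq h2
  have a2 := (pow_two _).trans hα.sq
  by_cases hσ : σ = 1
  · subst hσ
    rcases Cl.Aut.c2_cases ε with rfl | rfl
    · exact Or.inl rfl
    obtain ⟨n, -, hn⟩ := FiniteField.card F 2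
    have o2 : ∀ g, Cl.Aut.psiL (Fin 3) F ⟨g, 1, Cl.Aut.c2gen⟩ ^ 2 = 1 →
        orderOf (Cl.Aut.psiL (Fin 3) F ⟨g, 1, Cl.Aut.c2gen⟩) = 2 := fun g e =>
      orderOf_eq_prime e (Cl.Aut.psiL_ne_one_graph (by simp) g 1)
    obtain ⟨g', hg⟩ := L3b.core hα h2 hc hI (S2699.result hn n.2 le_rfl (m := 1) rfl _ _
      (Cl.Aut.isGraphAutClassPSL_iff.2 ⟨le_rfl, _, rfl⟩) (o2 _ (L3b.J_sq (mul_one 1)))
      (Cl.Aut.isGraphAutClassPSL_iff.2 ⟨le_rfl, _, rfl⟩) (o2 _ a2)).2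
    obtain ⟨g2, σ2, ε2⟩ := γ
    obtain rfl : σ2 = 1 := L3a.right_eq (g := g') (ε := ε2) fun a => by
      rw [L3b.tv]
      exact hg _ (L3b.J_fix rfl rfl (by simp [CharTwo.add_self_eq_zero]))
    rcases Cl.Aut.c2_cases ε2 with rfl | rfl
    · exact Or.inr (Or.inl rfl)
    · exact Or.inr (Or.inr s2)
  have oσ : orderOf σ = 2 := orderOf_eq_prime ((pow_two σ).trans s1) hσ
  obtain ⟨g2, σ2, ε2⟩ := γ
  have c2 : σ2 = 1 ∨ σ2 = σ := (em _).imp_right fun e => Cl.Aut.ringAut_eq_of_orderOf_two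
    (orderOf_eq_prime ((pow_two σ2).trans (congrArg Prod.fst s2)) e) oσ
  rcases Cl.Aut.c2_cases ε with rfl | rfl
  · obtain ⟨g', hg⟩ := L3b.core hα h2 hc hI (Cl.Aut.isConjUnder_field_psl σ g (by rw [oσ]; exact a2))
    rcases Cl.Aut.c2_cases ε2 with rfl | rfl
    · rcases c2 with rfl | rfl
      · exact Or.inr (Or.inl rfl)
      · exact Or.inr (Or.inr s2)
    · exact (L3b.no_graph (hg _ (L3b.one_fix (map_one σ) (map_zero σ) (map_zero σ)))
        (hg _ (L3b.one_fix (map_zero σ) (map_zero σ) (map_one σ)))).elim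
  · have cj := Cl.Aut.isConjUnder_trans (Cl.Aut.isConjUnder_symm
      (Cl.Aut.isConjUnder_graphField_psl (n := 3) (by omega) oσ _ (L3b.J_sq s1)))
      (Cl.Aut.isConjUnder_graphField_psl (n := 3) (by omega) oσ g a2)
    rcases Cl.Aut.c2_cases ε2 with rfl | rfl <;> rcases c2 with rfl | rfl
    · exact Or.inr (Or.inl rfl)
    · obtain ⟨g', hg⟩ := L3b.core hα h2 hc hI cj
      exact (L3b.no_field oσ fun x h1 h2 h3 => hg x (L3b.J_fix h1 h2 h3)).elim
    · obtain ⟨g', hg⟩ := L3b.core hα h3 hc' hI' cj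
      rw [SemidirectProduct.mul_right, Prod.mk_mul_mk, mul_one, Cl.Aut.c2gen_mul_self] at hg
      exact (L3b.no_field oσ fun x h1 h2 h3 => hg x (L3b.J_fix h1 h2 h3)).elim
    · exact Or.inr (Or.inr s2)

end Cfsg.Agent.QF
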