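import Mathlib
import Cfsg.Agent.QF.Defs
import Cfsg.Agent.QF.K0
import Cfsg.Agent.Cl.LinearSylow
import Cfsg.Agent.S2601

/-! # S1849, piece QF-L45: L4(2), L5(2) -/

set_option autoImplicit false
set_option linter.unusedVariables false
set_option linter.unusedSectionVars false

namespace Cfsg.Agent.QF

open Cfsg Subgroup Cfsg.Agent.GT Cfsg.Agent.Inv Cfsg.Agent.Cmp Cfsg.Agent.QE
open scoped commutatorElement

universe u

variable {F : Type} [Field F] [Fintype F]

namespace L45

open Matrix

theorem br_apply {n : ℕ} (N : Matrix (Fin n) (Fin n) F) (i j r s : Fin n) :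
    (single i j (1 : F) * N - N * single i j (1 : F)) r s =
      (if r = i then N j s else 0) - if s = j then N r i else 0 := by
  rw [Matrix.sub_apply]
  congr 1
  · split_ifs with h
    · rw [h, single_mul_apply_same, one_mul]
    · exact single_mul_apply_of_ne _ _ _ _ _ h _
  · split_ifs with h
    · rw [h, mul_single_apply_same, mul_one]
    · exact mul_single_apply_of_ne _ _ _ _ _ h _

/-- A strictly upper triangular matrix whose brackets with the elementary matrices take only one
non-zero value has square zero. -/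
theorem sq_zero {n : ℕ} (hn : 4 ≤ n) (N D : Matrix (Fin n) (Fin n) F)
    (hN : ∀ i j, j ≤ i → N i j = 0)
    (h : ∀ i j, i < j → single i j (1 : F) * N - N * single i j (1 : F) = 0 ∨
      single i j (1 : F) * N - N * single i j (1 : F) = D) : N * N = 0 := by
  by_contra h0
  obtain ⟨i, j, k, hik, hkj⟩ : ∃ i j k, N i k ≠ 0 ∧ N k j ≠ 0 := by
    by_contra c
    push Not at c
    refine h0 (Matrix.ext fun i j => ?_)
    rw [Matrix.mul_apply, Matrix.zero_apply]
    refine Finset.sum_eq_zero fun k _ => ?_
    by_cases e : N i k = 0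
    · rw [e, zero_mul]
    · rw [c i j k e, mul_zero]
  have ik : i < k := lt_of_not_ge fun e => hik (hN _ _ e)
  have kj : k < j := lt_of_not_ge fun e => hkj (hN _ _ e)
  let o : Fin n := ⟨0, by omega⟩
  let e : Fin n := ⟨n - 1, by omega⟩
  have le_e : ∀ s : Fin n, s ≤ e := fun s => by
    have := s.2
    change s.1 ≤ n - 1
    omega
  have o_le : ∀ s : Fin n, o ≤ s := fun s => Nat.zero_le _
  have D1 : ∀ r s, s ≠ e → D r s = 0 := by
    intro r s hs
    rcases h k e (kj.trans_le (le_e j)) with h1 | h1
    · have := congrFun (congrFun h1 i) e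
      rw [br_apply, if_neg ik.ne, if_pos rfl, zero_sub, Matrix.zero_apply, neg_eq_zero] at this
      exact absurd this hik
    · rw [← h1, br_apply, if_neg hs, hN e s (le_e s), ite_self, sub_zero]
  have D2 : ∀ r s, r ≠ o → D r s = 0 := by
    intro r s hr
    rcases h o k ((o_le i).trans_lt ik) with h1 | h1
    · have := congrFun (congrFun h1 o) j
      rw [br_apply, if_pos rfl, if_neg kj.ne', sub_zero, Matrix.zero_apply] at this
      exact absurd this hkj
    · rw [← h1, br_apply, if_neg hr, hN r o (o_le r), ite_self, sub_zero]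
  obtain ⟨l, lo, le, lk⟩ : ∃ l : Fin n, l ≠ o ∧ l ≠ e ∧ l ≠ k := by
    by_cases c : k.1 = 1
    · refine ⟨⟨2, by omega⟩, ?_, ?_, ?_⟩ <;> intro c' <;> have := congrArg Fin.val c' <;>
        simp only [o, e] at this <;> omega
    · refine ⟨⟨1, by omega⟩, ?_, ?_, ?_⟩ <;> intro c' <;> have := congrArg Fin.val c' <;>
        simp only [o, e] at this <;> omega
  rcases lt_or_gt_of_ne lk with c | c
  · have h2 : (single l k (1 : F) * N - N * single l k (1 : F)) l j = 0 := by
      rcases h l k c with h1 | h1
      · rw [h1, Matrix.zero_apply]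
      · rw [h1, D2 _ _ lo]
    rw [br_apply, if_pos rfl, if_neg kj.ne', sub_zero] at h2
    exact hkj h2
  · have h2 : (single k l (1 : F) * N - N * single k l (1 : F)) i l = 0 := by
      rcases h k l c with h1 | h1
      · rw [h1, Matrix.zero_apply]
      · rw [h1, D1 _ _ le]
    rw [br_apply, if_neg ik.ne, if_pos rfl, zero_sub, neg_eq_zero] at h2
    exact hik h2

theorem nu_sl [CharP F 2] {n : ℕ} (hn : 4 ≤ n) : NU (SpecialLinearGroup (Fin n) F) := by
  have hb : Function.Injective (id : Fin n → Fin n) := Function.injective_id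
  refine NU.of_one (Cl.unipSylowSL F 2 hb) fun x hx _ hn' => ?_
  have hx' := (Cl.mem_unipSylowSL 2 hb).1 hx
  have h2 := sq_zero hn ((x : Matrix (Fin n) (Fin n) F) - 1)
    (((x⁻¹ : SpecialLinearGroup (Fin n) F) : Matrix (Fin n) (Fin n) F) - (x : Matrix (Fin n) (Fin n) F))
    (fun i j hij => by rw [Matrix.sub_apply, hx' i j hij, sub_self]) fun i j hij => by
      have tU : SpecialLinearGroup.transvection hij.ne (1 : F) ∈ Cl.unipSylowSL F 2 hb :=
        Cl.tGL_mem_unipRad hij.ne hij (1 : F)
      have e0 : single i j (1 : F) * (x : Matrix (Fin n) (Fin n) F) * single i j (-1 : F) = 0 := by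
        rw [single_mul_mul_single, hx' j i hij.le, Matrix.one_apply_ne hij.ne']
        simp
      have e : ((SpecialLinearGroup.transvection hij.ne (1 : F) * x *
          (SpecialLinearGroup.transvection hij.ne (1 : F))⁻¹ : SpecialLinearGroup (Fin n) F) :
            Matrix (Fin n) (Fin n) F) - x = single i j (1 : F) * ((x : Matrix (Fin n) (Fin n) F) - 1) -
              ((x : Matrix (Fin n) (Fin n) F) - 1) * single i j (1 : F) := by
        rw [SpecialLinearGroup.transvection_inv]
        change (1 + single i j (1 : F)) * (x : Matrix (Fin n) (Fin n) F) * (1 + single i j (-1 : F)) -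
          (x : Matrix (Fin n) (Fin n) F) = _
        rw [add_mul, mul_add, add_mul _ _ (single i j (-1 : F)), e0, ← single_neg]
        noncomm_ring
      rcases hn' _ tU with h1 | h1
      · left; rw [← e, h1, sub_self]
      · right; rw [← e, h1]
  refine Subtype.ext ?_
  rw [pow_two]
  change (x : Matrix (Fin n) (Fin n) F) * x = 1
  have h3 : (x : Matrix (Fin n) (Fin n) F) + x = 1 + 1 := by
    ext i j
    rw [Matrix.add_apply, Matrix.add_apply, CharTwo.add_self_eq_zero, CharTwo.add_self_eq_zero]
  calc (x : Matrix (Fin n) (Fin n) F) * x = (x - 1) * (x - 1) + (x + x) - 1 := by noncomm_ring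
    _ = 1 := by rw [h2, h3]; simp

theorem center_bot {n : ℕ} (h : Fintype.card F = 2) :
    center (SpecialLinearGroup (Fin n) F) = ⊥ := by
  refine (eq_bot_iff_forall _).2 fun z hz => ?_
  rcases Nat.eq_zero_or_pos n with rfl | hn
  · exact Subtype.ext (Subsingleton.elim _ _)
  obtain ⟨c, hc, hz'⟩ := Matrix.SpecialLinearGroup.mem_center_iff.1 hz
  have c0 : c ≠ 0 := by
    rintro rfl
    rw [Fintype.card_fin, zero_pow hn.ne'] at hc
    exact zero_ne_one hc
  have c1 : c = 1 := by
    have := FiniteField.pow_card_sub_one_eq_one c c0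
    rwa [h, pow_one] at this
  refine Subtype.ext ?_
  rw [← hz', c1, map_one]
  rfl

theorem card_out {n : ℕ} (hn : 3 ≤ n) (h : Fintype.card F = 2) :
    Nat.card (Out (ProjectiveSpecialLinearGroup (Fin n) F)) ∣ 2 := by
  have := Fact.mk Nat.prime_two
  obtain ⟨φ, -, -, h3⟩ := S2601.result (F := F) (p := 2) (f := 1) le_rfl h hn
  have h4 : φ.ker = ⊥ := by
    rw [← card_eq_one, h3]
    simp
  have h5 := card_dvd_of_injective φ ((MonoidHom.ker_eq_bot_iff φ).1 h4)
  simpa using h5

end L45

theorem gd_l45 {n : ℕ} (hn : n = 4 ∨ n = 5) (h : Fintype.card F = 2) :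
    NU (Matrix.ProjectiveSpecialLinearGroup (Fin n) F) ∧ ZV (Matrix.ProjectiveSpecialLinearGroup (Fin n) F) ∧
      OC (Matrix.ProjectiveSpecialLinearGroup (Fin n) F) := by
  have := Fact.mk Nat.prime_two
  have : CharP F 2 := charP_of_card_eq_prime h
  refine ⟨?_, zv_of_out (L45.card_out (by omega) h)⟩
  exact (L45.nu_sl (by omega)).of_equiv
    ((QuotientGroup.quotientMulEquivOfEq (L45.center_bot h)).trans QuotientGroup.quotientBot)

end Cfsg.Agent.QF
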