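import Mathlib
import Cfsg.Agent.QF.Defs
import Cfsg.Agent.QT.KFamA

/-! # S1849, piece QF-LiA: large linear and unitary groups (proof in stubs/Cfsg/Agent/QF/PLAN.md) -/

set_option autoImplicit false
set_option linter.unusedVariables false

namespace Cfsg.Agent.QF

open Cfsg Subgroup Cfsg.Agent.GT Cfsg.Agent.Inv Cfsg.Agent.Cmp Cfsg.Agent.QE
open scoped commutatorElement

universe u

variable {F : Type} [Field F] [Fintype F]

theorem LiA_nsq {A X : Type*} [Group A] [Group X] {r : ℕ} (hr : r.Prime) (h2 : r ≠ 2) {w : A} (hw : orderOf w = r)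
    (φ : (Fin 3 → zpowers w) →* X) (hφ : Function.Injective φ) : ¬ IsStronglyQuasithin X := fun h => by
  have h1 := (h r hr h2).of_injective φ hφ ⊤ ⟨⟨fun a b => Subtype.ext (funext fun i => mul_comm' _ _)⟩⟩ fun a _ =>
    funext fun i => by rw [Pi.pow_apply, ← hw, ← Nat.card_zpowers, pow_card_eq_one', Pi.one_apply]
  rw [card_top, Nat.card_fun, Nat.card_zpowers, hw, Nat.card_fin] at h1
  exact absurd ((Nat.pow_le_pow_iff_right hr.one_lt).1 h1) (by decide)

/-- Three independent diagonal entries. -/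
def LiA_δ (m : ℕ) (a : Fˣ) : (Fin 3 → zpowers a) →* (Fin (m + 4) → Fˣ) :=
  MonoidHom.mk' (fun c => Fin.cons (c 0) (Fin.cons (c 1) (Fin.cons (c 2) (Fin.cons (c 0 * c 1 * c 2 : zpowers a)⁻¹ 1))))
    fun c d => by
      funext i
      refine Fin.cases rfl (Fin.cases rfl (Fin.cases rfl (Fin.cases ?_ fun j => (mul_one _).symm))) i
      change ((c 0 : Fˣ) * d 0 * (c 1 * d 1) * (c 2 * d 2))⁻¹ = ((c 0 : Fˣ) * c 1 * c 2)⁻¹ * ((d 0 : Fˣ) * d 1 * d 2)⁻¹
      rw [← mul_inv]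
      exact congrArg _ (by ac_rfl)

theorem LiA_mono {G : Type*} [Group G] {n : ℕ} (hn : 4 ≤ n) (ρ : G →* GL (Fin n) F)
    (hρ : Function.Injective ρ) {r : ℕ} (hr : r.Prime) (h2 : r ≠ 2) {a : Fˣ} (ha : orderOf a = r)
    (hD : ∀ d : Fin n → Fˣ, (∀ i, d i ^ r = 1) → ∏ i, d i = 1 → Cl.Cls.diagGL d ∈ ρ.range)
    (hZ : ∀ g ∈ center G, ∃ c : F, (ρ g : Matrix (Fin n) (Fin n) F) = c • 1) :
    ¬ IsStronglyQuasithin (G ⧸ center G) := by
  obtain ⟨m, rfl⟩ := Nat.exists_eq_add_of_le' hn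
  have hp : ∀ x : zpowers a, (x : Fˣ) ^ r = 1 := fun x => by
    rw [← coe_pow, ← ha, ← Nat.card_zpowers, pow_card_eq_one', coe_one]
  have hm : ∀ c, (Cl.Cls.diagGL.comp (LiA_δ m a)) c ∈ ρ.range := fun c => hD _ (fun i => by
    refine Fin.cases ?_ (Fin.cases ?_ (Fin.cases ?_ (Fin.cases ?_ fun j => ?_))) i
    exacts [hp (c 0), hp (c 1), hp (c 2), hp (c 0 * c 1 * c 2)⁻¹, one_pow r]) (by
    simp only [LiA_δ, MonoidHom.mk'_apply, Fin.prod_univ_succ, Fin.cons_zero, Fin.cons_succ, Pi.one_apply,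
      Finset.prod_const_one, mul_one, ← mul_assoc]
    exact mul_inv_cancel _)
  refine LiA_nsq hr h2 ha ((QuotientGroup.mk' _).comp ((MonoidHom.ofInjective hρ).symm.toMonoidHom.comp
    (MonoidHom.codRestrict _ _ hm))) ((injective_iff_map_eq_one _).2 fun c hc => ?_)
  obtain ⟨s, hs⟩ := hZ _ ((QuotientGroup.eq_one_iff _).1 hc)
  have e : ∀ i, ((LiA_δ m a c i : Fˣ) : F) = s := fun i => by
    have := congrFun (congrFun ((congrArg Units.val (MonoidHom.apply_ofInjective_symm hρ ⟨_, hm c⟩)).symm.trans hs) i) i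
    simpa [Cl.Cls.coe_diagGL] using this
  have e1 : c 1 = c 0 := Subtype.ext (Units.ext ((e 1).trans (e 0).symm))
  have e2 : c 2 = c 0 := Subtype.ext (Units.ext ((e 2).trans (e 0).symm))
  have e3 : (c 0 * c 1 * c 2)⁻¹ = c 0 := Subtype.ext (Units.ext ((e 3).trans (e 0).symm))
  have e4 : c 0 ^ 2 ^ 2 = 1 := by
    rw [e1, e2, inv_eq_iff_mul_eq_one] at e3
    rw [show 2 ^ 2 = 1 + 1 + 1 + 1 from rfl, pow_succ, pow_succ, pow_succ, pow_one, e3]
  have e0 : c 0 = 1 := orderOf_eq_one_iff.1 (Nat.eq_one_of_dvd_coprimes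
    (((Nat.coprime_primes hr Nat.prime_two).2 h2).pow_right 2)
    (orderOf_dvd_of_pow_eq_one (Subtype.ext (hp _))) (orderOf_dvd_of_pow_eq_one e4))
  funext i
  fin_cases i
  exacts [e0, e1.trans e0, e2.trans e0]

/-- Block diagonal matrices. -/
def LiA_blk : (Fin 3 → Matrix.SpecialLinearGroup (Fin 2) F) →* Matrix.SpecialLinearGroup (Fin 2 × Fin 3) F :=
  MonoidHom.mk' (fun g => ⟨Matrix.blockDiagonal fun i => (g i).1, by simp [Matrix.det_blockDiagonal]⟩)
    fun g h => Subtype.ext (Matrix.blockDiagonal_mul (fun i => (g i).1) fun i => (h i).1)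

theorem LiA_two {n : ℕ} (hn : 6 ≤ n) (hq : Fintype.card F = 2) :
    ¬ IsStronglyQuasithin (Matrix.ProjectiveSpecialLinearGroup (Fin n) F) := by
  classical
  have : Fact (Nat.Prime 3) := ⟨Nat.prime_three⟩
  let w : Matrix.SpecialLinearGroup (Fin 2) F := ⟨!![0, -1; 1, -1], by simp [Matrix.det_fin_two]⟩
  have hw : orderOf w = 3 := orderOf_eq_prime (Subtype.ext (by
    rw [Matrix.SpecialLinearGroup.coe_pow, pow_three]
    simp [w, Matrix.one_fin_two])) fun e => by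
    simpa [w] using congrFun (congrFun (congrArg Subtype.val e) 0) 0
  let e : Fin 2 × Fin 3 → Fin n := fun x => Fin.castLE hn (finProdFinEquiv x)
  have he : Function.Injective e := (Fin.castLE_injective hn).comp finProdFinEquiv.injective
  have hZ : center (Matrix.SpecialLinearGroup (Fin n) F) = ⊥ := eq_bot_iff.2 fun g hg => by
    obtain ⟨s, h1, h2⟩ := Matrix.SpecialLinearGroup.mem_center_iff.1 hg
    have h3 : s ≠ 0 := by
      rintro rfl
      rw [Fintype.card_fin, zero_pow (by omega)] at h1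
      exact zero_ne_one h1
    have h4 := FiniteField.pow_card_sub_one_eq_one s h3
    rw [hq, pow_one] at h4
    exact Subtype.ext (by rw [← h2, h4, map_one]; rfl)
  refine LiA_nsq Nat.prime_three (by decide) hw ((QuotientGroup.mk' _).comp ((Cl.slEmb
    ((1 : Matrix (Fin n) (Fin n) F).submatrix id e) ((1 : Matrix (Fin n) (Fin n) F).submatrix e id) (by
      rw [← Matrix.submatrix_mul _ _ _ _ _ Function.bijective_id, one_mul, Matrix.submatrix_one _ he])).comp
    (LiA_blk.comp ((zpowers w).subtype.compLeft _)))) ?_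
  refine ((MonoidHom.ker_eq_bot_iff _).1 ((QuotientGroup.ker_mk' _).trans hZ)).comp
    ((Cl.slEmb_injective _ _ _).comp fun c d h => funext fun i => Subtype.ext (Subtype.ext ?_))
  exact congrFun (Matrix.blockDiagonal_injective (a₁ := fun i => (c i).1.1) (a₂ := fun i => (d i).1.1)
    (congrArg Subtype.val h)) i

theorem nsq_psl [CharP F 2] {n : ℕ} (h : (4 ≤ n ∧ 4 ≤ Fintype.card F) ∨ 6 ≤ n) :
    ¬ IsStronglyQuasithin (Matrix.ProjectiveSpecialLinearGroup (Fin n) F) := by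
  obtain ⟨f, -, hF⟩ := FiniteField.card F 2
  by_cases hq : Fintype.card F = 2
  · exact LiA_two (by omega) hq
  obtain ⟨r, a, hr, h2, -, ha⟩ := QT.exists_odd_order (F := F) dvd_rfl (by omega)
    (hF ▸ QT.not_dvd_pred Nat.prime_two f.2)
  refine LiA_mono (by omega) Matrix.SpecialLinearGroup.toGL Matrix.SpecialLinearGroup.toGL_injective hr h2 ha
    (fun d _ hd => ⟨⟨_, QT.det_diagGL hd⟩, Units.ext rfl⟩) fun g hg => ?_
  obtain ⟨s, -, h2⟩ := Matrix.SpecialLinearGroup.mem_center_iff.1 hg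
  exact ⟨s, h2.symm.trans (by simp [Matrix.scalar_apply, Matrix.smul_one_eq_diagonal])⟩

theorem nsq_psu [CharP F 2] {n q : ℕ} (hF : Fintype.card F = q ^ 2) (h : 4 ≤ n) :
    ¬ IsStronglyQuasithin (PSU n F q) := by
  obtain ⟨p, f, hp, _, hf, rfl⟩ := QT.exists_char_sq hF
  obtain rfl : p = 2 := CharP.eq F ‹_› ‹CharP F 2›
  obtain ⟨σ, hσ⟩ := Cl.exists_uField hF
  obtain ⟨r, a, hr, h2, ⟨c, hc⟩, ha⟩ := QT.exists_odd_order (F := F) (m := 2 ^ f + 1)
    (by rw [hF, ← one_pow 2, Nat.sq_sub_sq, one_pow]; exact dvd_mul_right _ _) (by simp) (QT.not_dvd_succ hp hf)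
  refine LiA_mono h (Matrix.SpecialLinearGroup.toGL.comp (SU n F (2 ^ f)).subtype)
    (Matrix.SpecialLinearGroup.toGL_injective.comp (subtype_injective _)) hr h2 ha
    (fun d hd h => ⟨⟨⟨_, QT.det_diagGL h⟩, fun u v => ?_⟩, Units.ext rfl⟩)
    fun g hg => (hσ.mem_center_SU_iff (by omega)).1 hg
  refine Finset.sum_congr rfl fun i _ => ?_
  have : (d i : F) ^ (2 ^ f + 1) = 1 := by rw [hc, pow_mul, ← Units.val_pow_eq_pow_val, hd i]; simp
  change (Matrix.diagonal (fun i => (d i : F))).mulVec u i * (Matrix.diagonal (fun i => (d i : F))).mulVec v i ^ _ = _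
  rw [Matrix.mulVec_diagonal, Matrix.mulVec_diagonal, mul_pow]
  linear_combination (u i * v i ^ 2 ^ f) * this

end Cfsg.Agent.QF
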