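import Mathlib
import Cfsg.Agent.QF.Defs
import Cfsg.Agent.QT.KFamB

/-! # S1849, piece QF-LiB: large symplectic and orthogonal groups -/

set_option autoImplicit false
set_option linter.unusedVariables false

namespace Cfsg.Agent.QF

open Cfsg Subgroup Cfsg.Agent.GT Cfsg.Agent.Inv Cfsg.Agent.Cmp Cfsg.Agent.QE Matrix QuadraticMap
open scoped commutatorElement

universe u

theorem LiB_three {N G : Type*} [Group N] [Finite N] [Group G] (f : N →* G)
    (hZ : ∀ z ∈ center N, ∀ g, Commute g (f z)) (x : Fin 3 → N) (s : Fin 3 → G) (h3 : ∀ i, x i ^ 3 = 1)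
    (hc : ∀ i j, i ≠ j → Commute (x i) (x j)) (hn : ∀ i, ¬ Commute (s i) (f (x i)))
    (hs : ∀ i j, i ≠ j → Commute (s i) (f (x j))) : ¬ IsStronglyQuasithin (N ⧸ center N) := fun H => by
  let ι : Fin 3 → Multiplicative (ZMod 3) →* N := fun i => MonoidHom.mk' (fun c => x i ^ c.toAdd.val)
    fun a b => by rw [toAdd_mul, ZMod.val_add, ← pow_eq_pow_mod _ (h3 i), pow_add]
  have hι : Pairwise fun i j => ∀ a b, Commute (ι i a) (ι j b) := fun i j h a b => (hc i j h).pow_pow _ _
  let φ := (QuotientGroup.mk' (center N)).comp (MonoidHom.noncommPiCoprod ι hι)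
  have hφ : Function.Injective φ := (injective_iff_map_eq_one φ).2 fun c h => funext fun i => by
    have h1 := hZ _ ((QuotientGroup.eq_one_iff _).1 h) (s i)
    have h2 : Commute (s i) (f (MonoidHom.noncommPiCoprod ι hι (Function.update c i 1))) := by
      rw [MonoidHom.noncommPiCoprod_apply, Finset.map_noncommProd]
      refine Finset.noncommProd_commute _ _ _ _ fun j _ => ?_
      by_cases e : j = i
      · subst e
        simp
      · rw [Function.update_of_ne e]
        change Commute (s i) (f (x j ^ _))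
        rw [map_pow]
        exact (hs i j (Ne.symm e)).pow_right _
    have h4 : c = Function.update c i 1 * Pi.mulSingle i (c i) := funext fun j => by
      by_cases e : j = i
      · subst e
        simp
      · simp [e]
    rw [h4, map_mul, map_mul, MonoidHom.noncommPiCoprod_mulSingle] at h1
    have h5 := h2.inv_right.mul_right h1
    rw [inv_mul_cancel_left] at h5
    change Commute (s i) (f (x i ^ (c i).toAdd.val)) at h5
    by_contra h6
    have h7 := h5.pow_right (c i).toAdd.val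
    rw [← map_pow, ← pow_mul, pow_eq_pow_mod _ (h3 i),
      (by decide : ∀ a : Multiplicative (ZMod 3), a ≠ 1 → a.toAdd.val * a.toAdd.val % 3 = 1) _ h6, pow_one] at h7
    exact hn i h7
  have := H 3 Nat.prime_three (by decide) φ.range
    ⟨⟨by rintro ⟨_, a, rfl⟩ ⟨_, b, rfl⟩; exact Subtype.ext (by simp [← map_mul, mul_comm])⟩⟩
    (by
      rintro _ ⟨a, rfl⟩
      rw [← map_pow, show a ^ 3 = 1 from funext fun i =>
        (by decide : ∀ a : Multiplicative (ZMod 3), a ^ 3 = 1) (a i), map_one])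
  rw [← Nat.card_congr (MonoidHom.ofInjective hφ).toEquiv] at this
  simp at this

section Orth

variable {F : Type} [Field F] {ι : Type} [Fintype ι] [DecidableEq ι] {P : QuadraticForm F (ι → F)}

theorem LiB_pairs [Finite F] [CharP F 2] (hP : (polarBilin P).Nondegenerate) (h5 : 5 ≤ Fintype.card ι)
    (a b : Fin 3 → ι → F) (ha : ∀ i, P (a i) = 1) (hb : ∀ i, P (b i) = 1) (hab : ∀ i, polar P (a i) (b i) = 1)
    (h1 : ∀ i j, i ≠ j → polar P (a i) (a j) = 0 ∧ polar P (a i) (b j) = 0 ∧ polar P (b i) (a j) = 0 ∧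
      polar P (b i) (b j) = 0) : ¬ IsStronglyQuasithin (POmega F P) := by
  have k := fun i => QT.orefl_facts (P := P) (w := a i) one_ne_zero (ha i) (hb i) (hab i)
    (by rw [polar_self, two_smul, CharTwo.add_self_eq_zero]) (by rw [hab]; exact one_ne_zero)
  let φ : Omega F P →* Cl.OG P := (Cl.omatEquiv P).toMonoidHom.comp (Omega F P).subtype
  have hφ : Function.Injective φ := (Cl.omatEquiv P).injective.comp Subtype.val_injective
  have hr : ∀ x ∈ commutator (Cl.OG P), ∃ y, φ y = x := fun x hx =>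
    ⟨⟨(Cl.omatEquiv P).symm x, (Cl.omatEquiv_mem_commutator_iff _).1 (by simpa using hx)⟩, by simp [φ]⟩
  choose x hx using fun i => hr _ (k i).2.1
  have k1 : ∀ i j, i ≠ j → Commute (Cl.orefl P (a i)) (Cl.orefl P (a j) * Cl.orefl P (b j)) := fun i j h =>
    Commute.mul_right (Cl.orefl_comm_of_polar (h1 i j h).1) (Cl.orefl_comm_of_polar (h1 i j h).2.1)
  have k2 : ∀ i j, i ≠ j → Commute (Cl.orefl P (b i)) (Cl.orefl P (a j) * Cl.orefl P (b j)) := fun i j h =>
    Commute.mul_right (Cl.orefl_comm_of_polar (h1 i j h).2.2.1) (Cl.orefl_comm_of_polar (h1 i j h).2.2.2)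
  refine LiB_three φ (fun z hz g => ?_) x (fun i => Cl.orefl P (a i))
    (fun i => hφ (by rw [map_pow, hx, (k i).1, map_one]))
    (fun i j h => hφ (by rw [map_mul, map_mul, hx, hx]; exact ((k1 i j h).mul_left (k2 i j h)).eq))
    (fun i => hx i ▸ (k i).2.2) fun i j h => hx j ▸ k1 i j h
  obtain ⟨c, hc⟩ := Cl.omGL_center_scalar hP h5 z hz
  have : ∀ v, (φ z).1 v = c • v := fun v => by
    rw [show (φ z).1 v = _ from Cl.omatEquiv_app z.1 v, ← Cl.omGL_apply, hc, smul_mulVec, one_mulVec]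
  refine Subtype.ext (LinearEquiv.ext fun v => ?_)
  change g.1 ((φ z).1 v) = (φ z).1 (g.1 v)
  rw [this, this, map_smul]

theorem LiB_pomega [Finite F] [CharP F 2] (hP : (polarBilin P).Nondegenerate) (h5 : 5 ≤ Fintype.card ι)
    (e f : Fin 3 → ι → F) {w w' : ι → F} (he : ∀ i, P (e i) = 0) (hf : ∀ i, P (f i) = 0)
    (hee : ∀ i j, polar P (e i) (e j) = 0) (hff : ∀ i j, polar P (f i) (f j) = 0)
    (hef : ∀ i j, polar P (e i) (f j) = if i = j then 1 else 0) (hw : P w = 1) (hww : polar P w w' = 1)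
    (h1 : ∀ i, polar P (e i) w = 0) (h2 : ∀ i, polar P (f i) w = 0) (h3 : ∀ i, polar P (e i) w' = 0)
    (h4 : ∀ i, polar P (f i) w' = 0) : ¬ IsStronglyQuasithin (POmega F P) := by
  have add : ∀ x y, P (x + y) = P x + P y + polar P x y := fun x y => by rw [polar]; ring
  have hfe : ∀ i j, polar P (f j) (e i) = if i = j then 1 else 0 := fun i j => by rw [polar_comm, hef]
  have c1 := fun i => (polar_comm P w (e i)).trans (h1 i)
  have c2 := fun i => (polar_comm P w (f i)).trans (h2 i)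
  have c3 := fun i => (polar_comm P w' (e i)).trans (h3 i)
  have c4 := fun i => (polar_comm P w' (f i)).trans (h4 i)
  have two : (1 + 1 : F) = 0 := CharTwo.add_self_eq_zero 1
  have two' : (2 : F) = 0 := CharTwo.two_eq_zero
  refine LiB_pairs hP h5 ![e 0 + f 0, e 1 + f 1, w] ![e 0 + e 1 + f 1, e 0 + f 0 + e 1, w' + e 2 + (1 - P w') • f 2]
    (fun i => ?_) (fun i => ?_) (fun i => ?_) fun i j h => ?_
  · fin_cases i <;> simp [*]
  · fin_cases i <;> simp [*, QuadraticMap.map_smul]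
  · fin_cases i <;> simp [*]
  · fin_cases i <;> fin_cases j <;> simp [*] at h ⊢

end Orth

variable {F : Type} [Field F] [Fintype F]

theorem nsq_psp [CharP F 2] {m : ℕ} (h : 3 ≤ m) : ¬ IsStronglyQuasithin (PSp m F) := by
  obtain ⟨n, rfl⟩ := Nat.exists_eq_add_of_le' h
  let E : Fin (n + 3) → Matrix (Fin (n + 3)) (Fin (n + 3)) F := fun i => single i i 1
  have hE : ∀ i, E i * E i = E i := fun i => by simp [E]
  have hT : ∀ i, (E i)ᵀ = E i := fun i => by simp [E]
  have h0 : ∀ i j, i ≠ j → E i * E j = 0 := fun i j h => by simp [E, h]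
  let x : Fin (n + 3) → symplecticGroup (Fin (n + 3)) F := fun i =>
    ⟨fromBlocks (1 - E i) (-E i) (E i) (1 - E i - E i), by
      rw [SymplecticGroup.fromBlocks_mem_iff]
      simp [hE, hT, mul_sub, sub_mul]⟩
  let s : Fin (n + 3) → symplecticGroup (Fin (n + 3)) F := fun i => ⟨fromBlocks 1 (E i) 0 1, by
    rw [SymplecticGroup.fromBlocks_mem_iff]
    simp [hT]⟩
  have h3 : ∀ i, x i ^ 3 = 1 := fun i => Subtype.ext (by
    simp [x, pow_succ, fromBlocks_multiply, hE, mul_sub, sub_mul, mul_add, add_mul, ← fromBlocks_one])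
  have hn : ∀ i, ¬ Commute (s i) (x i) := fun i h => by
    have := congrArg (fun A => A.1 (.inl i) (.inl i)) h.eq
    simp [x, s, fromBlocks_multiply, E] at this
  have hc : ∀ i j, i ≠ j → Commute (x i) (x j) ∧ Commute (s i) (x j) := fun i j h => by
    have h01 := h0 i j h
    have h10 := h0 j i h.symm
    refine ⟨Subtype.ext ?_, Subtype.ext ?_⟩ <;>
    simp [x, s, fromBlocks_multiply, h01, h10, mul_sub, sub_mul] <;> abel_nf <;> simp
  have hi : ∀ i j : Fin 3, i ≠ j → Fin.castLE (n := 3) (by omega : 3 ≤ n + 3) i ≠ Fin.castLE (by omega) j :=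
    fun i j h e => h (Fin.castLE_injective _ e)
  exact LiB_three (MonoidHom.id _) (fun z hz g => mem_center_iff.1 hz g) (fun i => x (Fin.castLE (by omega) i))
    (fun i => s (Fin.castLE (by omega) i)) (fun i => h3 _) (fun i j h => (hc _ _ (hi i j h)).1) (fun i => hn _)
    fun i j h => (hc _ _ (hi i j h)).2

theorem nsq_plus [CharP F 2] {m : ℕ} (h : 4 ≤ m) : ¬ IsStronglyQuasithin (POmega F (quadFormPlus m F)) := by
  obtain ⟨n, rfl⟩ := Nat.exists_eq_add_of_le' h
  refine LiB_pomega (P := Cl.quad_plus _ F) Cl.quad_plus_nondeg (by simp; omega)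
    (fun i => Pi.single (.inl (Fin.castLE (by omega) i.succ)) 1)
    (fun i => Pi.single (.inr (Fin.castLE (by omega) i.succ)) 1)
    (w := Pi.single (.inl 0) 1 + Pi.single (.inr 0) 1) (w' := Pi.single (.inl 0) 1)
    ?_ ?_ ?_ ?_ (fun i j => ?_) ?_ ?_ ?_ ?_ ?_ ?_ <;>
  simp [Cl.o_polar_plus, Cl.quad_plus_apply, Pi.single_apply, (Fin.succ_ne_zero _).symm]
  simp only [eq_comm]

theorem nsq_minus [CharP F 2] {m : ℕ} (h : 4 ≤ m) {a b : F}
    (hab : ∀ z₁ z₂ : F, z₁ ^ 2 + a * z₁ * z₂ + b * z₂ ^ 2 = 0 → z₁ = 0 ∧ z₂ = 0) :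
    ¬ IsStronglyQuasithin (POmega F (quadFormMinus (m - 1) F a b)) := by
  obtain ⟨n, rfl⟩ := Nat.exists_eq_add_of_le' h
  have ha : a ≠ 0 := fun e => Cl.o_disc_ne_zero_of_anisotropic hab (by
    rw [e, show (4 : F) = 2 * 2 by norm_num, CharTwo.two_eq_zero (R := F)]; ring)
  refine LiB_pomega (P := Cl.quad_minus (n + 3) F a b) (Cl.o_minus_nondeg hab) (by simp; omega)
    (fun i => Pi.single (.inl (.inl (Fin.castLE (by omega) i))) 1)
    (fun i => Pi.single (.inl (.inr (Fin.castLE (by omega) i))) 1)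
    (w := Pi.single (.inr 0) 1) (w' := Pi.single (.inr 1) a⁻¹)
    ?_ ?_ ?_ ?_ (fun i j => ?_) ?_ ?_ ?_ ?_ ?_ ?_ <;>
  simp [Cl.o_polar_minus, Cl.quad_minus_apply, Pi.single_apply, ha]
  simp only [eq_comm]

end Cfsg.Agent.QF
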