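import Mathlib
import Cfsg.Agent.QF.Defs
import Cfsg.Agent.QT.KExc
import Cfsg.Agent.QT.Cover
import Cfsg.Agent.Chev.TwE6
import Cfsg.Agent.Chev.TwAux

/-! # S1849, piece QF-LiC: large exceptional groups (proof in stubs/Cfsg/Agent/QF/PLAN.md) -/

set_option autoImplicit false
set_option linter.unusedVariables false

namespace Cfsg.Agent.QF

open Cfsg Subgroup Cfsg.Agent.GT Cfsg.Agent.Inv Cfsg.Agent.Cmp Cfsg.Agent.QE
open scoped commutatorElement

universe u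

namespace LiC

open Cfsg.Lie Cfsg.Lie.ChevalleyDatum Cfsg.Agent.Chev Cfsg.Agent.QT

theorem dvd_of_inv {Γ : Type*} [Group Γ] {x w a : Γ} (x3 : x ^ 3 = 1) (x1 : x ≠ 1)
    (hx : a * x * a⁻¹ = x⁻¹) (hw : Commute a w) {i : ℕ} (h : x ^ i * w = 1) : 3 ∣ i := by
  have h1 : w = (x ^ i)⁻¹ := eq_inv_of_mul_eq_one_right h
  have h2 : a * x ^ i * a⁻¹ = (x ^ i)⁻¹ := by rw [← conj_pow, hx, inv_pow]
  have h3 : a * x ^ i * a⁻¹ = x ^ i := by
    have : Commute a (x ^ i) := by simpa [h1] using hw.inv_right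
    exact this.mul_inv_cancel
  have h4 : x ^ (2 * i) = 1 := by
    rw [two_mul, pow_add]
    nth_rewrite 1 [← h3, h2]
    exact inv_mul_cancel _
  have h5 : orderOf x = 3 := by
    have : Fact (Nat.Prime 3) := ⟨Nat.prime_three⟩
    exact orderOf_eq_prime x3 x1
  have h6 := orderOf_dvd_of_pow_eq_one h4
  rw [h5] at h6
  exact (Nat.Coprime.dvd_mul_left (by norm_num)).1 h6

theorem not_rk {Γ : Type*} [Group Γ] {x y z a b c : Γ} (x3 : x ^ 3 = 1) (y3 : y ^ 3 = 1)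
    (z3 : z ^ 3 = 1) (x1 : x ≠ 1) (y1 : y ≠ 1) (z1 : z ≠ 1) (xy : Commute x y) (xz : Commute x z)
    (yz : Commute y z) (ha : a * x * a⁻¹ = x⁻¹) (hb : b * y * b⁻¹ = y⁻¹) (hc : c * z * c⁻¹ = z⁻¹)
    (ay : Commute a y) (az : Commute a z) (bz : Commute b z) : ¬ PRankLE 3 2 Γ := by
  refine QT.not_pRankLE_two Nat.prime_three x3 y3 z3 xy xz yz fun i j k h => ?_
  rw [mul_assoc] at h
  have h1 := dvd_of_inv x3 x1 ha ((ay.pow_right j).mul_right (az.pow_right k)) h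
  obtain ⟨i, rfl⟩ := h1
  rw [pow_mul, x3, one_pow, one_mul] at h
  have h2 := dvd_of_inv y3 y1 hb (bz.pow_right k) h
  obtain ⟨j, rfl⟩ := h2
  rw [pow_mul, y3, one_pow, one_mul] at h
  exact ⟨Dvd.intro _ rfl, Dvd.intro _ rfl,
    dvd_of_inv z3 z1 hc (Commute.one_right c) (by rw [h, mul_one])⟩

variable {D : ChevalleyDatum} [D.Good] {F : Type*} [Field F] [CharP F 2]

/-- the element of order three of the `SL₂(2)` of a root -/
noncomputable def w3 (F : Type*) [Field F] (r : D.Rt) : GL D.Idx F := D.X F r 1 * D.X F (D.ng r) 1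

theorem w3_cube (r : D.Rt) : w3 F r ^ 3 = 1 := by
  have a2 := X_sq (F := F) r
  have b2 := X_sq (F := F) (D.ng r)
  have h := X_braid (F := F) r
  unfold w3
  generalize D.X F r 1 = a at *
  generalize D.X F (D.ng r) 1 = b at *
  rw [mul_inv_rev, mul_inv_rev, inv_eq_of_mul_eq_one_right a2, inv_eq_of_mul_eq_one_right b2,
    mul_assoc _ a a, a2, mul_one] at h
  calc _ = a * b * (a * (b * a)) * b := by simp only [pow_succ, pow_zero, one_mul, mul_assoc]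
    _ = 1 := by rw [h, b2]

theorem w3_ne (r : D.Rt) : w3 F r ≠ 1 := fun e =>
  X_ne (F := F) r (mul_right_cancel (e.trans (X_sq _).symm))

theorem w3_inv (r : D.Rt) : D.X F r 1 * w3 F r * (D.X F r 1)⁻¹ = (w3 F r)⁻¹ := by
  rw [w3, ← mul_assoc, X_sq, one_mul, mul_inv_rev, inv_eq_of_mul_eq_one_right (X_sq (D.ng r))]

theorem X_w3 {r s : D.Rt} (h : D.pairing r s = 0) : Commute (D.X F r 1) (w3 F s) :=
  (commute_of_orth h _ _).mul_right
    (commute_of_orth (by rw [pairing_ng_right, h, neg_zero]) _ _)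

theorem w3_w3 {r s : D.Rt} (h : D.pairing r s = 0) : Commute (w3 F r) (w3 F s) :=
  (X_w3 h).mul_left (X_w3 (by rw [pairing_ng_left, h, neg_zero]))

theorem three (M : Subgroup (GL D.Idx F)) (r s t : D.Rt) (h : D.pairing r s = 0 ∧
    D.pairing r t = 0 ∧ D.pairing s t = 0) (hr : D.X F r 1 ∈ M) (hr' : D.X F (D.ng r) 1 ∈ M)
    (hs : D.X F s 1 ∈ M) (hs' : D.X F (D.ng s) 1 ∈ M) (ht : D.X F t 1 ∈ M)
    (ht' : D.X F (D.ng t) 1 ∈ M) : ¬ IsStronglyQuasithin M := fun hq =>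
  not_rk (x := ⟨w3 F r, mul_mem hr hr'⟩) (y := ⟨w3 F s, mul_mem hs hs'⟩)
    (z := ⟨w3 F t, mul_mem ht ht'⟩) (a := ⟨_, hr⟩) (b := ⟨_, hs⟩) (c := ⟨_, ht⟩)
    (Subtype.ext (w3_cube r)) (Subtype.ext (w3_cube s)) (Subtype.ext (w3_cube t))
    (fun e => w3_ne r (congrArg Subtype.val e)) (fun e => w3_ne s (congrArg Subtype.val e))
    (fun e => w3_ne t (congrArg Subtype.val e)) (Subtype.ext (w3_w3 h.1).eq)
    (Subtype.ext (w3_w3 h.2.1).eq) (Subtype.ext (w3_w3 h.2.2).eq) (Subtype.ext (w3_inv r))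
    (Subtype.ext (w3_inv s)) (Subtype.ext (w3_inv t)) (Subtype.ext (X_w3 h.1).eq)
    (Subtype.ext (X_w3 h.2.1).eq) (Subtype.ext (X_w3 h.2.2).eq)
    (hq 3 Nat.prime_three (by omega))

theorem chev (r s t : D.Rt) (h : D.pairing r s = 0 ∧ D.pairing r t = 0 ∧ D.pairing s t = 0) :
    ¬ IsStronglyQuasithin (D.group F) :=
  three _ r s t h (D.XG F r 1).2 (D.XG F (D.ng r) 1).2 (D.XG F s 1).2 (D.XG F (D.ng s) 1).2
    (D.XG F t 1).2 (D.XG F (D.ng t) 1).2

end LiC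

variable {F : Type} [Field F] [Fintype F]

theorem nsq_exc [CharP F 2] : ¬ IsStronglyQuasithin (Lie.chevF4.group F) ∧
    ¬ IsStronglyQuasithin (Lie.chevE6.group F) ∧ ¬ IsStronglyQuasithin (Lie.chevE7.group F) ∧
      ¬ IsStronglyQuasithin (Lie.chevE8.group F) :=
  ⟨LiC.chev (0 : Fin 48) (6 : Fin 48) (17 : Fin 48) (by decide +kernel),
    LiC.chev (0 : Fin 72) (11 : Fin 72) (27 : Fin 72) (by decide +kernel),
    LiC.chev (0 : Fin 126) (33 : Fin 126) (38 : Fin 126) (by decide +kernel),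
    LiC.chev (0 : Fin 240) (13 : Fin 240) (80 : Fin 240) (by decide +kernel)⟩

open Cfsg.Lie Cfsg.Lie.ChevalleyDatum Cfsg.Agent.Chev in
theorem nsq_2e6 [CharP F 2] {q : ℕ} (hq : IsPrimePow q) (hF : Fintype.card F = q ^ 2) :
    ¬ IsStronglyQuasithin (Lie.twistedE6 F q) := by
  obtain ⟨σ, hσ⟩ := tw_exists_frob hq two_ne_zero hF
  rw [← twE6_G1 hF hσ]
  have h1 : (twE6 σ).Full (twE6 σ).G1 (e6r 39) := by
    have := (twE6 σ).full_of_d_eq_one (j := 1) rfl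
    rwa [show chevE6.sr ((twE6 σ).rep 1) = e6r 39 from Fin.ext (by
      change ((chevE6.sr (e6n 3) : chevE6.Rt) : ℕ) = 39; decide +kernel)] at this
  have h1' := h1.conj_t 1
  rw [show chevE6.wOf F ((twE6 σ).t 1) (e6r 39) = chevE6.ng (e6r 39) from Fin.ext (by
    simp only [Twist.wOf_t_val, twE6_lw]; decide +kernel)] at h1'
  have h2 := h1.conj_t 2
  have h2' := h1'.conj_t 2
  rw [show chevE6.wOf F ((twE6 σ).t 2) (e6r 39) = e6r 44 from Fin.ext (by
    simp only [Twist.wOf_t_val, twE6_lw]; decide +kernel)] at h2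
  rw [show chevE6.wOf F ((twE6 σ).t 2) (chevE6.ng (e6r 39)) = chevE6.ng (e6r 44) from Fin.ext (by
    simp only [Twist.wOf_t_val, twE6_lw]; decide +kernel)] at h2'
  have h3 := h2.conj_t 3
  have h3' := h2'.conj_t 3
  rw [show chevE6.wOf F ((twE6 σ).t 3) (e6r 44) = e6r 60 from Fin.ext (by
    simp only [Twist.wOf_t_val, twE6_lw]; decide +kernel)] at h3
  rw [show chevE6.wOf F ((twE6 σ).t 3) (chevE6.ng (e6r 44)) = chevE6.ng (e6r 60) from Fin.ext (by
    simp only [Twist.wOf_t_val, twE6_lw]; decide +kernel)] at h3'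
  exact LiC.three _ (e6r 39) (e6r 44) (e6r 60) (by decide +kernel) (h1 1 (map_one _))
    (h1' 1 (map_one _)) (h2 1 (map_one _)) (h2' 1 (map_one _)) (h3 1 (map_one _))
    (h3' 1 (map_one _))

end Cfsg.Agent.QF
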