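import Mathlib
import Cfsg.Agent.QF.Defs
import Cfsg.Agent.QF.K0
import Cfsg.Agent.QE.TyP
import Cfsg.Agent.Cl.LinearIso
import Cfsg.Agent.Cl.PSL2Sub
import Cfsg.Agent.Ch.Burnside

/-! # S1849, piece QF-NPb: L2(4), L2(p), L3(2), A6 -/

set_option autoImplicit false
set_option linter.unusedVariables false

namespace Cfsg.Agent.QF

open Cfsg Subgroup Cfsg.Agent.GT Cfsg.Agent.Inv Cfsg.Agent.Cmp Cfsg.Agent.QE
open scoped commutatorElement

universe u

variable {F : Type} [Field F] [Fintype F]

section Aux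

open Cfsg.Agent.Cl.L2
open scoped MatrixGroups

theorem NPb_th (h2 : (2 : F) ≠ 0) (c : PGL(2, F)) (hc : typTh F c * typTh F c = 1)
    (h1 : typTh F c ≠ 1) : Group.IsSolvable (fixedSubgroup (typTh F c)) := by
  have c2 : orderOf c = 2 := by
    refine orderOf_eq_prime ?_ fun e => h1 (by rw [e, map_one])
    apply typ_inj
    rw [sq, map_mul, hc, map_one]
  have := isSolvable_ntor (tau_ne_four_of_two h2 c2)
  let f : fixedSubgroup (typTh F c) →* ntor c :=
    (emb.comp (fixedSubgroup (typTh F c)).subtype).codRestrict _ fun g =>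
      (mem_ntor_iff_commute h2 c2).2 (typ_fix.1 g.2).symm
  exact Group.isSolvable_of_isSolvable_injective (f := f) fun a b e =>
    Subtype.ext (emb_injective (congrArg Subtype.val e))

theorem NPb_two {n : ℕ} (h : Fintype.card F = n) (hn : Odd n) : (2 : F) ≠ 0 := by
  intro e
  have : CharP F 2 := (CharP.charP_iff_prime_eq_zero Nat.prime_two).2 (by exact_mod_cast e)
  obtain ⟨k, -, hk⟩ := FiniteField.card F 2
  rw [← h, hk] at hn
  exact (Nat.not_odd_iff_even.2 ((Nat.even_pow' k.ne_zero).2 even_two)) hn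

theorem NPb_prime (hp : (Fintype.card F).Prime) (h5 : 5 ≤ Fintype.card F) : NP PSL(2, F) := by
  refine np_of_solv fun α h1 h2 => ?_
  obtain ⟨c, rfl⟩ := typ_surj hp α
  exact NPb_th (NPb_two rfl (hp.odd_of_ne_two (by omega))) c h1 h2

theorem NPb_nine (h : Fintype.card F = 9) : NP PSL(2, F) := by
  have h2 : (2 : F) ≠ 0 := NPb_two h (by decide)
  have h9 : Nat.card F = 9 := by rw [Nat.card_eq_fintype_card, h]
  refine np_of_solv fun α a1 a2 => ?_
  obtain ⟨γ, hγ⟩ := exists_pga α
  by_cases hr : γ.right = 1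
  · have e : α = typTh F γ.left := MulEquiv.ext fun g => emb_injective (by
      rw [hγ, typ_emb, eq_inl hr, act_inl]; rfl)
    rw [e] at a1 a2 ⊢
    exact NPb_th h2 _ a1 a2
  · obtain ⟨e⟩ := Cl.psl2_nine_equiv_alt h9
    have c : Nat.card PSL(2, F) = 360 := by
      rw [Nat.card_congr e.toEquiv, nat_card_alternatingGroup, Nat.card_eq_fintype_card,
        Fintype.card_fin]
      rfl
    refine Ch.burnside_isSolvable_of_primes (p := 2) (q := 3) Nat.prime_three fun r hr1 hr2 => ?_
    have d : r ∣ 2 ^ 3 * 3 ^ 2 * 5 :=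
      (hr2.trans (fixedSubgroup α).card_subgroup_dvd_card).trans (by rw [c]; norm_num)
    rcases (Nat.Prime.dvd_mul hr1).1 d with d | d
    · rcases (Nat.Prime.dvd_mul hr1).1 d with d | d
      · exact Or.inl ((Nat.prime_dvd_prime_iff_eq hr1 Nat.prime_two).1 (hr1.dvd_of_dvd_pow d))
      · exact Or.inr ((Nat.prime_dvd_prime_iff_eq hr1 Nat.prime_three).1 (hr1.dvd_of_dvd_pow d))
    exfalso
    obtain rfl : r = 5 := (Nat.prime_dvd_prime_iff_eq hr1 Nat.prime_five).1 d
    have := Fact.mk hr1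
    obtain ⟨g, hg⟩ := exists_prime_orderOf_dvd_card' 5 hr2
    have o : orderOf (emb (g : PSL(2, F))) = 5 := by
      rw [orderOf_injective emb emb_injective, orderOf_coe, hg]
    have n1 : emb (g : PSL(2, F)) ≠ 1 := fun e => by rw [e, orderOf_one] at o; omega
    have h3 : CharP F 3 := by
      obtain ⟨p, hp⟩ := CharP.exists F
      obtain ⟨k, pp, hk⟩ := FiniteField.card F p
      have : p ∣ 3 ^ 2 := by
        rw [show 3 ^ 2 = Fintype.card F from h.symm, hk]; exact dvd_pow_self p k.ne_zero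
      obtain rfl := (Nat.prime_dvd_prime_iff_eq pp Nat.prime_three).1 (pp.dvd_of_dvd_pow this)
      exact hp
    have t4 : tau (emb (g : PSL(2, F))) ≠ 4 := fun e => by
      obtain ⟨x, hx⟩ := exists_fix_of_tau_eq_four e
      have := orderOf_dvd_of_pow_eq_one (pow_char_of_mem_uni 3 (mem_uni.2 ⟨hx, e⟩))
      rw [o] at this
      omega
    let k : Subfield F := RingHom.eqLocusField (γ.right : F →+* F) (RingHom.id F)
    have tk : tau (emb (g : PSL(2, F))) ∈ k := by
      have := tau_act γ (emb (g : PSL(2, F)))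
      rw [← hγ, show α g = g from g.2] at this
      exact this.symm
    have kd : Nat.card k ∣ 3 ^ 2 := by
      rw [show 3 ^ 2 = Nat.card F from h9.symm]
      exact k.toAddSubgroup.card_addSubgroup_dvd_card
    have k1 : 1 < Nat.card k := Finite.one_lt_card
    have k9 : Nat.card k ≠ 9 := fun e => hr (RingEquiv.ext fun x => by
      have : k.toAddSubgroup = ⊤ := AddSubgroup.eq_top_of_card_eq _ (e.trans h9.symm)
      exact (show x ∈ k.toAddSubgroup from this ▸ AddSubgroup.mem_top x))
    have k3 : Nat.card k = 3 := by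
      obtain ⟨i, hi, e⟩ := (Nat.dvd_prime_pow Nat.prime_three).1 kd
      interval_cases i <;> omega
    have := orderOf_dvd_of_tau_mem t4 (tau_ne_zero_of_odd n1 (by rw [o]; decide)) tk
    rw [o, k3] at this
    omega

end Aux

theorem np_l2 (h : Fintype.card F = 4 ∨ (Fintype.card F).Prime ∧ 5 ≤ Fintype.card F) : NP (Matrix.ProjectiveSpecialLinearGroup (Fin 2) F) := by
  rcases h with h | h
  · have := Fact.mk Nat.prime_five
    obtain ⟨e⟩ := Cl.psl2_four_equiv_alt (F := F) (by rw [Nat.card_eq_fintype_card, h])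
    obtain ⟨f⟩ := Cl.psl2_five_equiv_alt (F := ZMod 5) (Nat.card_zmod 5)
    exact (NPb_prime (F := ZMod 5) (by rw [ZMod.card]; exact Nat.prime_five)
      (by rw [ZMod.card])).of_equiv (e.trans f.symm)
  · exact NPb_prime h.1 h.2

theorem np_l32 (h : Fintype.card F = 2) : NP (Matrix.ProjectiveSpecialLinearGroup (Fin 3) F) := by
  have := Fact.mk Nat.prime_seven
  obtain ⟨e⟩ := Cl.psl2_seven_equiv_psl3_two (F := ZMod 7) (K := F) (Nat.card_zmod 7)
    (by rw [Nat.card_eq_fintype_card, h])
  exact (NPb_prime (F := ZMod 7) (by rw [ZMod.card]; exact Nat.prime_seven)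
    (by rw [ZMod.card]; omega)).of_equiv e.symm

theorem np_a6 : NP (alternatingGroup (Fin 6)) := by
  have := Fact.mk Nat.prime_three
  have := Fintype.ofFinite (GaloisField 3 2)
  have c : Nat.card (GaloisField 3 2) = 9 := GaloisField.card 3 2 two_ne_zero
  obtain ⟨e⟩ := Cl.psl2_nine_equiv_alt c
  exact (NPb_nine (F := GaloisField 3 2) (by rw [← Nat.card_eq_fintype_card, c])).of_equiv e.symm

end Cfsg.Agent.QF
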