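import Mathlib
import Cfsg.Agent.QF.Defs
import Cfsg.Agent.QE.Set
import Cfsg.Agent.GT.LBalance
import Cfsg.Agent.S0205

/-! # S1849, piece QF-Set: the configuration -/

set_option autoImplicit false
set_option linter.unusedVariables false
set_option linter.unusedSectionVars false

namespace Cfsg.Agent.QF

open Cfsg Subgroup Cfsg.Agent.GT Cfsg.Agent.Inv Cfsg.Agent.Cmp Cfsg.Agent.QE
open scoped commutatorElement

universe u

variable {G : Type u} [Group G] [Finite G] {T L J D K M S : Subgroup G} {z y : G}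

theorem SetF.comp_conj {w : G} (h : IsComponentOf L (C1 w)) (g : G) :
    IsComponentOf (L ^ᶜ g) (C1 (g * w * g⁻¹)) := by
  rw [C1, centralizer_singleton_conj]
  exact h.map_of_injective (MulAut.conj g).injective

theorem SetF.bad_conj {w n : G} (hw : Bad L w) (hn : n ∈ NN L) : Bad L (n * w * n⁻¹) := by
  refine ⟨(GT.orderOf_conj _ _).trans hw.1, ?_, fun h => hw.2.2 ?_⟩
  · have := conj_mem_CC n hw.2.1
    rwa [map_conj_eq_of_mem_norm hn] at this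
  · have := SetF.comp_conj h n⁻¹
    rwa [map_conj_eq_of_mem_norm (inv_mem hn), show n⁻¹ * (n * w * n⁻¹) * n⁻¹⁻¹ = w by group] at this

theorem Ct.conj (h : Ct T L z) (g : G) : Ct (T ^ᶜ g) (L ^ᶜ g) (g * z * g⁻¹) :=
  ⟨map_conj_top g ▸ h.syl.conj g, (GT.orderOf_conj _ _).trans h.z2, conj_mem_map_conj.2 h.zT,
    by rw [C1, centralizer_singleton_conj]; exact map_mono h.zc, SetF.comp_conj h.comp g⟩

theorem Ct.nrm (g : Gq G) (h : Ct T L z) : C1 z ≤ NN L :=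
  g.nrm T L z h.syl h.z2 h.zT h.zc h.comp

theorem SetF.sylN (g : Gq G) (h : Ct T L z) : Syl T (NN L) :=
  ⟨h.zc.trans (h.nrm g), h.syl.two, fun e => h.syl.idx
    (relIndex_top_right T ▸ e.trans (relIndex_dvd_index_of_le (h.zc.trans (h.nrm g))))⟩

theorem exists_mx (g : Gq G) (h : Ct T L z) {w : G} (hw : Bad L w) : ∃ y, Mx T L z y := by
  obtain ⟨n, hn, h1⟩ := (SetF.sylN g h).exists_conj_elt (Two.of_two hw.1) (CC_le_NN _ hw.2.1)
  obtain ⟨y, hy, hm⟩ := Set.exists_max_image {w | w ∈ T ∧ Bad L w}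
    (fun w => Nat.card (T ⊓ C1 w : Subgroup G)) (Set.toFinite _) ⟨_, h1, SetF.bad_conj hw hn⟩
  exact ⟨y, h, hy.1, hy.2, fun w h1 h2 => hm w ⟨h1, h2⟩⟩

theorem Mx.sylP (g : Gq G) (h : Mx T L z y) : Syl (T ⊓ C1 y) (C1 y ⊓ NN L) := by
  have s := SetF.sylN g h.toCt
  obtain ⟨R, h1, hR⟩ := exists_syl_ge (K := C1 y ⊓ NN L) (h.syl.two.to_inf_left (K := C1 y))
    (le_inf inf_le_right (inf_le_left.trans s.le))
  obtain ⟨n, hn, h2⟩ := s.exists_conj hR.two (hR.le.trans inf_le_right)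
  have yR : y ∈ R := h1 (mem_inf.2 ⟨h.yT, mem_C1.2 (Commute.refl y)⟩)
  have h3 := h.max _ (h2 y yR) (SetF.bad_conj h.bad hn)
  have h4 : R ^ᶜ n ≤ T ⊓ C1 (n * y * n⁻¹) := map_conj_le_iff_forall.2 fun x hx =>
    mem_inf.2 ⟨h2 x hx, mem_C1.2 (comm_conj n (mem_C1.1 (mem_inf.1 (hR.le hx)).1))⟩
  have h5 := card_le_of_le h4
  rw [card_map_conj] at h5
  rw [eq_of_le_of_card_ge h1 (h5.trans h3)]
  exact hR

theorem pump (g : Gl G) {a b : G} (ha : orderOf a = 2) (hb : orderOf b = 2) (hab : Commute a b)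
    (hK : IsComponentOf K (C1 a)) (hKb : K ≤ C1 b) :
    IsComponentOf K (C1 b) ∨ (∃ D, IsComponentOf D (C1 b) ∧ K < D ∧ a ∈ NN D) ∨
      ∃ D, IsComponentOf D (C1 b) ∧ a ∉ NN D ∧ IsDiag a D K := by
  have hp := Nat.prime_two
  have hc : a ∈ C1 b := mem_C1.2 hab
  have hK2 : IsPComponentOf 2 K (C1 b ⊓ centralizer {a}) :=
    (hK.mono (le_inf hKb hK.le) inf_le_right).isPComponentOf hp (by_contra fun h =>
      hK.isQuasisimple.not_isSolvable (S0205.result (Nat.odd_iff.2 (Nat.two_dvd_ne_zero.1 h))))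
  have hKE : K ≤ subgroupLayer (C1 b) := by
    have h1 := pLayerOf_inf_centralizer_le_pLayerOf_two (H := C1 b) (Two.of_two ha).isPGroup
      (zpowers_le.mpr (le_normalizer hc))
    rw [centralizer_zpowers, pLayerOf_eq_subgroupLayer hp (H := C1 b)
      (pPrimeCoreOf_eq_bot_iff.2 (g.e1 b hb))] at h1
    exact hK2.le_pLayerOf.trans h1
  obtain ⟨D, hD, h | ⟨h, h'⟩ | ⟨h, h'⟩⟩ := pump_two_rel ha hc hK2 hKE
  · exact Or.inl (h ▸ hD)
  · refine Or.inr (Or.inl ⟨D, hD, h, by_contra fun hn => ?_⟩)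
    have h1 := (hD.map_conj (le_normalizer hc)).le_centralizer_of_ne hD
      fun e => hn (map_conj_eq_self_iff.1 e)
    refine hK.isQuasisimple.not_le_centralizer fun k hk => centralizer_le h.le (h1 ?_)
    rw [← conj_eq_of_comm (mem_C1.1 (hK.le hk)).symm]
    exact conj_mem_map_conj.2 (h.le hk)
  · exact Or.inr (Or.inr ⟨D, hD, h, h'⟩)

theorem vt_nJ (hL : IsQuasisimple L) (hJ : IsComponentOf J (C1 y)) (hle : L ≤ J) :
    C1 y ⊓ NN L ≤ NN J := fun c hc => by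
  by_contra hn
  have h1 := (hJ.map_conj (le_normalizer (mem_inf.1 hc).1)).le_centralizer_of_ne hJ
    fun e => hn (map_conj_eq_self_iff.1 e)
  refine hL.not_le_centralizer (((map_conj_eq_of_mem_norm (mem_inf.1 hc).2).ge.trans
    (map_mono hle)).trans (h1.trans (centralizer_le hle)))

theorem vt_bad (hJ : IsQuasisimple J) (hlt : L < J) {w : G} (hw : w ∈ CC J) :
    ¬ IsComponentOf L (C1 w) := fun h => by
  have hJw : J ≤ C1 w := fun j hj => mem_C1.2 (comm_of_CC hw hj)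
  rcases hJ.eq_or_le_centralizer (h.subnormalIn.mono hlt.le hJw) with e | e
  · exact hlt.ne e
  · exact h.isQuasisimple.not_le_centralizer (e.trans (centralizer_le hlt.le))

theorem Mx.ti (g : Gq G) (h : Mx T L z y) (hle : L ≤ J) (hn : C1 y ⊓ NN L ≤ NN J)
    (hb : ∀ w ∈ CC J, orderOf w = 2 → ¬ IsComponentOf L (C1 w)) (hlt : ¬ T ≤ C1 y) :
    ∃ t ∈ T, t ∈ NN (T ⊓ C1 y) ∧ ∀ u ∈ T ⊓ C1 y, u ∈ CC J → t * u * t⁻¹ ∈ CC J → u = 1 := by
  have : Fact (Nat.Prime 2) := ⟨Nat.prime_two⟩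
  obtain ⟨P, hP⟩ : ∃ P, P = T ⊓ C1 y := ⟨_, rfl⟩
  have PT : P ≤ T := hP ▸ inf_le_left
  have PJ : P ≤ NN (CC J) := (hP ▸ (h.sylP g).le.trans hn).trans (normalizer_le_normalizer_centralizer J)
  have hlt' : P < T := PT.lt_of_ne fun e => hlt (e ▸ hP ▸ inf_le_right)
  obtain ⟨s, hs, sP⟩ := SetLike.exists_of_lt (Tr.lt_inf_normalizer h.syl.two hlt')
  obtain ⟨n, n1, n2⟩ := (Two.of_mem h.syl.two (mem_inf.1 hs).1).exists_pow_sq_mem sP
  obtain ⟨t, ht⟩ : ∃ t, t = s ^ n := ⟨_, rfl⟩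
  rw [← ht] at n1 n2
  have tT : t ∈ T := ht ▸ pow_mem (mem_inf.1 hs).1 n
  have tN : t ∈ NN P := ht ▸ pow_mem (mem_inf.1 hs).2 n
  rw [← hP]
  refine ⟨t, tT, tN, fun u hu u1 u2 => by_contra fun u0 => ?_⟩
  obtain ⟨V, hV⟩ : ∃ V : Subgroup G, ∀ v, v ∈ V ↔ v ∈ P ∧ v ∈ CC J ∧ t * v * t⁻¹ ∈ CC J :=
    ⟨P ⊓ (CC J ⊓ CC J ^ᶜ t⁻¹), fun v => by rw [mem_inf, mem_inf, mem_map_conj_inv]⟩
  have XT : zpowers t ⊔ P ≤ T := sup_le (zpowers_le.2 tT) PT
  have XV : zpowers t ⊔ P ≤ NN V := by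
    refine sup_le (zpowers_le.2 (mem_normalizer_iff_of_finite.2 fun v hv => ?_))
      fun p hp => mem_normalizer_iff_of_finite.2 fun v hv => ?_
    · obtain ⟨v1, v2, v3⟩ := (hV v).1 hv
      refine (hV _).2 ⟨conj_mem_of_mem_normalizer tN v1, v3, ?_⟩
      rw [show t * (t * v * t⁻¹) * t⁻¹ = t * t * v * (t * t)⁻¹ by group]
      exact conj_mem_of_mem_normalizer (PJ n2) v2
    · obtain ⟨v1, v2, v3⟩ := (hV v).1 hv
      refine (hV _).2 ⟨mul_mem (mul_mem hp v1) (inv_mem hp), conj_mem_of_mem_normalizer (PJ hp) v2, ?_⟩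
      rw [show t * (p * v * p⁻¹) * t⁻¹ = t * p * t⁻¹ * (t * v * t⁻¹) * (t * p * t⁻¹)⁻¹ by group]
      exact conj_mem_of_mem_normalizer (PJ (conj_mem_of_mem_normalizer tN hp)) v3
  obtain ⟨m, hm⟩ := (Two.of_mem h.syl.two (PT hu)).exists_inv u0
  obtain ⟨w, wV, w2, wc⟩ := exists_inv_fixed (h.syl.two.to_le XT) XV
    (pow_mem ((hV u).2 ⟨hu, u1, u2⟩) m) hm
  obtain ⟨w1, w3, -⟩ := (hV w).1 wV
  have h1 := h.max w (PT w1) ⟨w2, centralizer_le hle w3, hb w w3 w2⟩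
  have h2 : zpowers t ⊔ P ≤ T ⊓ C1 w := le_inf XT fun x hx => mem_C1.2 (wc x hx)
  rw [← hP] at h1
  exact n1 ((eq_of_le_of_card_ge (le_sup_right.trans h2) h1).ge (h2 (mem_sup_left (mem_zpowers t))))

theorem oddCyc_of_swap (g : Gl G) {t u : G} (ht : orderOf t = 2) (hD : IsComponentOf D (C1 t))
    (hu : u ∈ C1 t) (un : u ∉ NN D) : QT.OddCyc (D ⧸ center D) := fun p hp h2 => by
  have := Fact.mk hp
  refine QT.prankLE_one_of_surjective _ (QuotientGroup.mk'_surjective _) hp h2 ?_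
  by_contra hn
  have cu := hD.map_conj (le_normalizer hu)
  have hc := cu.le_centralizer_of_ne hD fun e => un (map_conj_eq_self_iff.1 e)
  refine QT.not_dvd_card_of_perfect hp h2 (SetA.rk2 g.qt ht hp h2) ((D ^ᶜ u).subgroupOf (C1 t))
    (D.subgroupOf (C1 t)) cu.2.commutator_eq (fun a ha b hb => Subtype.ext (hc ha b hb))
    (fun e => hn (e.of_mulEquiv (subgroupOfEquivOfLe hD.le))) ?_
  rw [Nat.card_congr (subgroupOfEquivOfLe cu.le).toEquiv, card_map_conj]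
  by_contra hd
  exact hn ((PG.pRankLE_zero_iff.2 hd).mono hp.pos zero_le_one)

theorem mem_NN_of_fix {H Y : Subgroup G} (hJ : IsComponentOf J H) {c : G} (hc : c ∈ H) (hY : Y ≤ J)
    (hn : ¬ Y ≤ CC J) (hcY : c ∈ CC Y) : c ∈ NN J := by
  by_contra hn'
  have h1 := (hJ.map_conj (le_normalizer hc)).le_centralizer_of_ne hJ
    fun e => hn' (map_conj_eq_self_iff.1 e)
  refine hn fun x hx => h1 ?_
  rw [← conj_eq_of_comm (comm_of_CC hcY hx).symm]
  exact conj_mem_map_conj.2 (hY hx)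

theorem le_NN_of_perf (g : Gl G) (hy : orderOf y = 2) (hJ : IsComponentOf J (C1 y)) (hM : ⁅M, M⁆ = M)
    (hle : M ≤ C1 y) : M ≤ NN J := by
  by_contra hn
  obtain ⟨u, hu, un⟩ := SetLike.not_le_iff_exists.1 hn
  have hi := SetA.idx2 g hy hJ hle hu un
  refine hn (hM.ge.trans (commutator_le.2 fun a ha b hb => ?_))
  have k : ∀ a ∈ M, ∀ b ∈ M, a * b ∈ NN J ↔ (a ∈ NN J ↔ b ∈ NN J) := fun a ha b hb =>
    mul_mem_iff_of_index_two hi (a := ⟨a, ha⟩) (b := ⟨b, hb⟩)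
  rw [commutatorElement_def, k _ (mul_mem (mul_mem ha hb) (inv_mem ha)) _ (inv_mem hb),
    k _ (mul_mem ha hb) _ (inv_mem ha), k _ ha _ hb, inv_mem_iff, inv_mem_iff]
  by_cases e1 : a ∈ NN J <;> by_cases e2 : b ∈ NN J <;> simp only [e1, e2, iff_self, iff_false, false_iff, not_true]

end Cfsg.Agent.QF
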