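import Mathlib
import Cfsg.Agent.QF.Defs
import Cfsg.Agent.QF.Set
import Cfsg.Agent.QF.Act
import Cfsg.Agent.QE.X1
import Cfsg.Agent.QE.Set
import Cfsg.Agent.QE.Bar
import Cfsg.Agent.Chev.IndexTwo

/-! # S1849, piece QF-SO: Lemma O (proof in stubs/Cfsg/Agent/QF/PLAN.md) -/

set_option autoImplicit false
set_option linter.unusedVariables false

namespace Cfsg.Agent.QF

open Cfsg Subgroup Cfsg.Agent.GT Cfsg.Agent.Inv Cfsg.Agent.Cmp Cfsg.Agent.QE
open scoped commutatorElement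

universe u

variable {G : Type u} [Group G] [Finite G] {T L J D K M S : Subgroup G} {z y : G}

omit [Finite G] in
theorem SO.zen (hJ : IsQuasisimple J) : center (J ⧸ center J) = ⊥ := by
  have := hJ.isSimpleGroup_quotient
  refine (IsSimpleGroup.eq_bot_or_eq_top_of_normal _ inferInstance).resolve_right fun h => ?_
  refine hJ.not_isMulCommutative_quotient ⟨⟨fun a b => ?_⟩⟩
  exact mem_center_iff.1 (h ▸ mem_top b) a

theorem SO.conj_inj {X : Type*} [Group X] (hZ : center X = ⊥) :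
    Function.Injective (MulAut.conj : X →* MulAut X) := by
  refine (injective_iff_map_eq_one _).2 fun a ha => mem_bot.1 (hZ ▸ mem_center_iff.2 fun g => ?_)
  have : a * g * a⁻¹ = g := by
    have := congrArg (fun f : MulAut X => f g) ha
    simpa using this
  exact (comm_of_conj_eq this).symm.eq

omit [Finite G] in
theorem SO.exists_phi (hJ : IsQuasisimple J) (ho : Nat.card (Out (J ⧸ center J)) ∣ 2)
    (hM : IsQuasisimple M) (hn : M ≤ NN J) :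
    ∃ φ : M →* J ⧸ center J, ∀ m : M, MulAut.conj (φ m) = act J ⟨m, hn m.2⟩ := by
  let ψ : M →* MulAut (J ⧸ center J) := (act J).comp (inclusion hn)
  have hc : IsCyclic (Out (J ⧸ center J)) := isCyclic_of_card_dvd_prime ho
  have hin : ∀ m, ψ m ∈ Inn (J ⧸ center J) := fun m => by
    have h1 : commutator M ≤ (Inn (J ⧸ center J)).comap ψ := by
      refine commutator_le.2 fun a _ b _ => ?_
      rw [mem_comap, ← QuotientGroup.eq_one_iff]
      change QuotientGroup.mk' _ (ψ ⁅a, b⁆) = 1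
      rw [map_commutatorElement, map_commutatorElement, commutatorElement_eq_one_iff_mul_comm]
      exact IsCyclic.isMulCommutative.is_comm.comm _ _
    exact h1 (hM.commutator_eq_top ▸ mem_top m)
  let e := MonoidHom.ofInjective (SO.conj_inj (SO.zen hJ))
  refine ⟨e.symm.toMonoidHom.comp (ψ.codRestrict _ hin), fun m => ?_⟩
  exact congrArg Subtype.val (e.apply_symm_apply ⟨ψ m, hin m⟩)

theorem SO.fix_bar {n : NN J} {x : J ⧸ center J} (hx : x ∈ bar J (C1 (n : G))) : act J n x = x := by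
  obtain ⟨j, hj, rfl⟩ := mem_bar.1 hx
  refine act_fix.2 ?_
  rw [(mem_C1.1 hj).symm.commutator_eq]
  exact one_mem _

omit [Finite G] in
theorem SO.bar_mono {A B : Subgroup G} (h : A ≤ B) : bar J A ≤ bar J B := fun x hx => by
  obtain ⟨j, hj, e⟩ := mem_bar.1 hx
  exact mem_bar.2 ⟨j, h hj, e⟩

theorem SO.fix_NN (n : NN J) : fixedSubgroup (act J n) ≤ NN (bar J (C1 (n : G))) := by
  refine bar_le_NN fun x hx w hw => ?_
  obtain ⟨a, rfl⟩ := QuotientGroup.mk_surjective x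
  obtain ⟨j, hj, rfl⟩ := mem_bar.1 hw
  refine mem_bar.2 ⟨a * j * a⁻¹, ?_, rfl⟩
  have h1 : ⁅(n : G), (a : G)⁆ ∈ CC J := act_fix.1 hx
  have h2 : Commute (j : G) n := mem_C1.1 hj
  have h3 := (comm_of_CC h1 (a * j * a⁻¹).2).symm
  refine mem_C1.2 (comm_of_conj_eq ?_).symm
  change (n : G) * (a * j * (a : G)⁻¹) * (n : G)⁻¹ = a * j * (a : G)⁻¹
  calc (n : G) * (a * j * (a : G)⁻¹) * (n : G)⁻¹
      = ((n : G) * a * (n : G)⁻¹) * ((n : G) * j * (n : G)⁻¹) * ((n : G) * a * (n : G)⁻¹)⁻¹ := by group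
    _ = ⁅(n : G), (a : G)⁆ * (a * j * (a : G)⁻¹) * ⁅(n : G), (a : G)⁆⁻¹ := by
      rw [conj_eq_of_comm h2.symm, commutatorElement_def]; group
    _ = a * j * (a : G)⁻¹ := conj_eq_of_comm h3

theorem SO.not_le {p n : ℕ} (sp : Sp0 (J ⧸ center J) p n) (hS : Syl S J) : ¬ S ≤ CC J := fun h => by
  obtain ⟨U, hU⟩ := syl_bar hS
  obtain ⟨v, hv, h2, -⟩ := sp.cv U
  have hv' : v ∈ bar J S := hU ▸ hv
  obtain ⟨j, hj, rfl⟩ := mem_bar.1 hv'
  rw [mk_eq_one.2 (h hj), orderOf_one] at h2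
  exact absurd h2 (by decide)

theorem SO.bar_ne {p n : ℕ} (sp : Sp0 (J ⧸ center J) p n) (hS : Syl S J) (hM : IsQuasisimple M)
    (hn : S ≤ NN M) (hs : ¬ 2 ^ n ∣ Nat.card (MulAut (M ⧸ center M))) : bar J (S ⊓ CC M) ≠ ⊥ := by
  intro h
  obtain ⟨U, hU⟩ := syl_bar hS
  have h1 : 2 ^ n ∣ Nat.card (bar J S) := hU ▸ U.pow_dvd_card_of_pow_dvd_card sp.big
  have h2 : S ⊓ CC M ≤ S ⊓ CC J := fun s hs => mem_inf.2 ⟨hs.1, by
    have : (QuotientGroup.mk (⟨s, hS.le hs.1⟩ : J) : J ⧸ center J) ∈ bar J (S ⊓ CC M) :=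
      mem_bar.2 ⟨_, hs, rfl⟩
    rw [h] at this
    exact mk_eq_one.1 (mem_bot.1 this)⟩
  let χ : S →* MulAut (M ⧸ center M) := (act M).comp (inclusion hn)
  have h3 : χ.ker = (S ⊓ CC M).subgroupOf S := by
    ext s
    rw [MonoidHom.mem_ker, mem_subgroupOf, mem_inf]
    exact (act_eq_one hM.commutator_eq (n := inclusion hn s)).trans ⟨fun h => ⟨s.2, h⟩, fun h => h.2⟩
  have h4 : Nat.card S = Nat.card χ.range * Nat.card (S ⊓ CC M : Subgroup G) := by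
    rw [← χ.ker.card_mul_index, index_ker, mul_comm, h3,
      Nat.card_congr (subgroupOfEquivOfLe inf_le_left).toEquiv]
  have h5 := card_bar hS.le
  have h6 : Nat.card (bar J S) * Nat.card (S ⊓ CC J : Subgroup G) ∣
      Nat.card χ.range * Nat.card (S ⊓ CC J : Subgroup G) := by
    rw [← h5, h4]
    exact Nat.mul_dvd_mul_left _ (card_dvd_of_le h2)
  exact hs (h1.trans ((Nat.dvd_of_mul_dvd_mul_right Nat.card_pos h6).trans (card_subgroup_dvd_card _)))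

theorem so (g : Gl G) {p n : ℕ} (hy : orderOf y = 2) (hJ : IsComponentOf J (C1 y))
    (sp : Sp0 (J ⧸ center J) p n) (hz : z * z = 1) (hzy : z ∈ C1 y) (hS : Syl S J) (hc : S ≤ C1 z)
    (hM : IsQuasisimple M) (hMy : M ≤ C1 y) (hMz : M ≤ C1 z) (hn : J ⊓ C1 z ≤ NN M)
    (hp : p ∣ Nat.card M) (hs : ¬ 2 ^ n ∣ Nat.card (MulAut (M ⧸ center M))) : False := by
  have hq := hJ.isQuasisimple
  have hZ := SO.zen hq
  have inj := SO.conj_inj hZ
  have h2 := g.zen2 hy hJ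
  have hMJ : M ≤ NN J := le_NN_of_perf g hy hJ hM.commutator_eq hMy
  have hzJ : z ∈ NN J := mem_NN_of_fix hJ hzy hS.le (SO.not_le sp hS)
    (mem_CC.2 fun k hk => mem_C1.1 (hc hk))
  obtain ⟨φ, hφ⟩ := SO.exists_phi hq sp.out hM hMJ
  have key : ∀ (a : NN J) (m m' : M), (a : G) * m * (a : G)⁻¹ = m' → act J a (φ m) = φ m' := by
    intro a m m' e
    refine inj ?_
    rw [hφ, show (⟨m', hMJ m'.2⟩ : NN J) = a * ⟨m, hMJ m.2⟩ * a⁻¹ from Subtype.ext e.symm, map_mul,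
      map_mul, map_inv, ← hφ]
    ext x
    simp
  by_cases h0 : φ.range = ⊥
  · have hMC : M ≤ CC J := fun m hm => by
      refine (act_eq_one hq.commutator_eq (n := ⟨m, hMJ hm⟩)).1 ?_
      have : φ ⟨m, hm⟩ = 1 := mem_bot.1 (h0 ▸ ⟨_, rfl⟩)
      rw [← hφ ⟨m, hm⟩, this, map_one]
    have := Fact.mk sp.pr
    obtain ⟨c, hc⟩ := exists_prime_orderOf_dvd_card' p hp
    have hc' : orderOf (c : G) = p := (orderOf_coe c).trans hc
    refine rank_three g hy sp.pr sp.p2 hJ.le (rank_lift h2 sp.pr sp.p2 sp.pp) hc' (hMy c.2) (hMC c.2)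
      fun hcJ => ?_
    obtain ⟨k, hk⟩ := h2 ⟨⟨c, hcJ⟩, Act_cen.2 (hMC c.2)⟩
    have hk' : (c : G) ^ 2 ^ k = 1 := congrArg (fun x : center J => ((x : J) : G)) hk
    have := orderOf_dvd_of_pow_eq_one hk'
    rw [hc'] at this
    exact sp.p2 ((Nat.prime_dvd_prime_iff_eq sp.pr Nat.prime_two).1 (sp.pr.dvd_of_dvd_pow this))
  have : Nontrivial φ.range := (nontrivial_iff_ne_bot _).2 h0
  have hB : IsQuasisimple φ.range := hM.of_surjective φ.rangeRestrict_surjective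
  set σ := act J ⟨z, hzJ⟩ with hσ
  have hfix : ∀ x ∈ φ.range, σ x = x := by
    rintro _ ⟨m, rfl⟩
    exact key _ m m (conj_eq_of_comm (mem_C1.1 (hMz m.2)).symm)
  obtain ⟨E, -, hE, -, e⟩ := exists_perf (n := ⟨z, hzJ⟩) hB.commutator_eq hfix
  have h3 : φ.range ≤ bar J (C1 z) := e ▸ SO.bar_mono hE
  have h4 : bar J (C1 z) ≤ NN φ.range := by
    refine bar_le_NN fun x hx w hw => ?_
    obtain ⟨j, hj, rfl⟩ := mem_bar.1 hx
    obtain ⟨m, rfl⟩ := hw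
    have hjM : (j : G) ∈ NN M := hn (mem_inf.2 ⟨j.2, hj⟩)
    refine ⟨⟨j * m * (j : G)⁻¹, conj_mem_of_mem_normalizer hjM m.2⟩, ?_⟩
    rw [← key ⟨j, le_normalizer j.2⟩ m _ rfl, act_of_mem, MulAut.conj_apply]
  have hcomp : IsComponentOf φ.range (fixedSubgroup σ) :=
    isComponentOf_iff.2 ⟨(SubnormalIn.of_le_normalizer h3 h4).trans
      (SubnormalIn.of_le_normalizer (fun x hx => SO.fix_bar (n := ⟨z, hzJ⟩) hx) (SO.fix_NN ⟨z, hzJ⟩)), hB⟩
  have hSM : S ≤ NN M := fun s hs => hn (mem_inf.2 ⟨hS.le hs, hc hs⟩)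
  obtain ⟨U, hU⟩ := syl_bar hS
  obtain ⟨v, hv, hv2, hch, hvc⟩ := sp.cv U
  have hW : bar J (S ⊓ CC M) ≤ U := hU ▸ SO.bar_mono inf_le_left
  obtain ⟨w, hw, hw2⟩ := exists_inv_of_ne_bot (U.isPGroup'.to_le hW) (SO.bar_ne sp hS hM hSM hs)
  have hUW : (U : Subgroup _) ≤ NN (bar J (S ⊓ CC M)) := by
    rw [hU]
    refine bar_le_NN fun x hx w hw => ?_
    obtain ⟨s, hs, rfl⟩ := mem_bar.1 hx
    obtain ⟨t, ht, rfl⟩ := mem_bar.1 hw
    refine mem_bar.2 ⟨s * t * s⁻¹, mem_inf.2 ⟨mul_mem (mul_mem hs ht.1) (inv_mem hs), ?_⟩, rfl⟩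
    have := conj_mem_CC (s : G) ht.2
    rwa [map_conj_eq_of_mem_norm (hSM hs)] at this
  obtain ⟨w0, hw0, hw02, hw0c⟩ := exists_inv_fixed U.isPGroup' hUW hw hw2
  have hw0v : w0 = v := (hvc w0 (mem_CC.2 hw0c)).resolve_left fun h => by
    rw [h, orderOf_one] at hw02
    exact absurd hw02 (by decide)
  subst hw0v
  obtain ⟨s, hs, rfl⟩ := mem_bar.1 hw0
  refine x1 hZ (σ := σ) ?_ (SO.fix_bar (n := ⟨z, hzJ⟩) (mem_bar.2 ⟨s, hc hs.1, rfl⟩)) hch hcomp ?_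
  · rw [hσ, ← map_mul, show (⟨z, hzJ⟩ * ⟨z, hzJ⟩ : NN J) = 1 from Subtype.ext hz, map_one]
  · rintro _ ⟨m, rfl⟩
    have := key ⟨s, le_normalizer s.2⟩ m m (conj_eq_of_comm (comm_of_CC hs.2 m.2).symm)
    rw [act_of_mem, MulAut.conj_apply] at this
    exact mem_C1.2 (comm_of_conj_eq this).symm

theorem Sc.fixv (g : Gl G) (h : Sc T L J z y) {p n : ℕ} (sp : Sp0 (J ⧸ center J) p n) :
    ∃ (hn : z ∈ NN J) (U : Sylow 2 (J ⧸ center J)) (v : J ⧸ center J), (U : Subgroup _) = bar J T ∧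
      v ∈ CC (U : Subgroup _) ∧ orderOf v = 2 ∧ ∀ x ∈ C1 v, act J ⟨z, hn⟩ x = x := by
  have hn : z ∈ NN J := mem_NN_of_fix h.cJ (mem_C1.2 (mem_C1.1 (h.zc h.yT)).symm) inf_le_right
    (SO.not_le sp h.sJ) (mem_CC.2 fun k hk => mem_C1.1 (h.zc hk.1))
  obtain ⟨U, hU⟩ := syl_bar h.sJ
  have hU' : (U : Subgroup _) = bar J T := by
    rw [hU]
    refine le_antisymm (SO.bar_mono inf_le_left) fun x hx => ?_
    obtain ⟨j, hj, e⟩ := mem_bar.1 hx
    exact mem_bar.2 ⟨j, mem_inf.2 ⟨hj, j.2⟩, e⟩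
  obtain ⟨v, hv, hv2, hch, hvc⟩ := sp.cv U
  obtain ⟨w0, hw0, hw02, hw0c⟩ := exists_inv_fixed U.isPGroup' le_normalizer hv hv2
  have hw0v : w0 = v := (hvc w0 (mem_CC.2 hw0c)).resolve_left fun h => by
    rw [h, orderOf_one] at hw02
    exact absurd hw02 (by decide)
  subst hw0v
  have hfix : ∀ u ∈ (U : Subgroup _), act J ⟨z, hn⟩ u = u := fun u hu =>
    SO.fix_bar (n := ⟨z, hn⟩) (SO.bar_mono h.zc (hU' ▸ hu))
  refine ⟨hn, U, w0, hU', mem_CC.2 hw0c, hv2, fun x hx => ?_⟩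
  obtain ⟨c, hc, e⟩ := Chev.exists_conj_of_fix_sylow hch (U := U) (fun u hu => mem_C1.2 (hw0c u hu))
    (σ := act J ⟨z, hn⟩) (fun a ha => by
      have := (mem_C1.1 ha).map (act J ⟨z, hn⟩)
      rw [hfix w0 hw0] at this
      exact mem_C1.2 this) hfix
  rw [e x hx]
  have hcc : c ∈ CC (U : Subgroup _) := mem_CC.2 fun u hu =>
    (comm_of_conj_eq ((e u (mem_C1.2 (hw0c u hu))).symm.trans (hfix u hu))).symm
  rcases hvc c hcc with rfl | rfl
  · simp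
  · exact conj_eq_of_comm (mem_C1.1 hx).symm

end Cfsg.Agent.QF
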