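import Mathlib
import Cfsg.Agent.QF.Defs
import Cfsg.Agent.QF.Set
import Cfsg.Agent.QF.Act
import Cfsg.Agent.QF.SO

/-! # S1849, piece QF-SD: the configuration for HS and Ru (proof in stubs/Cfsg/Agent/QF/PLAN.md) -/

set_option autoImplicit false
set_option linter.unusedVariables false

namespace Cfsg.Agent.QF

open Cfsg Subgroup Cfsg.Agent.GT Cfsg.Agent.Inv Cfsg.Agent.Cmp Cfsg.Agent.QE
open scoped commutatorElement

universe u

variable {G : Type u} [Group G] [Finite G] {T L J D K M S : Subgroup G} {z y : G}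

theorem SD_syl (h : Syl T ⊤) (hn : T ≤ NN K) : Syl (T ⊓ K) K :=
  Syl.inf ⟨hn, h.two, fun d => h.idx (by
    rw [relIndex_top_right]; exact d.trans (relIndex_dvd_index_of_le hn))⟩ le_normalizer le_rfl

omit [Finite G] in
theorem SD_cc {n x : G} (hn : n ∈ NN K) (hx : x ∈ CC K) : n * x * n⁻¹ ∈ CC K := by
  have := conj_mem_CC n hx
  rwa [map_conj_eq_of_mem_norm hn] at this

theorem Mx.sd (g : Gq G) (h : Mx T L z y) (hJ : IsComponentOf J (C1 y)) (hlt : L < J) {p n : ℕ}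
    (sp : Sp0 (J ⧸ center J) p n) (hp : p ∣ Nat.card L)
    (hs : ¬ 2 ^ n ∣ Nat.card (MulAut (L ⧸ center L))) (hZ : L ⊓ CC L ≤ CC J) :
    (∃ a : G, Sc (T ^ᶜ a) (L ^ᶜ a) J (a * z * a⁻¹) y) ∧ center L = ⊥ ∧
      ∀ k : ℕ, (∀ B : Subgroup (MulAut (J ⧸ center J)), IsPGroup 2 B →
        (∀ β ∈ B, ∀ x ∈ bar J L, β x = x) → Nat.card B ≤ k) →
          ∀ W ≤ C1 y ⊓ CC J, IsPGroup 2 W → Nat.card W ≤ k := by
  have qL := h.comp.isQuasisimple
  have qJ := hJ.isQuasisimple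
  have y2 := h.bad.1
  have Ly : L ≤ C1 y := hlt.le.trans hJ.le
  have nJ := vt_nJ qL hJ hlt.le
  have zL := h.toCt.nrm g
  have TL : T ≤ NN L := h.zc.trans zL
  have JL : CC J ≤ CC L := centralizer_le hlt.le
  have nT : ¬ T ≤ C1 y := fun k =>
    so g.gl y2 hJ sp (by rw [← pow_two, ← h.z2, pow_orderOf_eq_one]) (k h.zT)
      (SD_syl h.syl ((le_inf k TL).trans nJ)) (inf_le_left.trans h.zc) qL Ly h.comp.le (inf_le_right.trans zL) hp hs
  obtain ⟨t, tT, tP, ht⟩ := h.ti g hlt.le nJ (fun w hw _ => vt_bad qJ hlt hw) nT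
  have zen : center L = ⊥ := eq_bot_iff.2 fun x hx => by
    have m : (x : G) ∈ L ⊓ CC L := ⟨x.2, Act_cen.1 hx⟩
    exact mem_bot.2 (Subtype.ext (ht x ⟨(zen_le_syl (g.gl.zen2 h.z2 h.comp) (SD_syl h.syl TL) m).1, Ly x.2⟩ (hZ m)
      (hZ ⟨conj_mem_of_mem_normalizer (TL tT) m.1, SD_cc (TL tT) m.2⟩)))
  have PJ : T ⊓ C1 y ≤ NN J := (le_inf inf_le_right (inf_le_left.trans TL)).trans nJ
  refine ⟨?_, zen, fun k hk W hW pW => ?_⟩
  · obtain ⟨R, PR, sR⟩ := exists_syl_ge (K := C1 y ⊓ NN J) h.syl.two.to_inf_left (le_inf inf_le_right PJ)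
    obtain ⟨a, -, ha⟩ := h.syl.exists_conj sR.two le_top
    have RT : R ≤ T ^ᶜ a⁻¹ := fun r hr => mem_map_conj_inv.2 (ha r hr)
    have c := h.toCt.conj a⁻¹
    have s1 := sR.inf (N := J) (le_inf hJ.le le_normalizer) inf_le_right
    refine ⟨a⁻¹, c, y2, RT (PR ⟨h.yT, mem_C1.2 (Commute.refl y)⟩), hJ, ?_, eq_bot_iff.2 fun x hx => ?_⟩
    · rw [le_antisymm (s1.le_of_le c.syl.two.to_inf_left (inf_le_inf_right J RT) inf_le_right)
        (inf_le_inf_right J RT)]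
      exact s1
    · obtain ⟨x, rfl⟩ := (conjEquiv L a⁻¹).surjective x
      have : x ∈ center L := mem_center_iff.2 fun w => (conjEquiv L a⁻¹).injective (by
        rw [map_mul, map_mul, mem_center_iff.1 hx])
      rw [zen, mem_bot] at this
      rw [this, map_one]
      exact one_mem _
  have s := (h.sylP g).inf (N := C1 y ⊓ CC J) (inf_le_inf_left _ (JL.trans (CC_le_NN L))) fun a ha =>
    mem_normalizer_iff_of_finite.2 fun x hx => ⟨(C1 y).mul_mem ((C1 y).mul_mem ha.1 hx.1) ((C1 y).inv_mem ha.1), SD_cc (nJ ha) hx.2⟩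
  refine (s.card_le pW hW).trans (le_trans ?_ (hk (((T ⊓ C1 y ⊓ CC L).subgroupOf (NN J)).map (act J))
    ((h.syl.two.to_inf_left.to_inf_left.comap_subtype).map _) ?_))
  · have m : ∀ u : ↥(T ⊓ C1 y ⊓ (C1 y ⊓ CC J)), t * u * t⁻¹ ∈ T ⊓ C1 y ⊓ CC L := fun u =>
      ⟨conj_mem_of_mem_normalizer tP u.2.1, SD_cc (TL tT) (JL u.2.2.2)⟩
    refine Nat.card_le_card_of_injective (fun u => ⟨act J ⟨_, PJ (m u).1⟩, mem_map_of_mem _ (m u)⟩) fun a b e => ?_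
    have e1 : act J ⟨_, PJ (m a).1⟩ = act J ⟨_, PJ (m b).1⟩ := congrArg Subtype.val e
    rw [← mul_inv_eq_one, ← map_inv, ← map_mul, act_eq_one qJ.commutator_eq] at e1
    refine Subtype.ext (mul_inv_eq_one.1 (ht _ (mul_mem a.2.1 (inv_mem b.2.1))
      (mul_mem a.2.2.2 (inv_mem b.2.2.2)) ?_))
    rwa [show t * ((a : G) * (b : G)⁻¹) * t⁻¹ = t * a * t⁻¹ * (t * b * t⁻¹)⁻¹ by group]
  · rintro _ ⟨c, hc, rfl⟩ x hx
    obtain ⟨j, hj, rfl⟩ := mem_bar.1 hx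
    rw [act_fix, show ⁅(c : G), (j : G)⁆ = 1 from commutatorElement_eq_one_iff_commute.2 (comm_of_CC hc.2 hj).symm]
    exact one_mem _

end Cfsg.Agent.QF
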