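import Mathlib
import Cfsg.Agent.QF.Defs
import Cfsg.Agent.QF.TitsA
import Cfsg.Agent.NG.TitSyl
import Cfsg.Agent.Chev.TitsPk

/-! # S1849, piece QF-Tits: involutory automorphisms of the Tits group (proof in stubs/Cfsg/Agent/QF/PLAN.md) -/

set_option autoImplicit false
set_option linter.unusedVariables false
set_option maxRecDepth 100000

namespace Cfsg.Agent.QF

open Cfsg Subgroup Cfsg.Agent.GT Cfsg.Agent.Inv Cfsg.Agent.Cmp Cfsg.Agent.QE
open scoped commutatorElement Pointwise

universe u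

section
open Cfsg.Agent.Spor Cfsg.Agent.Rec Cfsg.Agent.NG.TP Cfsg.Agent.Chev Cfsg.Agent.Chev.F4T

/-- All automorphisms lie in `A`. -/
theorem Tits_abs {K : Type} [Group K] [Finite K] {z a g gi f fi x b m : K} (tp : TwoPk K)
    (hK : Nat.card K = 2 ^ 11 * 3 ^ 3 * 5 ^ 2 * 13) (hs : Sat relM [z, a, g, gi, f, fi, x, b, m])
    (hN : 10240 ≤ Nat.card (clos [z, a, g, gi, f, fi, x, b])) (hS : Nat.card (clos [g, f * b * fi]) = 2 ^ 11)
    (P : ParSys 2 K) {i j : P.I} (hall : ∀ k, k = i ∨ k = j) (h0 : P.P ∅ ≤ P.U)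
    {A : Subgroup (MulAut K)} (hI : ∀ k, MulAut.conj k ∈ A)
    {η : MulAut K} (hη : η ∈ A) (ηz : η z = z) (ηf : η f = f) (ηg : η g = g) (ηb : η b = x * b)
    (σ : MulAut K) : σ ∈ A := by
  obtain ⟨h, rfl, rfl⟩ := Tits_facts ((sat_append.1 hs).1.take (m := 8) (by decide +kernel)) hN
  have hm := (sat_append.1 hs).2
  simp only [exM, sat_cons, evalW_cons, evalW_nil, nth_succ, nth_zero, mul_one] at hm
  obtain ⟨m1, m2, -, m4, -⟩ := hm
  have mi : m⁻¹ = m := inv_eq_of_mul_eq_one_right m1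
  have xx := (sat_append.1 (sat_append.1 hs).1).2 [6, 6] (by simp [exC])
  simp only [evalW_cons, evalW_nil, nth_succ, nth_zero, mul_one] at xx
  have mz : m * z * m⁻¹ = x := by
    rw [mi, ← inv_eq_of_mul_eq_one_right xx, eq_inv_iff_mul_eq_one, mul_assoc, mul_assoc, m4]
  have mg : m * g * m⁻¹ = f * f * b * (f * f)⁻¹ * (f * b * f⁻¹) := by
    have bi : b⁻¹ = b := inv_eq_of_mul_eq_one_right h.bb
    rw [mi, ← mul_inv_eq_one]
    simpa only [mul_inv_rev, inv_inv, bi, mul_assoc, inv_mul_cancel_left] using m2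
  have hc : Nat.card (clos [g, f * b * f⁻¹]) = 2 ^ (Nat.card K).factorization 2 := by
    rw [hS, hK, show 2 ^ 11 * 3 ^ 3 * 5 ^ 2 * 13 = 2 ^ 11 * 8775 by norm_num,
      Nat.factorization_eq_of_coprime_left (by norm_num) (by simp), Nat.prime_two.factorization_pow]
    simp
  set S : Sylow 2 K := Sylow.ofCard _ hc
  have eS : (S : Subgroup K) = clos [g, f * b * f⁻¹] := rfl
  have g1 : g ∈ (S : Subgroup K) := mem_clos (by simp)
  have g2 : f * b * f⁻¹ ∈ (S : Subgroup K) := mem_clos (by simp)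
  have mf : f ∈ clos [g, f, b] := mem_clos (by simp)
  have hle : (S : Subgroup K) ≤ clos [g, f, b] := clos_le.2 (by
    simp only [List.forall_mem_cons, List.not_mem_nil, false_imp_iff, implies_true, and_true]
    exact ⟨mem_clos (by simp), mul_mem (mul_mem mf (mem_clos (by simp))) (inv_mem mf)⟩)
  have hC : ∀ t, t * z = z * t → t ∈ clos [g, f, b] := fun t ht => by
    obtain ⟨k, hk⟩ := P.exists_comap_U S
    refine Tits_max (P.comap (MulAut.conj k)) hall (fun y hy => h0 hy) (hk ▸ hle) (fun e => ?_)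
      (fun u hu => mem_centralizer_singleton_iff.2 (h.cz u hu)) (fun e => h.xf ?_) (mem_centralizer_singleton_iff.2 ht)
    · have k := card_le_of_le e
      rw [hk, eS, hS, h.card] at k
      omega
    · have k : ∀ u : K, u * z = z * u := fun u => mem_centralizer_singleton_iff.1 (e.ge (mem_top u))
      rw [← mz, k m, mul_inv_cancel_right, k f]
  have hfix : ∀ σ : MulAut K, σ g = g → σ (f * b * f⁻¹) = f * b * f⁻¹ → σ ∈ A := fun σ e1 e2 => by
    rcases tp.exists_eq_conj (σ := σ) S (fun u hu => (clos_le (K := σ.toMonoidHom.eqLocus (MonoidHom.id K))).2 (by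
      simp only [List.forall_mem_cons, List.not_mem_nil, false_imp_iff, implies_true, and_true]
      exact ⟨e1, e2⟩) hu) with ⟨k, rfl⟩ | ⟨⟨φ⟩⟩
    · exact hI k
    · have := Nat.card_congr φ.toEquiv
      rw [hK, Nat.card_eq_fintype_card] at this
      have h2 := two_mul_card_alternatingGroup (α := Fin 6)
      rw [← this, Fintype.card_perm] at h2
      simp [Nat.factorial] at h2
  obtain ⟨k, hk⟩ := MulAction.exists_smul_eq K (σ • S) S
  refine (mul_mem_cancel_left (hI k)).1 (h.mem hC mz mg hI hfix hη ηz ηf ηg ηb _ ?_)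
  have hτ : (MulAut.conj k * σ) • S = S := by rw [mul_smul]; exact hk
  generalize MulAut.conj k * σ = τ at hτ
  have c : ∀ u ∈ (S : Subgroup K), τ z * u = u * τ z := fun u hu => by
    rw [← hτ] at hu
    obtain ⟨v, hv, rfl⟩ := hu
    exact ((map_mul τ _ _).symm.trans (congrArg τ (h.cz v (hle hv)).symm)).trans (map_mul τ _ _)
  have zS : z ∈ (S : Subgroup K) := by
    have z2 := (sat_append.1 (sat_append.1 hs).1).1 [0, 0] (by simp [relN])
    simp only [evalW_cons, evalW_nil, nth_zero, mul_one] at z2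
    refine S.is_maximal' (Q := zpowers z ⊔ S) (IsPGroup.to_sup_of_normal_left' ?_ S.2 ?_) le_sup_right ▸
      mem_sup_left (mem_zpowers z)
    · exact (IsPGroup.of_card (n := 1) (by rw [Nat.card_zpowers, orderOf_eq_prime (p := 2) (by rw [pow_two, z2]) h.z1]; rfl))
    · exact fun u hu => centralizer_le_normalizer _ (by
        rintro _ ⟨n, rfl⟩
        exact ((show Commute z u from (h.cz u (hle hu)).symm).zpow_left n).eq)
  have tS : τ z ∈ (S : Subgroup K) := by
    rw [← hτ]
    exact ⟨z, zS, rfl⟩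
  exact (h.zS _ (hle tS) (c g g1) (c _ g2)).resolve_left fun e => h.z1 (by simpa using e)

/-- The letters in the Tits group. -/
noncomputable def Tits_E (i : ℕ) : commutator T2.Fix := ⟨nth 1 eT i, clos_eT ▸ nth_mem_clos eT i⟩

theorem Tits_map : [Tits_E 0, Tits_E 1, Tits_E 2, Tits_E 3, Tits_E 4, Tits_E 5, Tits_E 6, Tits_E 7, Tits_E 8].map
    (commutator T2.Fix).subtype = eT := rfl

theorem Tits_sat {G : Type} [Group G] {H : Subgroup G} {l : List H} {ws : List (List ℕ)}
    (h : Sat ws (l.map H.subtype)) : Sat ws l := fun w hw => H.subtype_injective (by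
  rw [map_evalW, map_one, ← h w hw]
  exact congrArg (evalW · w) (funext fun i => (nth_map _ _ i).symm))

theorem Tits_card {G : Type} [Group G] {H : Subgroup G} (l : List H) :
    Nat.card (clos l) = Nat.card (clos (l.map H.subtype)) := by
  rw [← map_clos, card_map_of_injective H.subtype_injective]

theorem Tits_eta {i : ℕ} {w : List ℕ}
    (h : bw ([1] ++ (fw.getD 2 []).flatMap MX.titsW ++ (fw.getD i []).flatMap MX.titsW) =
      mulB (mev w) (bw ([1] ++ (fw.getD 2 []).flatMap MX.titsW))) :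
    MulAut.conjNormal (T2.yF * nth 1 eT 2) (Tits_E i) = evalW Tits_E w := Subtype.ext (by
  have e : ((evalW Tits_E w : commutator T2.Fix) : T2.Fix) = evalW (nth 1 eT) w :=
    map_evalW (commutator T2.Fix).subtype Tits_E w
  have k : T2.yF * nth 1 eT 2 = T2.hF ([1] ++ (fw.getD 2 []).flatMap MX.titsW) := by
    rw [Tw.hF_append, Tw.hF_y, nth_eT]
  rw [MulAut.conjNormal_apply, e, mul_inv_eq_iff_eq_mul, k]
  change _ * nth 1 eT i = _
  rw [nth_eT, ← Tw.hF_append]
  refine Subtype.ext (ρ_inj (T2.mem_Fix.1 (Subtype.prop _)).1 (T2.mem_Fix.1 (Subtype.prop _)).1 ?_)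
  rw [Subgroup.coe_mul, ρ_mul (T2.mem_Fix.1 (Subtype.prop _)).1 (T2.mem_Fix.1 (Subtype.prop _)).1, rho_eT,
    Tw.coe_hF, Tw.coe_hF, ρ_hw, ρ_hw, h, toM_mul 26 26 _ (length_bw _)])

theorem Tits_aut (σ : MulAut (commutator T2.Fix)) : ∃ k : T2.Fix, MulAut.conjNormal k = σ := by
  have h2 : ∀ t : ZMod 2, t = 0 ∨ t = 1 := by decide
  have h := T2.idxTwo h2
  have φ := (commutator T2.Fix).equivMapOfInjective _ (subtype_injective _)
  refine Tits_abs (twistedF4_two ▸ twoPk_tits) card_T2 (Tits_sat (Tits_map ▸ (sat_append.1 sat_eT).1)) ?_ ?_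
    (h.parSys.comap φ) h.all (fun y hy => (h.parSys.P_empty.trans h.normalizer_subgroupOf).le hy)
    (A := (MulAut.conjNormal : T2.Fix →* _).range) (fun k => ⟨k, MulAut.conjNormal_val⟩)
    ⟨T2.yF * nth 1 eT 2, rfl⟩ ?_ ?_ ?_ ?_ σ
  · rw [Tits_card, ← card_C]
    refine card_le_of_le (genLt_le fun i hi => mem_clos ?_)
    interval_cases i <;> simp [Tits_E]
  · rw [Tits_card, ← card_sylT, sylT]
    refine congrArg (fun H : Subgroup T2.Fix => Nat.card H) (congrArg Subgroup.closure (Set.ext fun y => ?_))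
    simp [Tits_E, evalW_cons, mul_assoc]
  · exact (Tits_eta (w := [0]) (by decide +kernel)).trans (mul_one _)
  · exact (Tits_eta (w := [4]) (by decide +kernel)).trans (mul_one _)
  · exact (Tits_eta (w := [2]) (by decide +kernel)).trans (mul_one _)
  · refine (Tits_eta (w := [6, 7]) (by decide +kernel)).trans ?_
    rw [evalW_cons, evalW_cons, evalW_nil, mul_one]

/-- Involutory automorphisms are inner. -/
def Tits_P (K : Type) [Group K] : Prop := ∀ α : MulAut K, α * α = 1 → α ∈ Inn K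

theorem Tits_fin {G : Type} [Group G] {N : Subgroup G} [N.Normal] (h1 : ∀ σ : MulAut N, ∃ k : G, MulAut.conjNormal k = σ)
    (h2 : ∀ M : Subgroup G, M.Normal → M ≠ ⊥ → N ≤ M) (h3 : ¬ IsMulCommutative N)
    (h4 : ∀ g : G, orderOf g = 2 → g ∈ N) : Tits_P N := fun α h => by
  obtain ⟨k, rfl⟩ := h1 α
  have hk : (MulAut.conjNormal : G →* MulAut N).ker = ⊥ := by
    by_contra hne
    refine h3 ⟨⟨fun a b => ?_⟩⟩
    have e : MulAut.conj a = 1 := MulAut.conjNormal_val.symm.trans (h2 _ inferInstance hne a.2)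
    exact mul_inv_eq_iff_eq_mul.1 (MulEquiv.congr_fun e b)
  have e : k * k = 1 := mem_bot.1 (hk ▸ (map_mul _ k k).trans h)
  by_cases h1 : k = 1
  · rw [h1, map_one]; exact one_mem _
  · exact ⟨⟨k, h4 k (orderOf_eq_prime (by rw [pow_two, e]) h1)⟩, MulAut.conjNormal_val.symm⟩

theorem Tits_inn : Tits_P Lie.TitsGroup := by
  change Tits_P (commutator (Lie.twistedF4 (ZMod 2) 1))
  rw [twistedF4_two]
  exact Tits_fin Tits_aut (T2.comm_le_of_normal (by decide)) T2.not_isMulCommutative_comm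
    fun _ => T2.mem_comm_of_orderOf

end

theorem tits_inn (α : MulAut Lie.TitsGroup) (h : α * α = 1) : α ∈ Inn Lie.TitsGroup := Tits_inn α h

end Cfsg.Agent.QF
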